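/-
Helper library of seat helper23: the largest normal nilpotent Hall subgroup `Cfsg.fittingHall` of a finite
group is a Hall subgroup, and consequences for type-P data (`Cfsg.IsTypePWith`).
Everything lives in the namespace `Cfsg.Agent.Helper23`.
-/
import Cfsg.Prelude.Def_OddOrderLocal

set_option autoImplicit false

namespace Cfsg.Agent.Helper23

/-- The order of a join with a normal subgroup has no new prime divisors. -/
theorem not_dvd_card_sup {G : Type*} [Group G] [Finite G] {p : ℕ} (hp : p.Prime) (A B : Subgroup G)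
    [B.Normal] (hA : ¬ p ∣ Nat.card A) (hB : ¬ p ∣ Nat.card B) : ¬ p ∣ Nat.card ↥(A ⊔ B) := by
  have h1 : Nat.card B * B.relIndex (A ⊔ B) = Nat.card ↥(A ⊔ B) := by
    have := Subgroup.relIndex_mul_relIndex (⊥ : Subgroup G) B (A ⊔ B) bot_le le_sup_right
    simpa using this
  rw [← h1, Subgroup.relIndex_sup_right]
  intro h
  rcases (Nat.Prime.dvd_mul hp).1 h with h | h
  · exact hB h
  · exact hA (h.trans (Subgroup.relIndex_dvd_card B A))

/-- A join of normal subgroups of order prime to `p` has order prime to `p`. -/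
theorem not_dvd_card_sSup {G : Type*} [Group G] [Finite G] {p : ℕ} (hp : p.Prime)
    (S : Set (Subgroup G)) (hS : ∀ N ∈ S, N.Normal ∧ ¬ p ∣ Nat.card N) :
    ¬ p ∣ Nat.card ↥(sSup S) := by
  classical
  have : Fintype (Subgroup G) := Fintype.ofFinite _
  have key : ∀ T : Finset (Subgroup G), (∀ N ∈ T, N.Normal ∧ ¬ p ∣ Nat.card N) →
      (T.sup id).Normal ∧ ¬ p ∣ Nat.card ↥(T.sup id) := by
    intro T hT
    refine Finset.sup_induction (p := fun N : Subgroup G => N.Normal ∧ ¬ p ∣ Nat.card N) ?_ ?_ hT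
    · refine ⟨inferInstance, ?_⟩
      rw [Subgroup.card_bot]
      exact hp.one_lt.ne' ∘ Nat.dvd_one.1
    · rintro A ⟨hAn, hA⟩ B ⟨hBn, hB⟩
      exact ⟨Subgroup.sup_normal A B, not_dvd_card_sup hp A B hA hB⟩
  have h2 := (key S.toFinset (by simpa using hS)).2
  rwa [Finset.sup_id_eq_sSup, Set.coe_toFinset] at h2

/-- If `p` divides the order of a join of normal subgroups, it divides the order of one of them. -/
theorem exists_dvd_card_of_dvd_card_sSup {G : Type*} [Group G] [Finite G] {p : ℕ} (hp : p.Prime)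
    (S : Set (Subgroup G)) (hS : ∀ N ∈ S, N.Normal) (h : p ∣ Nat.card ↥(sSup S)) :
    ∃ N ∈ S, p ∣ Nat.card N := by
  by_contra hcon
  push Not at hcon
  exact not_dvd_card_sSup hp S (fun N hN => ⟨hS N hN, hcon N hN⟩) h

/-- `M_F` is a Hall subgroup of the finite group `M`. -/
theorem fittingHall_coprime (M : Type*) [Group M] [Finite M] :
    (Nat.card (fittingHall M)).Coprime (fittingHall M).index := by
  apply Nat.coprime_of_dvd
  intro p hp h1 h2
  obtain ⟨N, ⟨hNn, hNnil, hNc⟩, hpN⟩ :=
    exists_dvd_card_of_dvd_card_sSup hp _ (fun N hN => hN.1) h1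
  have hle : N ≤ fittingHall M := le_sSup ⟨hNn, hNnil, hNc⟩
  have h3 : p ∣ N.index := h2.trans (Subgroup.index_dvd_of_le hle)
  exact hp.one_lt.ne' (Nat.eq_one_of_dvd_coprimes hNc hpN h3)

/-- An element whose order is prime to the index of a normal subgroup lies in it. -/
theorem mem_of_coprime_orderOf_index {G : Type*} [Group G] (N : Subgroup G) [N.Normal] (g : G)
    (h : (orderOf g).Coprime N.index) : g ∈ N := by
  have h1 : orderOf (QuotientGroup.mk' N g) ∣ orderOf g := orderOf_map_dvd _ g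
  have h2 : orderOf (QuotientGroup.mk' N g) ∣ N.index := orderOf_dvd_natCard _
  have h3 : orderOf (QuotientGroup.mk' N g) = 1 := Nat.eq_one_of_dvd_coprimes h h1 h2
  rw [orderOf_eq_one_iff] at h3
  exact (QuotientGroup.eq_one_iff g).1 h3

theorem card_fittingHallOf {G : Type*} [Group G] (M : Subgroup G) :
    Nat.card (fittingHallOf M) = Nat.card (fittingHall M) :=
  Subgroup.card_map_of_injective M.subtype_injective

/-- A subgroup of `M` meeting `M_F` trivially has order prime to that of `M_F`. -/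
theorem coprime_card_fittingHallOf_of_disjoint {G : Type*} [Group G] [Finite G] (M U : Subgroup G)
    (hUM : U ≤ M) (hdisj : fittingHallOf M ⊓ U = ⊥) :
    (Nat.card (fittingHallOf M)).Coprime (Nat.card U) := by
  apply Nat.coprime_of_dvd
  intro p hp h1 h2
  have : Fact p.Prime := ⟨hp⟩
  obtain ⟨b, hb⟩ := exists_prime_orderOf_dvd_card' p h2
  have hbG : orderOf (b : G) = p := by rw [Subgroup.orderOf_coe]; exact hb
  have hbM : orderOf (⟨(b : G), hUM b.2⟩ : ↥M) = p := by
    rw [Subgroup.orderOf_mk]; exact hbG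
  have hcop : (orderOf (⟨(b : G), hUM b.2⟩ : ↥M)).Coprime (fittingHall ↥M).index := by
    rw [hbM]
    rw [card_fittingHallOf] at h1
    exact Nat.Coprime.coprime_dvd_left h1 (fittingHall_coprime ↥M)
  have hmem := mem_of_coprime_orderOf_index (fittingHall ↥M) _ hcop
  have hmem' : (b : G) ∈ fittingHallOf M := ⟨_, hmem, rfl⟩
  have h4 : (b : G) ∈ fittingHallOf M ⊓ U := Subgroup.mem_inf.2 ⟨hmem', b.2⟩
  rw [hdisj, Subgroup.mem_bot] at h4
  rw [h4, orderOf_one] at hbG
  exact hp.one_lt.ne' hbG.symm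

/-- A subgroup `U` of `M`, normalized by `M`, nilpotent, of order prime to its index in `M`, lies in `M_F`. -/
theorem le_fittingHallOf {G : Type*} [Group G] (M U : Subgroup G) (hUM : U ≤ M)
    (hnorm : M ≤ Subgroup.normalizer (U : Set G)) (hnil : Group.IsNilpotent U)
    (hcop : (Nat.card U).Coprime (U.relIndex M)) : U ≤ fittingHallOf M := by
  have hN : (U.subgroupOf M).Normal := Subgroup.normal_subgroupOf_of_le_normalizer hnorm
  have e : ↥(U.subgroupOf M) ≃* ↥U := Subgroup.subgroupOfEquivOfLe hUM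
  have hnil' : Group.IsNilpotent ↥(U.subgroupOf M) := Group.nilpotent_of_mulEquiv e.symm
  have hcard : Nat.card ↥(U.subgroupOf M) = Nat.card U := Nat.card_congr e.toEquiv
  have hle : U.subgroupOf M ≤ fittingHall ↥M := by
    apply le_sSup
    refine ⟨hN, hnil', ?_⟩
    rw [hcard]
    exact hcop
  have := Subgroup.map_mono (f := M.subtype) hle
  rwa [Subgroup.map_subgroupOf_eq_of_le hUM] at this

/-- The order of `M` when `A`, `B` are complements in `M`. -/
theorem card_of_isComplIn {G : Type*} [Group G] (A B M : Subgroup G) (h : IsComplIn A B M) :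
    Nat.card M = Nat.card A * Nat.card B := by
  obtain ⟨hA, hB, hinf, hprod⟩ := h
  rw [← Nat.card_prod]
  symm
  refine Nat.card_congr (Equiv.ofBijective
    (fun x : ↥A × ↥B => (⟨(x.1 : G) * (x.2 : G), mul_mem (hA x.1.2) (hB x.2.2)⟩ : ↥M)) ⟨?_, ?_⟩)
  · rintro ⟨⟨a, ha⟩, ⟨b, hb⟩⟩ ⟨⟨a', ha'⟩, ⟨b', hb'⟩⟩ hEq
    have hEq' : a * b = a' * b' := congrArg Subtype.val hEq
    have h1 : a'⁻¹ * a = b' * b⁻¹ := by
      calc a'⁻¹ * a = a'⁻¹ * (a * b) * b⁻¹ := by group
        _ = a'⁻¹ * (a' * b') * b⁻¹ := by rw [hEq']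
        _ = b' * b⁻¹ := by group
    have h2 : a'⁻¹ * a ∈ A ⊓ B :=
      Subgroup.mem_inf.2 ⟨mul_mem (inv_mem ha') ha, h1 ▸ mul_mem hb' (inv_mem hb)⟩
    rw [hinf, Subgroup.mem_bot] at h2
    have h3 : a = a' := by
      have := congrArg (fun t => a' * t) h2
      simpa using this
    subst h3
    have h4 : b = b' := mul_left_cancel hEq'
    subst h4
    rfl
  · rintro ⟨m, hm⟩
    obtain ⟨a, ha, b, hb, rfl⟩ := hprod m hm
    exact ⟨(⟨a, ha⟩, ⟨b, hb⟩), rfl⟩

/-- For type-P data, `M_F` and `U` have coprime orders. -/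
theorem typeP_coprime_H_U {G : Type*} [Group G] [Finite G] (M W₁ U W₂ : Subgroup G)
    (hP : IsTypePWith M W₁ U W₂) : (Nat.card (fittingHallOf M)).Coprime (Nat.card U) := by
  obtain ⟨-, hUM', hdisj, -⟩ := hP.U_compl
  exact coprime_card_fittingHallOf_of_disjoint M U (hUM'.trans hP.W₁_compl.1) hdisj

/-- For type-P data `(W₁, U, W₂)` of `M` with `H = M_F`: every element of `C_M(H)` is a product of an element
of `H` and an element of `C_U(H)`. -/
theorem typeP_centralizer_le {G : Type*} [Group G] [Finite G] (M W₁ U W₂ : Subgroup G)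
    (hP : IsTypePWith M W₁ U W₂) :
    M ⊓ Subgroup.centralizer (fittingHallOf M : Set G) ≤
      fittingHallOf M ⊔ (U ⊓ Subgroup.centralizer (fittingHallOf M : Set G)) := by
  intro m hm
  have hmC : m ∈ Subgroup.centralizer (fittingHallOf M : Set G) := (Subgroup.mem_inf.1 hm).2
  have hmF : m ∈ fittingOf M := by
    rw [← hP.fitting_eq]
    exact (le_sup_right : _ ≤ fittingHallOf M ⊔ (M ⊓ Subgroup.centralizer (fittingHallOf M : Set G))) hm
  have hmM' : m ∈ ⁅M, M⁆ := hP.fitting_le hmF
  obtain ⟨hHM', hUM', hdisj, hprod⟩ := hP.U_compl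
  obtain ⟨a, ha, b, hb, hmab⟩ := hprod m hmM'
  have hcop := typeP_coprime_H_U M W₁ U W₂ hP
  set n := Nat.card (fittingHallOf M) with hn
  set u := Nat.card U with hu
  -- `m` commutes with `a`
  have hma : a * m = m * a := (Subgroup.mem_centralizer_iff.1 hmC) a ha
  have hab : Commute a b := by
    have : a * (a * b) = (a * b) * a := by rw [← hmab]; exact hma
    have h2 : a * b = b * a := by
      have h3 : a * (a * b) = a * (b * a) := by rw [this]; group
      exact mul_left_cancel h3
    exact h2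
  have han : a ^ n = 1 := by
    have : (⟨a, ha⟩ : ↥(fittingHallOf M)) ^ n = 1 := pow_card_eq_one'
    exact congrArg Subtype.val this
  have hbu : b ^ u = 1 := by
    have : (⟨b, hb⟩ : ↥U) ^ u = 1 := pow_card_eq_one'
    exact congrArg Subtype.val this
  -- `b` is a power of `m`
  have hbpow : ∃ k : ℕ, b = m ^ k := by
    by_cases hu1 : u = 1
    · refine ⟨0, ?_⟩
      rw [hu1, pow_one] at hbu
      rw [hbu, pow_zero]
    · have hu0 : 0 < u := Nat.card_pos
      have hu2 : 1 < u := by omega
      obtain ⟨c, -, hc⟩ := Nat.exists_mul_mod_eq_one_of_coprime hcop hu2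
      refine ⟨n * c, ?_⟩
      rw [hmab, hab.mul_pow, pow_mul, han, one_pow, one_mul]
      have hmod : n * c ≡ 1 [MOD orderOf b] := by
        have hdvd : orderOf b ∣ u := orderOf_dvd_of_pow_eq_one hbu
        have h1 : n * c ≡ 1 [MOD u] := by
          unfold Nat.ModEq
          rw [hc, Nat.mod_eq_of_lt hu2]
        exact h1.of_dvd hdvd
      have := (pow_eq_pow_iff_modEq (x := b)).2 hmod
      rw [this, pow_one]
  obtain ⟨k, hk⟩ := hbpow
  have hbC : b ∈ Subgroup.centralizer (fittingHallOf M : Set G) := by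
    rw [hk]; exact pow_mem hmC k
  rw [hmab]
  exact mul_mem ((le_sup_left : fittingHallOf M ≤ _) ha)
    ((le_sup_right : U ⊓ Subgroup.centralizer (fittingHallOf M : Set G) ≤ _) (Subgroup.mem_inf.2 ⟨hb, hbC⟩))

/-- For type-P data `(W₁, U, W₂)` of `M` with `H = M_F`: `F(M) = H C_U(H)`. -/
theorem typeP_fittingOf_eq {G : Type*} [Group G] [Finite G] (M W₁ U W₂ : Subgroup G)
    (hP : IsTypePWith M W₁ U W₂) :
    fittingOf M = fittingHallOf M ⊔ (U ⊓ Subgroup.centralizer (fittingHallOf M : Set G)) := by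
  rw [← hP.fitting_eq]
  apply le_antisymm
  · exact sup_le le_sup_left (typeP_centralizer_le M W₁ U W₂ hP)
  · refine sup_le_sup_left ?_ _
    exact inf_le_inf_right _ (hP.U_compl.2.1.trans hP.W₁_compl.1)

/-- A subgroup is closed under commutators. -/
theorem commutator_self_le {G : Type*} [Group G] (U : Subgroup G) : ⁅U, U⁆ ≤ U := by
  rw [Subgroup.commutator_le]
  intro g₁ h₁ g₂ h₂
  rw [commutatorElement_def]
  exact mul_mem (mul_mem (mul_mem h₁ h₂) (inv_mem h₁)) (inv_mem h₂)

/-- For type-P data `(W₁, U, W₂)` of `M` with `H = M_F`: `[U, U]` centralizes `H`, and `U` does not centralize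
`H` unless `U = 1`. -/
theorem typeP_commutator_U {G : Type*} [Group G] [Finite G] (M W₁ U W₂ : Subgroup G)
    (hP : IsTypePWith M W₁ U W₂) :
    ⁅U, U⁆ ≤ Subgroup.centralizer (fittingHallOf M : Set G) ∧
      (U ≠ ⊥ → ¬ U ≤ Subgroup.centralizer (fittingHallOf M : Set G)) := by
  obtain ⟨hHM', hUM', hdisj, hprod⟩ := hP.U_compl
  constructor
  · intro g hg
    have hgU : g ∈ U := commutator_self_le U hg
    have hgM'' : g ∈ ⁅⁅M, M⁆, ⁅M, M⁆⁆ := Subgroup.commutator_mono hUM' hUM' hg
    have hgF : g ∈ fittingHallOf M ⊔ (U ⊓ Subgroup.centralizer (fittingHallOf M : Set G)) := by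
      rw [← typeP_fittingOf_eq M W₁ U W₂ hP, ← hP.fitting_eq]
      exact hP.derived_two_le hgM''
    have hnorm : U ⊓ Subgroup.centralizer (fittingHallOf M : Set G) ≤
        Subgroup.normalizer (fittingHallOf M : Set G) :=
      inf_le_right.trans (Subgroup.centralizer_le_normalizer _)
    have hset := Subgroup.coe_mul_of_right_le_normalizer_left (fittingHallOf M)
      (U ⊓ Subgroup.centralizer (fittingHallOf M : Set G)) hnorm
    have hg' : g ∈ (↑(fittingHallOf M ⊔ (U ⊓ Subgroup.centralizer (fittingHallOf M : Set G))) : Set G) :=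
      hgF
    rw [hset] at hg'
    obtain ⟨a, ha, c, hc, hac⟩ := hg'
    have hac' : a * c = g := hac
    subst hac'
    have hcU : c ∈ U := (Subgroup.mem_inf.1 hc).1
    have hcC : c ∈ Subgroup.centralizer (fittingHallOf M : Set G) := (Subgroup.mem_inf.1 hc).2
    have haU : a ∈ U := by
      have : a = a * c * c⁻¹ := by group
      rw [this]
      exact mul_mem hgU (inv_mem hcU)
    have ha1 : a ∈ fittingHallOf M ⊓ U := Subgroup.mem_inf.2 ⟨ha, haU⟩
    rw [hdisj, Subgroup.mem_bot] at ha1
    rw [ha1, one_mul]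
    exact hcC
  · intro hU hcent
    obtain ⟨hM'M, hW₁M, hdisj₁, hprod₁⟩ := hP.W₁_compl
    have hUM : U ≤ M := hUM'.trans hM'M
    -- `M` normalizes `U`
    have hnorm : M ≤ Subgroup.normalizer (U : Set G) := by
      intro m hm
      obtain ⟨d, hd, w, hw, rfl⟩ := hprod₁ m hm
      obtain ⟨a, ha, b, hb, rfl⟩ := hprod d hd
      have haN : a ∈ Subgroup.normalizer (U : Set G) := by
        apply Subgroup.centralizer_le_normalizer
        rw [Subgroup.mem_centralizer_iff]
        intro u hu
        exact ((Subgroup.mem_centralizer_iff.1 (hcent hu)) a ha).symm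
      exact mul_mem (mul_mem haN (Subgroup.le_normalizer hb)) (hP.U_normal hw)
    -- orders
    have hcM : Nat.card M = Nat.card ↥⁅M, M⁆ * Nat.card W₁ := card_of_isComplIn _ _ _ hP.W₁_compl
    have hcM' : Nat.card ↥⁅M, M⁆ = Nat.card (fittingHallOf M) * Nat.card U :=
      card_of_isComplIn _ _ _ hP.U_compl
    have hUpos : 0 < Nat.card U := Nat.card_pos
    have hWpos : 0 < Nat.card W₁ := Nat.card_pos
    have hrelU : Nat.card U * U.relIndex M = Nat.card M := by
      have := Subgroup.relIndex_mul_relIndex (⊥ : Subgroup G) U M bot_le hUM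
      simpa using this
    have hrelW : Nat.card W₁ * W₁.relIndex M = Nat.card M := by
      have := Subgroup.relIndex_mul_relIndex (⊥ : Subgroup G) W₁ M bot_le hW₁M
      simpa using this
    have hU_rel : U.relIndex M = Nat.card (fittingHallOf M) * Nat.card W₁ := by
      apply Nat.eq_of_mul_eq_mul_left hUpos
      rw [hrelU, hcM, hcM']
      ring
    have hW_rel : W₁.relIndex M = Nat.card (fittingHallOf M) * Nat.card U := by
      apply Nat.eq_of_mul_eq_mul_left hWpos
      rw [hrelW, hcM, hcM']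
      ring
    have hcopHU := typeP_coprime_H_U M W₁ U W₂ hP
    have hcopWU : (Nat.card W₁).Coprime (Nat.card U) := by
      have := hP.W₁_hall
      rw [hW_rel] at this
      exact this.coprime_mul_left_right
    have hcop : (Nat.card U).Coprime (U.relIndex M) := by
      rw [hU_rel]
      exact Nat.Coprime.mul_right hcopHU.symm hcopWU.symm
    have hle := le_fittingHallOf M U hUM hnorm hP.U_nilpotent hcop
    apply hU
    rw [eq_bot_iff, ← hdisj]
    exact le_inf hle le_rfl

end Cfsg.Agent.Helper23
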