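import Mathlib
import Cfsg.Agent.Helper24.GL2

/-!
# Odd-order groups acting on an elementary abelian group of order `p ^ 2`

`mulAut_commutator_pow_eq_one`: if a finite group `H` of odd order acts on an elementary abelian
group `M` of order `p ^ 2`, every element of the commutator subgroup of `H` acts as an
automorphism of order dividing `p`.

`mulAut_eq_one_of_prime_order`: for `p` odd, an automorphism of `M` of prime order `q > p` is
trivial.
-/

namespace Cfsg.Agent.Helper23

open Matrix

/-- A `2 × 2` matrix over a field of characteristic `p` with determinant `1` and a fixed nonzero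
vector has `p`-th power `1`. -/
theorem matrix_pow_char_eq_one {K : Type*} [Field K] (p : ℕ) [Fact p.Prime] [CharP K p]
    (A : Matrix (Fin 2) (Fin 2) K) (v : Fin 2 → K) (hv : v ≠ 0) (hAv : A *ᵥ v = v)
    (hdet : A.det = 1) : A ^ p = 1 := by
  have hp : p.Prime := Fact.out
  have h0 : (A - 1).det = 0 := by
    rw [← Matrix.exists_mulVec_eq_zero_iff]
    exact ⟨v, hv, by rw [Matrix.sub_mulVec, hAv, Matrix.one_mulVec, sub_self]⟩
  have hsq : (A - 1) * (A - 1) = 0 := by
    rw [Matrix.det_fin_two] at h0 hdet
    simp only [Matrix.sub_apply, Matrix.one_apply_eq, Matrix.one_apply_ne, ne_eq, one_ne_zero,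
      not_false_eq_true, zero_ne_one, sub_zero, Fin.isValue] at h0
    have htr : A 0 0 + A 1 1 = 2 := by linear_combination hdet - h0
    ext i j
    fin_cases i <;> fin_cases j <;>
      simp only [Matrix.mul_apply, Fin.sum_univ_two, Matrix.sub_apply, Matrix.one_apply_eq,
        Matrix.one_apply_ne, ne_eq, one_ne_zero, not_false_eq_true, zero_ne_one, sub_zero,
        Fin.isValue, Fin.zero_eta, Fin.mk_one, Matrix.zero_apply]
    · linear_combination (A 0 0 - 1) * htr - h0
    · linear_combination (A 0 1) * htr
    · linear_combination (A 1 0) * htr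
    · linear_combination (A 1 1 - 1) * htr - h0
  have hA : A = (A - 1) + 1 := by abel
  have hcomm : Commute (A - 1) (1 : Matrix (Fin 2) (Fin 2) K) := Commute.one_right _
  have hNp : (A - 1) ^ p = 0 := by
    have h2 : 2 ≤ p := hp.two_le
    obtain ⟨k, rfl⟩ : ∃ k, p = 2 + k := ⟨p - 2, by omega⟩
    rw [pow_add, pow_two, hsq, zero_mul]
  rw [hA, add_pow_char_of_commute p hcomm, hNp, one_pow, zero_add]

section Action

variable {M : Type*} [CommGroup M] [Finite M] (p : ℕ) [Fact p.Prime]

/-- An injective monoid homomorphism from the automorphism group of an elementary abelian group of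
order `p ^ 2` to the `2 × 2` matrices over `ZMod p`. -/
theorem exists_mulAut_matrix_hom (hMp : ∀ x : M, x ^ p = 1) (hcard : Nat.card M = p ^ 2) :
    ∃ ρ : MulAut M →* Matrix (Fin 2) (Fin 2) (ZMod p), Function.Injective ρ := by
  have hp : p.Prime := Fact.out
  haveI : Module (ZMod p) (Additive M) := AddCommGroup.zmodModule (fun x => by
    apply Additive.toMul.injective
    rw [toMul_nsmul, toMul_zero]
    exact hMp _)
  let ρ₀ : MulAut M →* Module.End (ZMod p) (Additive M) :=
    { toFun := fun f => (MonoidHom.toAdditive f.toMonoidHom).toZModLinearMap p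
      map_one' := by
        ext v
        rfl
      map_mul' := fun g h => by
        ext v
        rfl }
  have hρ₀ : ∀ (f : MulAut M) (m : M), ρ₀ f (Additive.ofMul m) = Additive.ofMul (f m) :=
    fun f m => rfl
  have hinj₀ : Function.Injective ρ₀ := by
    intro f g hfg
    ext m
    have := congrArg (fun T : Module.End (ZMod p) (Additive M) => T (Additive.ofMul m)) hfg
    simp only [hρ₀] at this
    exact Additive.ofMul.injective this
  have : Finite (Additive M) := inferInstanceAs (Finite M)
  have hfr : Module.finrank (ZMod p) (Additive M) = 2 := by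
    have h1 := Module.natCard_eq_pow_finrank (K := ZMod p) (V := Additive M)
    have h2 : Nat.card (Additive M) = Nat.card M := rfl
    rw [h2, hcard, Nat.card_zmod] at h1
    exact (Nat.pow_right_injective hp.two_le h1).symm
  let b : Module.Basis (Fin 2) (ZMod p) (Additive M) := Module.finBasisOfFinrankEq _ _ hfr
  let T := LinearMap.toMatrixAlgEquiv b
  refine ⟨(T : Module.End (ZMod p) (Additive M) →* Matrix (Fin 2) (Fin 2) (ZMod p)).comp ρ₀, ?_⟩
  intro f g hfg
  apply hinj₀
  exact T.injective hfg

/-- If a finite group `H` of odd order acts on an elementary abelian group of order `p ^ 2`, the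
elements of its commutator subgroup act as automorphisms of order dividing `p`. -/
theorem mulAut_commutator_pow_eq_one (hMp : ∀ x : M, x ^ p = 1) (hcard : Nat.card M = p ^ 2)
    {H : Type*} [Group H] [Finite H] (hodd : Odd (Nat.card H)) (φ : H →* MulAut M) :
    ∀ g ∈ commutator H, (φ g) ^ p = 1 := by
  obtain ⟨ρ, hρ⟩ := exists_mulAut_matrix_hom p hMp hcard
  let K := AlgebraicClosure (ZMod p)
  let ι : Matrix (Fin 2) (Fin 2) (ZMod p) →+* Matrix (Fin 2) (Fin 2) K :=
    (algebraMap (ZMod p) K).mapMatrix
  have hι : Function.Injective ι := by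
    intro A B hAB
    exact Matrix.map_injective (algebraMap (ZMod p) K).injective hAB
  let ρK : H →* Matrix (Fin 2) (Fin 2) K := (ι : _ →* _).comp (ρ.comp φ)
  obtain ⟨v, hv0, hv⟩ := Cfsg.Agent.Helper24.exists_common_eigenvector_of_odd hodd ρK
  have hmulinv : ∀ a : H, ρK a * ρK a⁻¹ = 1 := fun a => by
    rw [← map_mul, mul_inv_cancel, map_one]
  have hinvmul : ∀ a : H, ρK a⁻¹ * ρK a = 1 := fun a => by
    rw [← map_mul, inv_mul_cancel, map_one]
  -- the subgroup of elements fixing `v` with determinant one
  let S : Subgroup H :=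
    { carrier := {g | ρK g *ᵥ v = v ∧ (ρK g).det = 1}
      one_mem' := by
        refine ⟨?_, ?_⟩
        · rw [map_one, Matrix.one_mulVec]
        · rw [map_one, Matrix.det_one]
      mul_mem' := by
        rintro a b ⟨ha1, ha2⟩ ⟨hb1, hb2⟩
        refine ⟨?_, ?_⟩
        · rw [map_mul, ← Matrix.mulVec_mulVec, hb1, ha1]
        · rw [map_mul, Matrix.det_mul, ha2, hb2, mul_one]
      inv_mem' := by
        rintro a ⟨ha1, ha2⟩
        refine ⟨?_, ?_⟩
        · have h := congrArg (fun w => ρK a⁻¹ *ᵥ w) ha1
          simp only [Matrix.mulVec_mulVec, hinvmul, Matrix.one_mulVec] at h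
          exact h.symm
        · have h := congrArg Matrix.det (hinvmul a)
          rw [Matrix.det_mul, ha2, mul_one, Matrix.det_one] at h
          exact h }
  have hcomm : commutator H ≤ S := by
    rw [commutator_eq_closure, Subgroup.closure_le]
    rintro _ ⟨a, b, rfl⟩
    obtain ⟨ca, hca⟩ := hv a
    obtain ⟨cb, hcb⟩ := hv b
    obtain ⟨ca', hca'⟩ := hv a⁻¹
    obtain ⟨cb', hcb'⟩ := hv b⁻¹
    have hsm : ∀ {c : K}, c • v = v → c = 1 := by
      intro c hc
      by_contra hne
      have h1 : (c - 1) • v = 0 := by rw [sub_smul, hc, one_smul, sub_self]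
      rcases smul_eq_zero.mp h1 with h | h
      · exact hne (sub_eq_zero.mp h)
      · exact hv0 h
    have haa : ca * ca' = 1 := by
      apply hsm
      have h := congrArg (fun A => A *ᵥ v) (hmulinv a)
      simp only [← Matrix.mulVec_mulVec, hca', Matrix.mulVec_smul, hca, Matrix.one_mulVec,
        smul_smul] at h
      rw [mul_comm]
      exact h
    have hbb : cb * cb' = 1 := by
      apply hsm
      have h := congrArg (fun A => A *ᵥ v) (hmulinv b)
      simp only [← Matrix.mulVec_mulVec, hcb', Matrix.mulVec_smul, hcb, Matrix.one_mulVec,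
        smul_smul] at h
      rw [mul_comm]
      exact h
    refine ⟨?_, ?_⟩
    · rw [commutatorElement_def, map_mul, map_mul, map_mul]
      simp only [← Matrix.mulVec_mulVec, hcb', Matrix.mulVec_smul, hca', hcb, hca, smul_smul]
      have : cb' * (ca' * (cb * ca)) = 1 := by
        calc cb' * (ca' * (cb * ca)) = (ca * ca') * (cb * cb') := by ring
          _ = 1 := by rw [haa, hbb, mul_one]
      rw [this, one_smul]
    · rw [commutatorElement_def, map_mul, map_mul, map_mul, Matrix.det_mul, Matrix.det_mul,
        Matrix.det_mul]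
      have h1 := congrArg Matrix.det (hmulinv a)
      have h2 := congrArg Matrix.det (hmulinv b)
      rw [Matrix.det_mul, Matrix.det_one] at h1 h2
      calc (ρK a).det * (ρK b).det * (ρK a⁻¹).det * (ρK b⁻¹).det
          = ((ρK a).det * (ρK a⁻¹).det) * ((ρK b).det * (ρK b⁻¹).det) := by ring
        _ = 1 := by rw [h1, h2, mul_one]
  intro g hg
  obtain ⟨hg1, hg2⟩ := hcomm hg
  have hpow : ρK (g ^ p) = 1 := by
    rw [map_pow]
    exact matrix_pow_char_eq_one p (ρK g) v hv0 hg1 hg2
  have h1 : ρ (φ (g ^ p)) = 1 := by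
    apply hι
    rw [map_one]
    exact hpow
  have h2 : φ (g ^ p) = 1 := by
    apply hρ
    rw [map_one]
    exact h1
  rw [← map_pow]
  exact h2

/-- For `p` odd, an automorphism of an elementary abelian group of order `p ^ 2` whose order
divides a prime `q > p` is trivial. -/
theorem mulAut_eq_one_of_prime_order (hp2 : p ≠ 2) (hMp : ∀ x : M, x ^ p = 1)
    (hcard : Nat.card M = p ^ 2) (f : MulAut M) (q : ℕ) (hq : q.Prime) (hpq : p < q)
    (hf : f ^ q = 1) : f = 1 := by
  have hp : p.Prime := Fact.out
  obtain ⟨ρ, hρ⟩ := exists_mulAut_matrix_hom p hMp hcard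
  let ρu : MulAut M →* GL (Fin 2) (ZMod p) := ρ.toHomUnits
  have hρu : Function.Injective ρu := by
    intro a b hab
    apply hρ
    have := congrArg (fun u : GL (Fin 2) (ZMod p) => (u : Matrix (Fin 2) (Fin 2) (ZMod p))) hab
    simpa [ρu, MonoidHom.coe_toHomUnits] using this
  have hcardGL : Nat.card (GL (Fin 2) (ZMod p)) = (p ^ 2 - 1) * (p ^ 2 - p) := by
    rw [Matrix.card_GL_field, Fin.prod_univ_two, ZMod.card]
    simp
  have ho1 : orderOf (ρu f) ∣ q := by
    apply orderOf_dvd_of_pow_eq_one
    rw [← map_pow, hf, map_one]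
  have ho2 : orderOf (ρu f) ∣ (p ^ 2 - 1) * (p ^ 2 - p) := by
    rw [← hcardGL]
    exact orderOf_dvd_natCard _
  have hone : orderOf (ρu f) = 1 := by
    rcases (Nat.dvd_prime hq).mp ho1 with h | h
    · exact h
    · exfalso
      rw [h] at ho2
      have hp3 : 3 ≤ p := by
        have := hp.two_le
        omega
      have e1 : p ^ 2 - 1 = (p - 1) * (p + 1) := by
        obtain ⟨k, rfl⟩ : ∃ k, p = k + 1 := ⟨p - 1, by omega⟩
        simp only [Nat.add_sub_cancel]
        have : (k + 1) ^ 2 = k * (k + 1 + 1) + 1 := by ring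
        rw [this, Nat.add_sub_cancel]
      have e2 : p ^ 2 - p = p * (p - 1) := by
        obtain ⟨k, rfl⟩ : ∃ k, p = k + 1 := ⟨p - 1, by omega⟩
        simp only [Nat.add_sub_cancel]
        have : (k + 1) ^ 2 = (k + 1) * k + (k + 1) := by ring
        rw [this, Nat.add_sub_cancel]
      rw [e1, e2] at ho2
      have hqp1 : ¬ q ∣ p - 1 := by
        intro hd
        have := Nat.le_of_dvd (by omega) hd
        omega
      have hqp : ¬ q ∣ p := by
        intro hd
        have := Nat.le_of_dvd (by omega) hd
        omega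
      have hqp' : ¬ q ∣ p + 1 := by
        intro hd
        have hle := Nat.le_of_dvd (by omega) hd
        have heq : q = p + 1 := by omega
        have hodd : Odd p := hp.odd_of_ne_two hp2
        have heven : Even (p + 1) := hodd.add_one
        rw [← heq] at heven
        have := (Nat.Prime.even_iff hq).mp heven
        omega
      rcases (Nat.Prime.dvd_mul hq).mp ho2 with h1 | h1
      · rcases (Nat.Prime.dvd_mul hq).mp h1 with h2 | h2
        · exact hqp1 h2
        · exact hqp' h2
      · rcases (Nat.Prime.dvd_mul hq).mp h1 with h2 | h2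
        · exact hqp h2
        · exact hqp1 h2
  have h1 : ρu f = 1 := orderOf_eq_one_iff.mp hone
  apply hρu
  rw [h1, map_one]

end Action

section Internal

variable {G : Type*} [Group G]

/-- The conjugation action of a subgroup `X` of the normalizer of `V` on `V`. -/
def conjActHom (V X : Subgroup G) (h : X ≤ Subgroup.normalizer (V : Set G)) : ↥X →* MulAut ↥V where
  toFun x :=
    { toFun := fun v => ⟨(x : G) * v * (x : G)⁻¹,
        (Subgroup.mem_normalizer_iff.mp (h x.2) v).mp v.2⟩
      invFun := fun v => ⟨(x : G)⁻¹ * v * (x : G), by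
        have := (Subgroup.mem_normalizer_iff.mp (h (X.inv_mem x.2)) v).mp v.2
        simpa using this⟩
      left_inv := fun v => by
        apply Subtype.ext
        simp [mul_assoc]
      right_inv := fun v => by
        apply Subtype.ext
        simp [mul_assoc]
      map_mul' := fun v w => by
        apply Subtype.ext
        simp [mul_assoc] }
  map_one' := by
    ext v
    simp
  map_mul' := fun x y => by
    ext v
    simp [mul_assoc]

theorem conjActHom_apply (V X : Subgroup G) (h : X ≤ Subgroup.normalizer (V : Set G)) (x : X)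
    (v : V) : ((conjActHom V X h x) v : G) = (x : G) * v * (x : G)⁻¹ := rfl

theorem mem_centralizer_of_conjActHom_eq_one (V X : Subgroup G)
    (h : X ≤ Subgroup.normalizer (V : Set G)) (x : X) (hx : conjActHom V X h x = 1) :
    (x : G) ∈ Subgroup.centralizer (V : Set G) := by
  rw [Subgroup.mem_centralizer_iff]
  intro v hv
  have h1 := congrArg (fun f : MulAut ↥V => ((f ⟨v, hv⟩ : V) : G)) hx
  simp only [conjActHom_apply, MulAut.one_apply] at h1
  calc v * (x : G) = ((x : G) * v * (x : G)⁻¹) * (x : G) := by rw [h1]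
    _ = (x : G) * v := by group

variable [Finite G] (p : ℕ) [Fact p.Prime]

/-- A subgroup `X` of odd order normalizing an elementary abelian subgroup `V` of order `p ^ 2`:
`p`-th powers of elements of the commutator subgroup of `X` centralize `V`. -/
theorem pow_mem_centralizer_of_mem_commutator (V X : Subgroup G)
    (hVc : IsMulCommutative V) (hVp : ∀ v ∈ V, v ^ p = 1) (hcard : Nat.card V = p ^ 2)
    (hX : X ≤ Subgroup.normalizer (V : Set G)) (hodd : Odd (Nat.card X)) :
    ∀ g ∈ ⁅X, X⁆, g ^ p ∈ Subgroup.centralizer (V : Set G) := by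
  letI : CommGroup ↥V := { (inferInstance : Group ↥V) with mul_comm := fun a b => hVc.is_comm.comm a b }
  have hMp : ∀ x : ↥V, x ^ p = 1 := fun x => Subtype.ext (by simpa using hVp x x.2)
  intro g hg
  rw [← Subgroup.map_subtype_commutator] at hg
  obtain ⟨g', hg', rfl⟩ := hg
  have h1 := mulAut_commutator_pow_eq_one p hMp hcard hodd (conjActHom V X hX) g' hg'
  rw [← map_pow] at h1
  have h2 := mem_centralizer_of_conjActHom_eq_one V X hX (g' ^ p) h1
  simpa using h2

/-- A subgroup `X` normalizing an elementary abelian subgroup `V` of order `p ^ 2`, `p` odd: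
elements of `X` of prime order `q > p` centralize `V`. -/
theorem mem_centralizer_of_prime_order (hp2 : p ≠ 2) (V X : Subgroup G)
    (hVc : IsMulCommutative V) (hVp : ∀ v ∈ V, v ^ p = 1) (hcard : Nat.card V = p ^ 2)
    (hX : X ≤ Subgroup.normalizer (V : Set G)) (x : G) (hx : x ∈ X) (q : ℕ) (hq : q.Prime)
    (hpq : p < q) (hxq : x ^ q = 1) : x ∈ Subgroup.centralizer (V : Set G) := by
  letI : CommGroup ↥V := { (inferInstance : Group ↥V) with mul_comm := fun a b => hVc.is_comm.comm a b }
  have hMp : ∀ x : ↥V, x ^ p = 1 := fun x => Subtype.ext (by simpa using hVp x x.2)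
  have h1 : (conjActHom V X hX ⟨x, hx⟩) ^ q = 1 := by
    rw [← map_pow]
    have : (⟨x, hx⟩ : X) ^ q = 1 := Subtype.ext (by simpa using hxq)
    rw [this, map_one]
  have h2 := mulAut_eq_one_of_prime_order p hp2 hMp hcard _ q hq hpq h1
  exact mem_centralizer_of_conjActHom_eq_one V X hX ⟨x, hx⟩ h2

end Internal

end Cfsg.Agent.Helper23
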