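/-
helper23: groups of odd order acting on `p`-groups of rank at most two (Bender–Glauberman 4.17):
if `A` has odd order and normalizes a `p`-group `R` (`p` odd) with no elementary abelian subgroup
of order `p ^ 3`, then every `p'`-subgroup of `[A, A]` centralizes `R`, and so does every element
of `A` whose order is a prime larger than `p`.
Everything lives in `Cfsg.Agent.Helper23`.
-/
import Cfsg.Agent.Helper23.Rank2GL
import Cfsg.Agent.Helper24.Coprime
import Cfsg.Agent.Helper29.UniqueOrderP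
import Cfsg.Agent.S1443
import Cfsg.Agent.S1442

set_option autoImplicit false

namespace Cfsg.Agent.Helper23

open Cfsg Subgroup
open scoped commutatorElement

universe u

variable {G : Type u} [Group G]

/-! ### Small tools -/

theorem natCard_subgroupOf_eq {B R : Subgroup G} (hBR : B ≤ R) :
    Nat.card (B.subgroupOf R) = Nat.card B :=
  Nat.card_congr (Subgroup.subgroupOfEquivOfLe hBR).toEquiv

/-- The internal form of `PRankLE p 2 R`. -/
theorem pRank_internal {p : ℕ} {R : Subgroup G} (hr : PRankLE p 2 ↥R) (B : Subgroup G)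
    (hBR : B ≤ R) (hBc : ∀ x ∈ B, ∀ y ∈ B, x * y = y * x) (hBp : ∀ b ∈ B, b ^ p = 1) :
    Nat.card B ≤ p ^ 2 := by
  have h1 : IsMulCommutative (B.subgroupOf R) :=
    ⟨⟨fun a b => Subtype.ext (Subtype.ext
      (hBc _ (Subgroup.mem_subgroupOf.mp a.2) _ (Subgroup.mem_subgroupOf.mp b.2)))⟩⟩
  have h2 : ∀ a ∈ B.subgroupOf R, a ^ p = 1 := fun a ha =>
    Subtype.ext (by simpa using hBp _ (Subgroup.mem_subgroupOf.mp ha))
  have := hr (B.subgroupOf R) h1 h2
  rwa [natCard_subgroupOf_eq hBR] at this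

/-- The elements of order dividing `p` of a subgroup `N` in which they are closed under
multiplication. -/
def powKer (p : ℕ) (N : Subgroup G)
    (h : ∀ x ∈ N, ∀ y ∈ N, x ^ p = 1 → y ^ p = 1 → (x * y) ^ p = 1) : Subgroup G where
  carrier := {x | x ∈ N ∧ x ^ p = 1}
  one_mem' := ⟨N.one_mem, one_pow p⟩
  mul_mem' := fun ⟨ha, ha'⟩ ⟨hb, hb'⟩ => ⟨N.mul_mem ha hb, h _ ha _ hb ha' hb'⟩
  inv_mem' := fun ⟨ha, ha'⟩ => ⟨N.inv_mem ha, by rw [inv_pow, ha', inv_one]⟩

theorem mem_powKer {p : ℕ} {N : Subgroup G}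
    {h : ∀ x ∈ N, ∀ y ∈ N, x ^ p = 1 → y ^ p = 1 → (x * y) ^ p = 1} {x : G} :
    x ∈ powKer p N h ↔ x ∈ N ∧ x ^ p = 1 := Iff.rfl

theorem powKer_le {p : ℕ} {N : Subgroup G}
    (h : ∀ x ∈ N, ∀ y ∈ N, x ^ p = 1 → y ^ p = 1 → (x * y) ^ p = 1) : powKer p N h ≤ N :=
  fun _ hx => hx.1

theorem normalizer_le_normalizer_powKer {p : ℕ} {N : Subgroup G}
    (h : ∀ x ∈ N, ∀ y ∈ N, x ^ p = 1 → y ^ p = 1 → (x * y) ^ p = 1) :
    normalizer (N : Set G) ≤ normalizer ((powKer p N h : Subgroup G) : Set G) := by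
  intro g hg
  have key : ∀ g ∈ normalizer (N : Set G), ∀ x ∈ powKer p N h, g * x * g⁻¹ ∈ powKer p N h := by
    intro g hg x hx
    refine ⟨(Subgroup.mem_normalizer_iff.mp hg x).mp hx.1, ?_⟩
    rw [conj_pow, hx.2, mul_one, mul_inv_cancel]
  refine Cfsg.Agent.Helper24.mem_normalizer_of_conj_mem (key g hg) ?_
  intro x hx
  have := key g⁻¹ (Subgroup.inv_mem _ hg) x hx
  simpa using this

theorem comm_powKer_mul {p : ℕ} {N : Subgroup G} (hN : ∀ x ∈ N, ∀ y ∈ N, x * y = y * x) :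
    ∀ x ∈ N, ∀ y ∈ N, x ^ p = 1 → y ^ p = 1 → (x * y) ^ p = 1 := by
  intro x hx y hy hxp hyp
  rw [(show Commute x y from hN x hx y hy).mul_pow, hxp, hyp, mul_one]

/-- Adjoining to a commutative subgroup a commuting element gives a commutative subgroup. -/
theorem sup_zpowers_comm {E : Subgroup G} (hEc : ∀ x ∈ E, ∀ y ∈ E, x * y = y * x)
    {x : G} (hx : x ∈ centralizer (E : Set G)) :
    ∀ a ∈ E ⊔ zpowers x, ∀ b ∈ E ⊔ zpowers x, a * b = b * a := by
  have h1 : E ⊔ zpowers x ≤ centralizer (E : Set G) ⊓ centralizer ({x} : Set G) := by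
    refine sup_le (le_inf ?_ ?_) (le_inf ?_ ?_)
    · intro e he
      rw [Subgroup.mem_centralizer_iff]
      intro f hf
      exact hEc f hf e he
    · intro e he
      rw [Subgroup.mem_centralizer_iff]
      intro y hy
      rw [Set.mem_singleton_iff] at hy
      subst hy
      exact (Subgroup.mem_centralizer_iff.mp hx e he).symm
    · rw [Subgroup.zpowers_le]; exact hx
    · rw [Subgroup.zpowers_le, Subgroup.mem_centralizer_iff]
      intro y hy
      rw [Set.mem_singleton_iff] at hy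
      subst hy
      rfl
  intro a ha b hb
  have hb' := h1 hb
  have h2 : E ⊔ zpowers x ≤ centralizer ({b} : Set G) := by
    refine sup_le ?_ ?_
    · intro e he
      rw [Subgroup.mem_centralizer_iff]
      intro y hy
      rw [Set.mem_singleton_iff] at hy
      subst hy
      exact (Subgroup.mem_centralizer_iff.mp (Subgroup.mem_inf.mp hb').1 e he).symm
    · rw [Subgroup.zpowers_le, Subgroup.mem_centralizer_iff]
      intro y hy
      rw [Set.mem_singleton_iff] at hy
      subst hy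
      exact (Subgroup.mem_centralizer_iff.mp (Subgroup.mem_inf.mp hb').2 x rfl).symm
  exact (Subgroup.mem_centralizer_iff.mp (h2 ha) b rfl).symm

/-- Adjoining to a commutative subgroup of exponent `p` a commuting element of order dividing `p`
gives a commutative subgroup of exponent `p`. -/
theorem sup_zpowers_comm_exp {p : ℕ} {E : Subgroup G} (hEc : ∀ x ∈ E, ∀ y ∈ E, x * y = y * x)
    (hEp : ∀ e ∈ E, e ^ p = 1) {x : G} (hx : x ∈ centralizer (E : Set G)) (hxp : x ^ p = 1) :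
    (∀ a ∈ E ⊔ zpowers x, ∀ b ∈ E ⊔ zpowers x, a * b = b * a) ∧
      ∀ a ∈ E ⊔ zpowers x, a ^ p = 1 := by
  have hc := sup_zpowers_comm hEc hx
  refine ⟨hc, ?_⟩
  have h3 : E ⊔ zpowers x ≤ powKer p (E ⊔ zpowers x) (comm_powKer_mul hc) := by
    refine sup_le ?_ ?_
    · intro e he
      exact ⟨Subgroup.mem_sup_left he, hEp e he⟩
    · rw [Subgroup.zpowers_le]
      exact ⟨Subgroup.mem_sup_right (Subgroup.mem_zpowers x), hxp⟩
  intro a ha
  exact (h3 ha).2

variable [Finite G]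

/-- **Detection.** In a `p`-group `R` of rank at most two (`p` odd), a `p'`-group normalizing `R`
and centralizing an elementary abelian subgroup of order `p ^ 2` centralizes `R`. -/
theorem le_centralizer_of_le_centralizer_rank2 (p : ℕ) [Fact p.Prime] (hp : p ≠ 2)
    (R E X : Subgroup G) (hR : IsPGroup p R)
    (hr : ∀ B : Subgroup G, B ≤ R → (∀ x ∈ B, ∀ y ∈ B, x * y = y * x) → (∀ b ∈ B, b ^ p = 1) →
      Nat.card B ≤ p ^ 2)
    (hER : E ≤ R) (hEc : ∀ x ∈ E, ∀ y ∈ E, x * y = y * x) (hEp : ∀ e ∈ E, e ^ p = 1)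
    (hEcard : Nat.card E = p ^ 2) (hXR : X ≤ normalizer (R : Set G))
    (hcop : (Nat.card X).Coprime p) (hXE : X ≤ centralizer (E : Set G)) :
    X ≤ centralizer (R : Set G) := by
  have hEe : IsElementaryAbelian p E := ⟨⟨⟨fun a b => Subtype.ext (hEc _ a.2 _ b.2)⟩⟩, hEp⟩
  refine Cfsg.Agent.S1443.result p hp R E X hR hER hEe hXR hcop ?_
  intro x hx hxo
  obtain ⟨hxR, hxE⟩ := Subgroup.mem_inf.mp hx
  have hxp : x ^ p = 1 := by rw [← hxo]; exact pow_orderOf_eq_one x
  obtain ⟨hc, he⟩ := sup_zpowers_comm_exp hEc hEp hxE hxp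
  have hle : E ⊔ zpowers x ≤ R := sup_le hER (by rw [Subgroup.zpowers_le]; exact hxR)
  have hcard := hr _ hle hc he
  have heq : E = E ⊔ zpowers x := Subgroup.eq_of_le_of_card_ge le_sup_left (by rw [hEcard]; exact hcard)
  have hxE' : x ∈ E := by
    rw [heq]
    exact Subgroup.mem_sup_right (Subgroup.mem_zpowers x)
  exact hXE.trans (Subgroup.centralizer_le (Set.singleton_subset_iff.mpr hxE'))

/-- A commutative `p`-subgroup (`p` odd) with at most `p` elements of order dividing `p` is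
cyclic. -/
theorem isCyclic_of_card_powKer_le (p : ℕ) [Fact p.Prime] (hp : p ≠ 2) (N : Subgroup G)
    (hN : IsPGroup p N) (hNc : ∀ x ∈ N, ∀ y ∈ N, x * y = y * x)
    (hΩ : Nat.card (powKer p N (comm_powKer_mul hNc)) ≤ p) : IsCyclic ↥N := by
  obtain ⟨n, hn⟩ := IsPGroup.iff_card.mp hN
  refine Cfsg.Agent.Helper29.isCyclic_of_unique_subgroup_odd hp n hn ?_
  have key : ∀ H : Subgroup ↥N, Nat.card H = p →
      H.map N.subtype = powKer p N (comm_powKer_mul hNc) := by
    intro H hH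
    have hle : H.map N.subtype ≤ powKer p N (comm_powKer_mul hNc) := by
      rintro _ ⟨h, hh, rfl⟩
      refine ⟨h.2, ?_⟩
      have h1 : (⟨h, hh⟩ : H) ^ p = 1 := by
        rw [← hH]; exact pow_card_eq_one'
      have h2 := congrArg (fun z : H => ((z : N) : G)) h1
      simpa using h2
    refine Subgroup.eq_of_le_of_card_ge hle ?_
    rw [Subgroup.card_map_of_injective N.subtype_injective, hH]
    exact hΩ
  intro H K hH hK
  apply Subgroup.map_injective N.subtype_injective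
  rw [key H hH, key K hK]

/-- The commutator subgroup of a group normalizing a cyclic subgroup centralizes it. -/
theorem commutator_le_centralizer_of_isCyclic (N A : Subgroup G) (hN : IsCyclic ↥N)
    (hA : A ≤ normalizer (N : Set G)) : ⁅A, A⁆ ≤ centralizer (N : Set G) := by
  rw [Subgroup.commutator_le]
  intro a ha b hb
  have hcomm : ∀ f g : MulAut ↥N, f * g = g * f := by
    intro f g
    apply (IsCyclic.mulAutMulEquiv ↥N).injective
    rw [map_mul, map_mul, mul_comm]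
  have h1 : conjActHom N A hA (⁅(⟨a, ha⟩ : A), ⟨b, hb⟩⁆) = 1 := by
    rw [commutatorElement_def, map_mul, map_mul, map_mul, map_inv, map_inv,
      hcomm (conjActHom N A hA ⟨a, ha⟩) (conjActHom N A hA ⟨b, hb⟩)]
    group
  have h2 := mem_centralizer_of_conjActHom_eq_one N A hA _ h1
  simpa [commutatorElement_def] using h2

/-- An element of prime order `q > p` normalizing a cyclic `p`-subgroup centralizes it. -/
theorem mem_centralizer_of_prime_order_cyclic (p : ℕ) [Fact p.Prime] (N A : Subgroup G)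
    (hNp : IsPGroup p N) (hN : IsCyclic ↥N) (hA : A ≤ normalizer (N : Set G)) (x : G)
    (hx : x ∈ A) (q : ℕ) (hq : q.Prime) (hpq : p < q) (hxq : x ^ q = 1) :
    x ∈ centralizer (N : Set G) := by
  have hp : p.Prime := Fact.out
  have h1 : (conjActHom N A hA ⟨x, hx⟩) ^ q = 1 := by
    rw [← map_pow]
    have : (⟨x, hx⟩ : A) ^ q = 1 := Subtype.ext (by simpa using hxq)
    rw [this, map_one]
  have ho1 : orderOf (conjActHom N A hA ⟨x, hx⟩) ∣ q := orderOf_dvd_of_pow_eq_one h1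
  have ho2 : orderOf (conjActHom N A hA ⟨x, hx⟩) ∣ (Nat.card ↥N).totient := by
    rw [← IsCyclic.card_mulAut]
    exact orderOf_dvd_natCard _
  have hone : orderOf (conjActHom N A hA ⟨x, hx⟩) = 1 := by
    rcases (Nat.dvd_prime hq).mp ho1 with h | h
    · exact h
    · exfalso
      rw [h] at ho2
      obtain ⟨k, hk⟩ := IsPGroup.iff_card.mp hNp
      rw [hk] at ho2
      rcases Nat.eq_zero_or_pos k with h0 | h0
      · rw [h0, pow_zero, Nat.totient_one] at ho2
        exact hq.one_lt.ne' (Nat.dvd_one.mp ho2)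
      · rw [Nat.totient_prime_pow hp h0] at ho2
        rcases (Nat.Prime.dvd_mul hq).mp ho2 with h2 | h2
        · have h3 := hq.dvd_of_dvd_pow h2
          have := Nat.le_of_dvd hp.pos h3
          omega
        · have := Nat.le_of_dvd (by have := hp.two_le; omega) h2
          omega
  exact mem_centralizer_of_conjActHom_eq_one N A hA ⟨x, hx⟩ (orderOf_eq_one_iff.mp hone)

/-- A `p'`-group normalizing a `p`-group `R` and centralizing a subgroup `N` of `R` with
`C_R(N) ≤ N` centralizes `R`. -/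
theorem le_centralizer_of_self_centralizing (p : ℕ) [Fact p.Prime] (R N X : Subgroup G)
    (hR : IsPGroup p R) (hNR : N ≤ R) (hCN : R ⊓ centralizer (N : Set G) ≤ N)
    (hXR : X ≤ normalizer (R : Set G)) (hcop : (Nat.card X).Coprime p)
    (hXN : X ≤ centralizer (N : Set G)) : X ≤ centralizer (R : Set G) := by
  obtain ⟨n, hn⟩ := IsPGroup.iff_card.mp hR
  have hNX : N ≤ centralizer (X : Set G) := by
    intro y hy
    rw [Subgroup.mem_centralizer_iff]
    intro x hx
    exact (Subgroup.mem_centralizer_iff.mp (hXN hx) y hy).symm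
  refine Cfsg.Agent.S1442.result R X hR.isNilpotent hXR (by rw [hn]; exact hcop.pow_right n) ?_
  intro y hy
  obtain ⟨hyR, hyC⟩ := Subgroup.mem_inf.mp hy
  have hyN : y ∈ centralizer (N : Set G) := by
    rw [Subgroup.mem_centralizer_iff]
    intro z hz
    exact Subgroup.mem_centralizer_iff.mp hyC z (Subgroup.mem_inf.mpr ⟨hNR hz, hNX hz⟩)
  exact Subgroup.mem_inf.mpr ⟨hyR, hNX (hCN (Subgroup.mem_inf.mpr ⟨hyR, hyN⟩))⟩

/-- In a `p`-group `R` with `N` normal, a normal subgroup `C` not inside `N` has an element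
outside `N` that is central of order `p` modulo `N`. -/
theorem exists_central_mod (p : ℕ) [Fact p.Prime] (R N : Subgroup G) (hR : IsPGroup p R) :
    ∀ (n : ℕ) (C : Subgroup G), Nat.card C ≤ n → C ≤ R → R ≤ normalizer (C : Set G) → ¬ C ≤ N →
      ∃ x ∈ C, x ∉ N ∧ (∀ r ∈ R, ⁅x, r⁆ ∈ N) ∧ x ^ p ∈ N := by
  intro n
  induction n with
  | zero =>
    intro C hn
    exact absurd hn (by have : 0 < Nat.card C := Nat.card_pos; omega)
  | succ n ih =>
    intro C hn hCR hRC hCN
    by_cases h : ⁅C, R⁆ ≤ N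
    · obtain ⟨y, hyC, hyN⟩ := SetLike.not_le_iff_exists.mp hCN
      obtain ⟨k, hk⟩ := hR ⟨y, hCR hyC⟩
      have hk' : y ^ p ^ k = 1 := by
        have := congrArg Subtype.val hk
        simpa using this
      have hex : ∃ j, y ^ p ^ j ∈ N := ⟨k, by rw [hk']; exact N.one_mem⟩
      classical
      have hj0 : Nat.find hex ≠ 0 := by
        intro h0
        have := Nat.find_spec hex
        rw [h0, pow_zero, pow_one] at this
        exact hyN this
      obtain ⟨j, hj⟩ : ∃ j, Nat.find hex = j + 1 := ⟨Nat.find hex - 1, by omega⟩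
      refine ⟨y ^ p ^ j, C.pow_mem hyC _, ?_, ?_, ?_⟩
      · exact Nat.find_min hex (by omega : j < Nat.find hex)
      · intro r hr
        exact h (Subgroup.commutator_mem_commutator (C.pow_mem hyC _) hr)
      · have := Nat.find_spec hex
        rw [hj, pow_succ, pow_mul] at this
        exact this
    · have hC1 : C ≠ ⊥ := by
        rintro rfl
        exact hCN bot_le
      have hlt := Cfsg.Agent.Helper24.commutator_lt_of_isPGroup (hR.to_le hCR) hR hRC hC1
      have hcard : Nat.card (⁅C, R⁆ : Subgroup G) ≤ n := by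
        have := Cfsg.Agent.Helper24.card_lt_card_of_lt hlt
        omega
      have hnorm : R ≤ normalizer ((⁅C, R⁆ : Subgroup G) : Set G) := by
        refine le_trans ?_ (Cfsg.Agent.Helper24.normalizer_inf_le_normalizer_commutator C R)
        exact le_inf hRC Subgroup.le_normalizer
      obtain ⟨x, hx, hxN, hxr, hxp⟩ := ih ⁅C, R⁆ hcard (hlt.le.trans hCR) hnorm h
      exact ⟨x, hlt.le hx, hxN, hxr, hxp⟩

/-- A subgroup on which a map restricts to a homomorphism into `T` has order at most the order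
of the kernel times the order of `T`. -/
theorem card_le_card_mul_of_hom (H T K : Subgroup G) (f : G → G) (hfT : ∀ x ∈ H, f x ∈ T)
    (hmul : ∀ x ∈ H, ∀ y ∈ H, f (x * y) = f x * f y)
    (hK : ∀ x ∈ H, f x = 1 → x ∈ K) : Nat.card H ≤ Nat.card K * Nat.card T := by
  let φ : ↥H →* ↥T :=
    MonoidHom.mk' (fun x => ⟨f x, hfT x x.2⟩) (fun x y => Subtype.ext (hmul x x.2 y y.2))
  have h1 : Nat.card ↥H = Nat.card φ.ker * Nat.card φ.range := by
    rw [← Subgroup.index_ker, Subgroup.card_mul_index]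
  have h2 : Nat.card φ.range ≤ Nat.card ↥T := Subgroup.card_le_card_group _
  have h3 : Nat.card φ.ker ≤ Nat.card K := by
    have hle : φ.ker.map H.subtype ≤ K := by
      rintro _ ⟨x, hx, rfl⟩
      apply hK _ x.2
      have := congrArg Subtype.val (MonoidHom.mem_ker.mp hx)
      simpa [φ] using this
    rw [← Subgroup.card_map_of_injective H.subtype_injective]
    exact Subgroup.card_le_of_le hle
  rw [h1]
  exact Nat.mul_le_mul h3 h2

omit [Finite G] in
theorem conj_mem_of_mem_normalizer {N : Subgroup G} {g n : G} (hg : g ∈ normalizer (N : Set G))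
    (hn : n ∈ N) : g * n * g⁻¹ ∈ N :=
  (Subgroup.mem_normalizer_iff.mp hg n).mp hn

omit [Finite G] in
theorem conj_mem_of_mem_normalizer' {N : Subgroup G} {g n : G} (hg : g ∈ normalizer (N : Set G))
    (hn : n ∈ N) : g⁻¹ * n * g ∈ N := by
  have := conj_mem_of_mem_normalizer (Subgroup.inv_mem _ hg) hn
  simpa using this

omit [Finite G] in
/-- The elements of `R` centralizing `N` that are central of order dividing `p` modulo `N`. -/
def dSub (p : ℕ) (R N : Subgroup G) (hRN : R ≤ normalizer (N : Set G)) : Subgroup G where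
  carrier := {x | x ∈ R ∧ x ∈ centralizer (N : Set G) ∧ x ^ p ∈ N ∧ ∀ r ∈ R, ⁅x, r⁆ ∈ N}
  one_mem' := ⟨R.one_mem, Subgroup.one_mem _, by rw [one_pow]; exact N.one_mem, fun r _ => by
    rw [commutatorElement_one_left]; exact N.one_mem⟩
  mul_mem' := by
    rintro x y ⟨hxR, hxC, hxp, hxr⟩ ⟨hyR, hyC, hyp, hyr⟩
    refine ⟨R.mul_mem hxR hyR, Subgroup.mul_mem _ hxC hyC, ?_, ?_⟩
    · have hz : ⁅y, x⁆ ∈ N := hyr x hxR
      have hzx : Commute ⁅y, x⁆ x := Subgroup.mem_centralizer_iff.mp hxC _ hz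
      have hzy : Commute ⁅y, x⁆ y := Subgroup.mem_centralizer_iff.mp hyC _ hz
      rw [Cfsg.Agent.Helper24.mul_pow_of_commutator_commute x y hzx hzy p]
      exact N.mul_mem (N.mul_mem hxp hyp) (N.pow_mem hz _)
    · intro r hr
      rw [commutatorElement_mul_left_eq_conj_mul]
      exact N.mul_mem (conj_mem_of_mem_normalizer (hRN hxR) (hyr r hr)) (hxr r hr)
  inv_mem' := by
    rintro x ⟨hxR, hxC, hxp, hxr⟩
    refine ⟨R.inv_mem hxR, Subgroup.inv_mem _ hxC, ?_, ?_⟩
    · rw [inv_pow]; exact N.inv_mem hxp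
    · intro r hr
      rw [commutatorElement_inv_left]
      have h1 : ⁅r, x⁆ ∈ N := by
        rw [← commutatorElement_inv]; exact N.inv_mem (hxr r hr)
      exact conj_mem_of_mem_normalizer' (hRN hxR) h1

omit [Finite G] in
theorem mem_dSub {p : ℕ} {R N : Subgroup G} {hRN : R ≤ normalizer (N : Set G)} {x : G} :
    x ∈ dSub p R N hRN ↔
      x ∈ R ∧ x ∈ centralizer (N : Set G) ∧ x ^ p ∈ N ∧ ∀ r ∈ R, ⁅x, r⁆ ∈ N := Iff.rfl

omit [Finite G] in
theorem normalizer_le_normalizer_dSub {p : ℕ} {R N : Subgroup G}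
    (hRN : R ≤ normalizer (N : Set G)) :
    normalizer (R : Set G) ⊓ normalizer (N : Set G) ≤
      normalizer ((dSub p R N hRN : Subgroup G) : Set G) := by
  have key : ∀ g, g ∈ normalizer (R : Set G) → g ∈ normalizer (N : Set G) →
      ∀ x ∈ dSub p R N hRN, g * x * g⁻¹ ∈ dSub p R N hRN := by
    rintro g hgR hgN x ⟨hxR, hxC, hxp, hxr⟩
    refine ⟨conj_mem_of_mem_normalizer hgR hxR, ?_, ?_, ?_⟩
    · rw [Subgroup.mem_centralizer_iff]
      intro n hn
      have h1 : g⁻¹ * n * g ∈ N := conj_mem_of_mem_normalizer' hgN hn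
      have h2 := Subgroup.mem_centralizer_iff.mp hxC _ h1
      calc n * (g * x * g⁻¹) = g * ((g⁻¹ * n * g) * x) * g⁻¹ := by group
        _ = g * (x * (g⁻¹ * n * g)) * g⁻¹ := by rw [h2]
        _ = g * x * g⁻¹ * n := by group
    · rw [conj_pow]
      exact conj_mem_of_mem_normalizer hgN hxp
    · intro r hr
      have h1 : g⁻¹ * r * g ∈ R := conj_mem_of_mem_normalizer' hgR hr
      have h2 := conj_mem_of_mem_normalizer hgN (hxr _ h1)
      have h3 : g * ⁅x, g⁻¹ * r * g⁆ * g⁻¹ = ⁅g * x * g⁻¹, r⁆ := by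
        rw [conjugate_commutatorElement]
        congr 1
        group
      rwa [h3] at h2
  rintro g hg
  obtain ⟨hgR, hgN⟩ := Subgroup.mem_inf.mp hg
  refine Cfsg.Agent.Helper24.mem_normalizer_of_conj_mem (key g hgR hgN) ?_
  intro x hx
  have := key g⁻¹ (Subgroup.inv_mem _ hgR) (Subgroup.inv_mem _ hgN) x hx
  simpa using this

omit [Finite G] in
/-- `H ⊓ C(H)` is normalized by the normalizer of `H`. -/
theorem normalizer_le_normalizer_inf_centralizer (H : Subgroup G) :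
    normalizer (H : Set G) ≤ normalizer ((H ⊓ centralizer (H : Set G) : Subgroup G) : Set G) := by
  have key : ∀ g, g ∈ normalizer (H : Set G) → ∀ x ∈ H ⊓ centralizer (H : Set G),
      g * x * g⁻¹ ∈ H ⊓ centralizer (H : Set G) := by
    intro g hg x hx
    obtain ⟨hxH, hxC⟩ := Subgroup.mem_inf.mp hx
    refine Subgroup.mem_inf.mpr ⟨conj_mem_of_mem_normalizer hg hxH, ?_⟩
    rw [Subgroup.mem_centralizer_iff]
    intro n hn
    have h1 : g⁻¹ * n * g ∈ H := conj_mem_of_mem_normalizer' hg hn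
    have h2 := Subgroup.mem_centralizer_iff.mp hxC _ h1
    calc n * (g * x * g⁻¹) = g * ((g⁻¹ * n * g) * x) * g⁻¹ := by group
      _ = g * (x * (g⁻¹ * n * g)) * g⁻¹ := by rw [h2]
      _ = g * x * g⁻¹ * n := by group
  intro g hg
  refine Cfsg.Agent.Helper24.mem_normalizer_of_conj_mem (key g hg) ?_
  intro x hx
  have := key g⁻¹ (Subgroup.inv_mem _ hg) x hx
  simpa using this

omit [Finite G] in
/-- `R ⊓ C(N)` is normalized by `N(R) ⊓ N(N)`. -/
theorem normalizer_le_normalizer_inf_centralizer' (R N : Subgroup G) :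
    normalizer (R : Set G) ⊓ normalizer (N : Set G) ≤
      normalizer ((R ⊓ centralizer (N : Set G) : Subgroup G) : Set G) := by
  have key : ∀ g, g ∈ normalizer (R : Set G) → g ∈ normalizer (N : Set G) →
      ∀ x ∈ R ⊓ centralizer (N : Set G), g * x * g⁻¹ ∈ R ⊓ centralizer (N : Set G) := by
    intro g hgR hgN x hx
    obtain ⟨hxH, hxC⟩ := Subgroup.mem_inf.mp hx
    refine Subgroup.mem_inf.mpr ⟨conj_mem_of_mem_normalizer hgR hxH, ?_⟩
    rw [Subgroup.mem_centralizer_iff]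
    intro n hn
    have h1 : g⁻¹ * n * g ∈ N := conj_mem_of_mem_normalizer' hgN hn
    have h2 := Subgroup.mem_centralizer_iff.mp hxC _ h1
    calc n * (g * x * g⁻¹) = g * ((g⁻¹ * n * g) * x) * g⁻¹ := by group
      _ = g * (x * (g⁻¹ * n * g)) * g⁻¹ := by rw [h2]
      _ = g * x * g⁻¹ * n := by group
  intro g hg
  obtain ⟨hgR, hgN⟩ := Subgroup.mem_inf.mp hg
  refine Cfsg.Agent.Helper24.mem_normalizer_of_conj_mem (key g hgR hgN) ?_
  intro x hx
  have := key g⁻¹ (Subgroup.inv_mem _ hgR) (Subgroup.inv_mem _ hgN) x hx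
  simpa using this

/-- A proper subgroup of a `p`-group has index at least `p`. -/
theorem prime_mul_card_le_of_lt {p : ℕ} [Fact p.Prime] {H K : Subgroup G} (hK : IsPGroup p K)
    (hlt : H < K) : p * Nat.card H ≤ Nat.card K := by
  have hp : p.Prime := Fact.out
  obtain ⟨a, ha⟩ := IsPGroup.iff_card.mp (hK.to_le hlt.le)
  obtain ⟨b, hb⟩ := IsPGroup.iff_card.mp hK
  have h1 := Cfsg.Agent.Helper24.card_lt_card_of_lt hlt
  rw [ha, hb] at h1 ⊢
  have hab : a < b := (Nat.pow_lt_pow_iff_right hp.one_lt).mp h1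
  calc p * p ^ a = p ^ (a + 1) := by ring
    _ ≤ p ^ b := Nat.pow_le_pow_right hp.pos hab

/-- **Case B2.** If a maximal `Γ`-invariant abelian subgroup `N` of `R` is not self-centralizing
(and `R` has no `Γ`-invariant elementary abelian subgroup of order `p ^ 2`), then `R` has a
`Γ`-invariant subgroup `D₀` of order `p ^ 3` and exponent `p` with centre `E₁` of order `p`. -/
theorem exists_extraspecial_of_not_self_centralizing (p : ℕ) [Fact p.Prime] (hp : p ≠ 2)
    (R Γ N : Subgroup G) (hR : IsPGroup p R) (hRΓ : R ≤ Γ) (hΓR : Γ ≤ normalizer (R : Set G))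
    (hr : ∀ B : Subgroup G, B ≤ R → (∀ x ∈ B, ∀ y ∈ B, x * y = y * x) → (∀ b ∈ B, b ^ p = 1) →
      Nat.card B ≤ p ^ 2)
    (hB : ∀ E : Subgroup G, E ≤ R → Γ ≤ normalizer (E : Set G) →
      (∀ x ∈ E, ∀ y ∈ E, x * y = y * x) → (∀ e ∈ E, e ^ p = 1) → Nat.card E ≤ p)
    (hNR : N ≤ R) (hΓN : Γ ≤ normalizer (N : Set G)) (hNc : ∀ x ∈ N, ∀ y ∈ N, x * y = y * x)
    (hNmax : ∀ N' : Subgroup G, N' ≤ R → Γ ≤ normalizer (N' : Set G) →
      (∀ x ∈ N', ∀ y ∈ N', x * y = y * x) → N ≤ N' → N' = N)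
    (hCN : ¬ R ⊓ centralizer (N : Set G) ≤ N) :
    ∃ D₀ E₁ E₂ : Subgroup G, E₁ ≤ D₀ ∧ E₂ ≤ D₀ ∧ D₀ ≤ R ∧ Γ ≤ normalizer (D₀ : Set G) ∧
      Γ ≤ normalizer (E₁ : Set G) ∧ Nat.card E₁ = p ∧ Nat.card D₀ = p ^ 3 ∧
      (∀ d ∈ D₀, d ^ p = 1) ∧ (∀ x ∈ D₀, ∀ y ∈ D₀, ⁅x, y⁆ ∈ E₁) ∧
      (∀ e ∈ E₁, ∀ d ∈ D₀, e * d = d * e) ∧ (∀ x ∈ E₂, ∀ y ∈ E₂, x * y = y * x) ∧
      (∀ e ∈ E₂, e ^ p = 1) ∧ Nat.card E₂ = p ^ 2 := by
  have hp' : p.Prime := Fact.out
  have hp3 : 3 ≤ p := by have := hp'.two_le; omega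
  have hRN : R ≤ normalizer (N : Set G) := hRΓ.trans hΓN
  -- `E₁ = Ω₁(N)`
  set E₁ := powKer p N (comm_powKer_mul hNc) with hE₁
  have hE₁N : E₁ ≤ N := powKer_le _
  have hΓE₁ : Γ ≤ normalizer (E₁ : Set G) := hΓN.trans (normalizer_le_normalizer_powKer _)
  have hE₁c : ∀ x ∈ E₁, ∀ y ∈ E₁, x * y = y * x :=
    fun x hx y hy => hNc x (hE₁N hx) y (hE₁N hy)
  have hE₁p : ∀ e ∈ E₁, e ^ p = 1 := fun e he => he.2
  have hE₁card_le : Nat.card E₁ ≤ p := hB E₁ (hE₁N.trans hNR) hΓE₁ hE₁c hE₁p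
  -- `D`
  set D := dSub p R N hRN with hD
  have hDR : D ≤ R := fun x hx => hx.1
  have hDC : D ≤ centralizer (N : Set G) := fun x hx => hx.2.1
  have hND : N ≤ D := by
    intro n hn
    refine ⟨hNR hn, ?_, N.pow_mem hn p, ?_⟩
    · rw [Subgroup.mem_centralizer_iff]
      intro m hm
      exact hNc m hm n hn
    · intro r hr
      have h1 : r * n⁻¹ * r⁻¹ ∈ N := conj_mem_of_mem_normalizer (hRN hr) (N.inv_mem hn)
      have e : ⁅n, r⁆ = n * (r * n⁻¹ * r⁻¹) := by simp [commutatorElement_def, mul_assoc]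
      rw [e]
      exact N.mul_mem hn h1
  have hΓD : Γ ≤ normalizer (D : Set G) :=
    (le_inf hΓR hΓN).trans (normalizer_le_normalizer_dSub hRN)
  have hDN : ¬ D ≤ N := by
    intro hle
    have hnC : R ≤ normalizer ((R ⊓ centralizer (N : Set G) : Subgroup G) : Set G) :=
      (le_inf Subgroup.le_normalizer hRN).trans (normalizer_le_normalizer_inf_centralizer' R N)
    obtain ⟨x, hxC, hxN, hxr, hxp⟩ :=
      exists_central_mod p R N hR _ _ le_rfl inf_le_left hnC hCN
    exact hxN (hle ⟨(Subgroup.mem_inf.mp hxC).1, (Subgroup.mem_inf.mp hxC).2, hxp, hxr⟩)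
  have hDcomm : ∀ x ∈ D, ∀ y ∈ D, ⁅x, y⁆ ∈ N := fun x hx y hy => hx.2.2.2 y (hDR hy)
  have hDN_comm : ∀ x ∈ D, ∀ n ∈ N, n * x = x * n :=
    fun x hx n hn => Subgroup.mem_centralizer_iff.mp (hDC hx) n hn
  -- `Z(D) = N`
  have hZD : ∀ x ∈ D, (∀ y ∈ D, y * x = x * y) → x ∈ N := by
    intro x hx hxc
    have h1 := hNmax (D ⊓ centralizer (D : Set G)) (inf_le_left.trans hDR)
      (hΓD.trans (normalizer_le_normalizer_inf_centralizer D))
      (fun a ha b hb =>
        Subgroup.mem_centralizer_iff.mp (Subgroup.mem_inf.mp hb).2 a (Subgroup.mem_inf.mp ha).1)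
      (fun n hn => Subgroup.mem_inf.mpr ⟨hND hn, Subgroup.mem_centralizer_iff.mpr
        (fun d hd => (hDN_comm d hd n hn).symm)⟩)
    have h2 : x ∈ D ⊓ centralizer (D : Set G) :=
      Subgroup.mem_inf.mpr ⟨hx, Subgroup.mem_centralizer_iff.mpr hxc⟩
    rw [h1] at h2
    exact h2
  have hcomm_pow : ∀ x ∈ D, ∀ y ∈ D, ⁅y, x⁆ ^ p = 1 := by
    intro x hx y hy
    have hz : ⁅y, x⁆ ∈ N := hDcomm y hy x hx
    have hzy : Commute ⁅y, x⁆ y := hDN_comm y hy _ hz
    rw [← Cfsg.Agent.Helper24.commutator_pow_left_of_commute x y hzy p,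
      commutatorElement_eq_one_iff_mul_comm]
    exact hDN_comm x hx _ hy.2.2.1
  have hcommE₁ : ∀ x ∈ D, ∀ y ∈ D, ⁅x, y⁆ ∈ E₁ :=
    fun x hx y hy => ⟨hDcomm x hx y hy, hcomm_pow y hy x hx⟩
  have hpowmul : ∀ x ∈ D, ∀ y ∈ D, (x * y) ^ p = x ^ p * y ^ p := by
    intro x hx y hy
    have hz : ⁅y, x⁆ ∈ N := hDcomm y hy x hx
    rw [Cfsg.Agent.Helper24.mul_pow_of_commutator_commute x y (hDN_comm x hx _ hz)
      (hDN_comm y hy _ hz) p]
    obtain ⟨k, hk⟩ := hp'.dvd_choose_self (k := 2) (by norm_num) (by omega)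
    rw [hk, pow_mul, hcomm_pow x hx y hy, one_pow, mul_one]
  have hD₀mul : ∀ x ∈ D, ∀ y ∈ D, x ^ p = 1 → y ^ p = 1 → (x * y) ^ p = 1 := by
    intro x hx y hy hxp hyp
    rw [hpowmul x hx y hy, hxp, hyp, one_mul]
  set D₀ := powKer p D hD₀mul with hD₀
  have hD₀D : D₀ ≤ D := powKer_le _
  have hΓD₀ : Γ ≤ normalizer (D₀ : Set G) := hΓD.trans (normalizer_le_normalizer_powKer _)
  have hE₁D₀ : E₁ ≤ D₀ := fun e he => ⟨hND he.1, he.2⟩
  have hE₁central : ∀ e ∈ E₁, ∀ d ∈ D₀, e * d = d * e :=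
    fun e he d hd => hDN_comm d (hD₀D hd) e he.1
  -- `N ≠ ⊥`, `card E₁ = p`
  have hR1 : R ≠ ⊥ := by
    rintro rfl
    exact hCN (inf_le_left.trans bot_le)
  have hN1 : N ≠ ⊥ := by
    intro hN
    have h1 := hNmax (R ⊓ centralizer (R : Set G)) inf_le_left
      (hΓR.trans (normalizer_le_normalizer_inf_centralizer R))
      (fun a ha b hb =>
        Subgroup.mem_centralizer_iff.mp (Subgroup.mem_inf.mp hb).2 a (Subgroup.mem_inf.mp ha).1)
      (by rw [hN]; exact bot_le)
    haveI : Nontrivial ↥R := (Subgroup.nontrivial_iff_ne_bot R).mpr hR1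
    have hc := hR.bot_lt_center
    obtain ⟨z, hzc, hzb⟩ := SetLike.exists_of_lt hc
    have h2 : (z : G) ∈ R ⊓ centralizer (R : Set G) :=
      Subgroup.mem_inf.mpr ⟨z.2, Subgroup.mem_centralizer_iff.mpr (fun r hr => by
        have := Subgroup.mem_center_iff.mp hzc ⟨r, hr⟩
        exact congrArg Subtype.val this)⟩
    rw [h1, hN] at h2
    exact hzb (Subgroup.mem_bot.mpr (Subtype.ext (Subgroup.mem_bot.mp h2)))
  have hE₁1 : E₁ ≠ ⊥ := by
    obtain ⟨k, hk⟩ := IsPGroup.iff_card.mp (hR.to_le hNR)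
    have hk0 : k ≠ 0 := by
      rintro rfl
      rw [pow_zero] at hk
      exact hN1 (Subgroup.card_eq_one.mp hk)
    have hdvd : p ∣ Nat.card ↥N := by rw [hk]; exact dvd_pow_self p hk0
    obtain ⟨n, hn⟩ := exists_prime_orderOf_dvd_card' p hdvd
    intro hbot
    have h1 : (n : G) ∈ E₁ := by
      refine ⟨n.2, ?_⟩
      have h2 : n ^ p = 1 := by rw [← hn]; exact pow_orderOf_eq_one n
      have := congrArg Subtype.val h2
      simpa using this
    rw [hbot, Subgroup.mem_bot] at h1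
    have h3 : n = 1 := Subtype.ext h1
    rw [h3, orderOf_one] at hn
    exact hp'.one_lt.ne hn
  have hE₁card : Nat.card E₁ = p := by
    obtain ⟨k, hk⟩ := IsPGroup.iff_card.mp (hR.to_le (hE₁N.trans hNR))
    rcases k with _ | k
    · exfalso
      rw [pow_zero] at hk
      exact hE₁1 (Subgroup.card_eq_one.mp hk)
    · rw [hk] at hE₁card_le
      have hk0 : k = 0 := by
        by_contra hk0
        have h1 : p ^ 2 ≤ p ^ (k + 1) := Nat.pow_le_pow_right hp'.pos (by omega)
        have h2 : p < p ^ 2 := by nlinarith [hp'.two_le]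
        omega
      rw [hk, hk0, zero_add, pow_one]
  -- `Z(D₀) = E₁`
  have hZ₀ : ∀ x ∈ D₀, (∀ y ∈ D₀, y * x = x * y) → x ∈ E₁ := by
    intro x hx hxc
    have hcard : Nat.card (D₀ ⊓ centralizer (D₀ : Set G) : Subgroup G) ≤ p :=
      hB _ (inf_le_left.trans (hD₀D.trans hDR))
        (hΓD₀.trans (normalizer_le_normalizer_inf_centralizer D₀))
        (fun a ha b hb =>
          Subgroup.mem_centralizer_iff.mp (Subgroup.mem_inf.mp hb).2 a (Subgroup.mem_inf.mp ha).1)
        (fun e he => (Subgroup.mem_inf.mp he).1.2)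
    have hle : E₁ ≤ D₀ ⊓ centralizer (D₀ : Set G) := fun e he =>
      Subgroup.mem_inf.mpr ⟨hE₁D₀ he, Subgroup.mem_centralizer_iff.mpr
        (fun d hd => (hE₁central e he d hd).symm)⟩
    have heq : E₁ = D₀ ⊓ centralizer (D₀ : Set G) :=
      Subgroup.eq_of_le_of_card_ge hle (by rw [hE₁card]; exact hcard)
    rw [heq]
    exact Subgroup.mem_inf.mpr ⟨hx, Subgroup.mem_centralizer_iff.mpr hxc⟩
  -- `D₀` is not commutative
  have hD₀nc : ∃ x ∈ D₀, ∃ y ∈ D₀, x * y ≠ y * x := by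
    by_contra hcon
    push Not at hcon
    have hD₀E₁ : D₀ ≤ E₁ := fun x hx => hZ₀ x hx (fun y hy => hcon y hy x hx)
    have h1 : Nat.card D ≤ Nat.card D₀ * Nat.card N :=
      card_le_card_mul_of_hom D N D₀ (fun x => x ^ p) (fun x hx => hx.2.2.1)
        (fun x hx y hy => hpowmul x hx y hy) (fun x hx hxp => ⟨hx, hxp⟩)
    have h2 : Nat.card D₀ ≤ p := hE₁card ▸ Subgroup.card_le_of_le hD₀E₁
    obtain ⟨x, hxD, hxN⟩ := SetLike.not_le_iff_exists.mp hDN
    have hxC : x ∈ centralizer (N : Set G) := hDC hxD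
    have hTc := sup_zpowers_comm hNc hxC
    have hTD : N ⊔ zpowers x ≤ D := sup_le hND (Subgroup.zpowers_le.mpr hxD)
    have hlt : N < N ⊔ zpowers x := lt_of_le_of_ne le_sup_left
      (fun h => hxN (h ▸ Subgroup.mem_sup_right (Subgroup.mem_zpowers x)))
    have h3 := prime_mul_card_le_of_lt (hR.to_le (hTD.trans hDR)) hlt
    have hTeq : N ⊔ zpowers x = D := Subgroup.eq_of_le_of_card_ge hTD (by
      calc Nat.card D ≤ Nat.card D₀ * Nat.card N := h1
        _ ≤ p * Nat.card N := Nat.mul_le_mul_right _ h2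
        _ ≤ Nat.card (N ⊔ zpowers x : Subgroup G) := h3)
    refine hDN (fun d hd => hZD d hd (fun y hy => ?_))
    rw [← hTeq] at hd hy
    exact hTc y hy d hd
  obtain ⟨x, hx, y, hy, hxy⟩ := hD₀nc
  have hxE₁ : x ∉ E₁ := fun h => hxy (hE₁central x h y hy)
  have hxC : x ∈ centralizer (E₁ : Set G) :=
    Subgroup.mem_centralizer_iff.mpr (fun e he => hE₁central e he x hx)
  obtain ⟨hE₂c, hE₂p⟩ := sup_zpowers_comm_exp hE₁c hE₁p hxC hx.2
  have hE₂D₀ : E₁ ⊔ zpowers x ≤ D₀ := sup_le hE₁D₀ (Subgroup.zpowers_le.mpr hx)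
  have hD₀R : D₀ ≤ R := hD₀D.trans hDR
  have hE₂card : Nat.card (E₁ ⊔ zpowers x : Subgroup G) = p ^ 2 := by
    have h1 := hr _ (hE₂D₀.trans hD₀R) hE₂c hE₂p
    have hlt : E₁ < E₁ ⊔ zpowers x := lt_of_le_of_ne le_sup_left
      (fun h => hxE₁ (h ▸ Subgroup.mem_sup_right (Subgroup.mem_zpowers x)))
    have h2 := prime_mul_card_le_of_lt (hR.to_le (hE₂D₀.trans hD₀R)) hlt
    rw [hE₁card] at h2
    have h3 : p * p = p ^ 2 := by ring
    omega
  have hCx : D₀ ⊓ centralizer ({x} : Set G) ≤ E₁ ⊔ zpowers x := by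
    intro y' hy'
    obtain ⟨hy'D, hy'C⟩ := Subgroup.mem_inf.mp hy'
    have hy'cent : y' ∈ centralizer ((E₁ ⊔ zpowers x : Subgroup G) : Set G) := by
      have hle : E₁ ⊔ zpowers x ≤ centralizer ({y'} : Set G) := by
        refine sup_le ?_ ?_
        · intro e he
          rw [Subgroup.mem_centralizer_iff]
          intro z hz
          rw [Set.mem_singleton_iff] at hz
          subst hz
          exact (hE₁central e he z hy'D).symm
        · rw [Subgroup.zpowers_le, Subgroup.mem_centralizer_iff]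
          intro z hz
          rw [Set.mem_singleton_iff] at hz
          subst hz
          exact (Subgroup.mem_centralizer_iff.mp hy'C x rfl).symm
      rw [Subgroup.mem_centralizer_iff]
      intro e he
      exact (Subgroup.mem_centralizer_iff.mp (hle he) y' rfl).symm
    obtain ⟨hc3, hp3'⟩ := sup_zpowers_comm_exp hE₂c hE₂p hy'cent hy'D.2
    have h3 := hr _ (sup_le (hE₂D₀.trans hD₀R) (Subgroup.zpowers_le.mpr (hD₀R hy'D))) hc3 hp3'
    have heq : E₁ ⊔ zpowers x = E₁ ⊔ zpowers x ⊔ zpowers y' :=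
      Subgroup.eq_of_le_of_card_ge le_sup_left (by rw [hE₂card]; exact h3)
    rw [heq]
    exact Subgroup.mem_sup_right (Subgroup.mem_zpowers y')
  have hCxcard : Nat.card (D₀ ⊓ centralizer ({x} : Set G) : Subgroup G) ≤ p ^ 2 :=
    hE₂card ▸ Subgroup.card_le_of_le hCx
  have h4 : Nat.card D₀ ≤
      Nat.card (D₀ ⊓ centralizer ({x} : Set G) : Subgroup G) * Nat.card E₁ := by
    refine card_le_card_mul_of_hom D₀ E₁ _ (fun y => ⁅x, y⁆)
      (fun y hy => hcommE₁ x (hD₀D hx) y (hD₀D hy)) ?_ ?_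
    · intro a ha b hb
      have he : ⁅x, b⁆ ∈ E₁ := hcommE₁ x (hD₀D hx) b (hD₀D hb)
      have hcomm := hE₁central _ he a ha
      show ⁅x, a * b⁆ = ⁅x, a⁆ * ⁅x, b⁆
      rw [commutatorElement_mul_right_eq_mul_conj]
      calc ⁅x, a⁆ * a * ⁅x, b⁆ * a⁻¹ = ⁅x, a⁆ * (a * ⁅x, b⁆) * a⁻¹ := by group
        _ = ⁅x, a⁆ * (⁅x, b⁆ * a) * a⁻¹ := by rw [hcomm]
        _ = ⁅x, a⁆ * ⁅x, b⁆ := by group
    · intro a ha hxa
      refine Subgroup.mem_inf.mpr ⟨ha, ?_⟩
      rw [Subgroup.mem_centralizer_iff]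
      intro z hz
      rw [Set.mem_singleton_iff] at hz
      subst hz
      exact commutatorElement_eq_one_iff_mul_comm.mp hxa
  have hlt : D₀ ⊓ centralizer ({x} : Set G) < D₀ := by
    refine lt_of_le_of_ne inf_le_left (fun h => hxy ?_)
    have hy' : y ∈ D₀ ⊓ centralizer ({x} : Set G) := by rw [h]; exact hy
    exact Subgroup.mem_centralizer_iff.mp (Subgroup.mem_inf.mp hy').2 x rfl
  have hE₂Cx : E₁ ⊔ zpowers x ≤ D₀ ⊓ centralizer ({x} : Set G) := by
    refine le_inf hE₂D₀ (sup_le ?_ ?_)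
    · intro e he
      rw [Subgroup.mem_centralizer_iff]
      intro z hz
      rw [Set.mem_singleton_iff] at hz
      subst hz
      exact (hE₁central e he z hx).symm
    · rw [Subgroup.zpowers_le, Subgroup.mem_centralizer_iff]
      intro z hz
      rw [Set.mem_singleton_iff] at hz
      subst hz
      rfl
  have hCxcard' : p ^ 2 ≤ Nat.card (D₀ ⊓ centralizer ({x} : Set G) : Subgroup G) :=
    hE₂card ▸ Subgroup.card_le_of_le hE₂Cx
  have h5 := prime_mul_card_le_of_lt (hR.to_le hD₀R) hlt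
  have hD₀card : Nat.card D₀ = p ^ 3 := by
    rw [hE₁card] at h4
    have e1 : Nat.card (D₀ ⊓ centralizer ({x} : Set G) : Subgroup G) = p ^ 2 :=
      le_antisymm hCxcard hCxcard'
    rw [e1] at h4 h5
    have e2 : p * p ^ 2 = p ^ 3 := by ring
    have e3 : p ^ 2 * p = p ^ 3 := by ring
    omega
  exact ⟨D₀, E₁, E₁ ⊔ zpowers x, hE₁D₀, hE₂D₀, hD₀R, hΓD₀, hΓE₁, hE₁card, hD₀card,
    fun d hd => hd.2, fun a ha b hb => hcommE₁ a (hD₀D ha) b (hD₀D hb), hE₁central,
    hE₂c, hE₂p, hE₂card⟩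

/-- The order of the image of `D ≥ E` in the quotient by `E`. -/
theorem card_map_mk_mul_card {Γ : Type*} [Group Γ] [Finite Γ] (E D : Subgroup Γ) [E.Normal]
    (hED : E ≤ D) : Nat.card (D.map (QuotientGroup.mk' E)) * Nat.card E = Nat.card D := by
  have hcomap : (D.map (QuotientGroup.mk' E)).comap (QuotientGroup.mk' E) = D := by
    rw [Subgroup.comap_map_eq, QuotientGroup.ker_mk']
    exact sup_eq_left.mpr hED
  have hidx : D.index = (D.map (QuotientGroup.mk' E)).index := by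
    conv_lhs => rw [← hcomap]
    exact Subgroup.index_comap_of_surjective _ (QuotientGroup.mk'_surjective E)
  have h1 := (D.map (QuotientGroup.mk' E)).card_mul_index
  have h2 := Subgroup.card_eq_card_quotient_mul_card_subgroup E
  have h3 := D.card_mul_index
  have h4 : (Nat.card (D.map (QuotientGroup.mk' E)) * Nat.card E) *
      (D.map (QuotientGroup.mk' E)).index = Nat.card D * (D.map (QuotientGroup.mk' E)).index := by
    calc (Nat.card (D.map (QuotientGroup.mk' E)) * Nat.card E) *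
          (D.map (QuotientGroup.mk' E)).index
        = (Nat.card (D.map (QuotientGroup.mk' E)) * (D.map (QuotientGroup.mk' E)).index) *
          Nat.card E := by ring
      _ = Nat.card Γ := by rw [h1, ← h2]
      _ = Nat.card D * (D.map (QuotientGroup.mk' E)).index := by rw [← hidx, h3]
  exact Nat.eq_of_mul_eq_mul_right
    (Nat.pos_of_ne_zero (Subgroup.index_ne_zero_of_finite)) h4

/-- The action of an odd-order group on `D / E`, where `D` has order `p ^ 3`, exponent `p` and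
`E` of order `p` contains the commutators of `D`. -/
theorem quot_action (p : ℕ) [Fact p.Prime] {Γ : Type*} [Group Γ] [Finite Γ] (E D A : Subgroup Γ)
    [E.Normal] (hED : E ≤ D) (hA : A ≤ normalizer (D : Set Γ)) (hEcard : Nat.card E = p)
    (hDcard : Nat.card D = p ^ 3) (hDp : ∀ d ∈ D, d ^ p = 1)
    (hDc : ∀ x ∈ D, ∀ y ∈ D, ⁅x, y⁆ ∈ E) (hodd : Odd (Nat.card A)) :
    (∀ g ∈ ⁅A, A⁆, ∀ d ∈ D, ⁅d, g ^ p⁆ ∈ E) ∧
      (p ≠ 2 → ∀ x ∈ A, ∀ q : ℕ, q.Prime → p < q → x ^ q = 1 → ∀ d ∈ D, ⁅d, x⁆ ∈ E) := by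
  have hp : p.Prime := Fact.out
  have hVc : IsMulCommutative (D.map (QuotientGroup.mk' E)) := by
    refine ⟨⟨fun a b => Subtype.ext ?_⟩⟩
    obtain ⟨d, hd, hda⟩ := a.2
    obtain ⟨d', hd', hdb⟩ := b.2
    show (a : Γ ⧸ E) * b = b * a
    rw [← hda, ← hdb, ← map_mul, ← map_mul]
    apply QuotientGroup.eq.mpr
    have e : (d * d')⁻¹ * (d' * d) = ⁅d'⁻¹, d⁻¹⁆ := by simp [commutatorElement_def, mul_assoc]
    rw [e]
    exact hDc _ (D.inv_mem hd') _ (D.inv_mem hd)
  have hVp : ∀ v ∈ D.map (QuotientGroup.mk' E), v ^ p = 1 := by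
    rintro _ ⟨d, hd, rfl⟩
    rw [← map_pow, hDp d hd, map_one]
  have hVcard : Nat.card (D.map (QuotientGroup.mk' E)) = p ^ 2 := by
    have h := card_map_mk_mul_card E D hED
    rw [hEcard, hDcard] at h
    have e : p ^ 3 = p ^ 2 * p := by ring
    rw [e] at h
    exact Nat.eq_of_mul_eq_mul_right hp.pos h
  have hXV : A.map (QuotientGroup.mk' E) ≤
      normalizer ((D.map (QuotientGroup.mk' E) : Subgroup (Γ ⧸ E)) : Set (Γ ⧸ E)) := by
    have key : ∀ a ∈ A, ∀ v ∈ D.map (QuotientGroup.mk' E),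
        (QuotientGroup.mk' E) a * v * ((QuotientGroup.mk' E) a)⁻¹ ∈ D.map (QuotientGroup.mk' E) := by
      rintro a ha _ ⟨d, hd, rfl⟩
      exact ⟨a * d * a⁻¹, conj_mem_of_mem_normalizer (hA ha) hd, by simp⟩
    rintro _ ⟨a, ha, rfl⟩
    refine Cfsg.Agent.Helper24.mem_normalizer_of_conj_mem (key a ha) ?_
    intro v hv
    have := key a⁻¹ (A.inv_mem ha) v hv
    simpa using this
  have hXodd : Odd (Nat.card (A.map (QuotientGroup.mk' E))) :=
    hodd.of_dvd_nat (Subgroup.card_map_dvd A _)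
  refine ⟨?_, ?_⟩
  · intro g hg d hd
    have hg' : (QuotientGroup.mk' E) g ∈
        ⁅A.map (QuotientGroup.mk' E), A.map (QuotientGroup.mk' E)⁆ := by
      rw [← Subgroup.map_commutator]
      exact Subgroup.mem_map_of_mem _ hg
    have h2 := pow_mem_centralizer_of_mem_commutator p _ _ hVc hVp hVcard hXV hXodd _ hg'
    have h3 := Subgroup.mem_centralizer_iff.mp h2 _ (Subgroup.mem_map_of_mem (QuotientGroup.mk' E) hd)
    rw [← QuotientGroup.eq_one_iff (N := E), ← QuotientGroup.mk'_apply, map_commutatorElement,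
      commutatorElement_eq_one_iff_mul_comm, map_pow]
    exact h3
  · intro hp2 x hx q hq hpq hxq d hd
    have h2 := mem_centralizer_of_prime_order p hp2 _ _ hVc hVp hVcard hXV
      ((QuotientGroup.mk' E) x) (Subgroup.mem_map_of_mem _ hx) q hq hpq
      (by rw [← map_pow, hxq, map_one])
    have h3 := Subgroup.mem_centralizer_iff.mp h2 _ (Subgroup.mem_map_of_mem (QuotientGroup.mk' E) hd)
    rw [← QuotientGroup.eq_one_iff (N := E), ← QuotientGroup.mk'_apply, map_commutatorElement,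
      commutatorElement_eq_one_iff_mul_comm]
    exact h3

omit [Finite G] in
/-- The elements normalizing `E` that act trivially on `D` modulo `E`. -/
def trivActSub (D E : Subgroup G) : Subgroup G where
  carrier := {y | y ∈ normalizer (E : Set G) ∧ ∀ d ∈ D, ⁅d, y⁆ ∈ E}
  one_mem' := ⟨Subgroup.one_mem _, fun d _ => by
    rw [commutatorElement_one_right]; exact E.one_mem⟩
  mul_mem' := by
    rintro y z ⟨hy, hyd⟩ ⟨hz, hzd⟩
    refine ⟨Subgroup.mul_mem _ hy hz, fun d hd => ?_⟩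
    rw [commutatorElement_mul_right_eq_mul_conj]
    have h1 : y * ⁅d, z⁆ * y⁻¹ ∈ E := conj_mem_of_mem_normalizer hy (hzd d hd)
    have e : ⁅d, y⁆ * y * ⁅d, z⁆ * y⁻¹ = ⁅d, y⁆ * (y * ⁅d, z⁆ * y⁻¹) := by group
    rw [e]
    exact E.mul_mem (hyd d hd) h1
  inv_mem' := by
    rintro y ⟨hy, hyd⟩
    refine ⟨Subgroup.inv_mem _ hy, fun d hd => ?_⟩
    rw [commutatorElement_inv_right]
    have h1 : ⁅y, d⁆ ∈ E := by
      rw [← commutatorElement_inv]; exact E.inv_mem (hyd d hd)
    exact conj_mem_of_mem_normalizer' hy h1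

/-- The transfer of `quot_action` to subgroups of `G`. -/
theorem quot_action_internal (p : ℕ) [Fact p.Prime] (D₀ E₁ A : Subgroup G) (hED : E₁ ≤ D₀)
    (hAD : A ≤ normalizer (D₀ : Set G)) (hAE : A ≤ normalizer (E₁ : Set G))
    (hDE : D₀ ≤ normalizer (E₁ : Set G)) (hEcard : Nat.card E₁ = p)
    (hDcard : Nat.card D₀ = p ^ 3) (hDp : ∀ d ∈ D₀, d ^ p = 1)
    (hDc : ∀ x ∈ D₀, ∀ y ∈ D₀, ⁅x, y⁆ ∈ E₁) (hodd : Odd (Nat.card A)) :
    (∀ g ∈ ⁅A, A⁆, g ^ p ∈ trivActSub D₀ E₁) ∧
      (p ≠ 2 → ∀ x ∈ A, ∀ q : ℕ, q.Prime → p < q → x ^ q = 1 → x ∈ trivActSub D₀ E₁) := by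
  have hAA : ⁅A, A⁆ ≤ A := Subgroup.commutator_le_self A
  have h1 : (E₁.subgroupOf (normalizer (E₁ : Set G))) ≤ D₀.subgroupOf (normalizer (E₁ : Set G)) :=
    fun x hx => Subgroup.mem_subgroupOf.mpr (hED (Subgroup.mem_subgroupOf.mp hx))
  have h2 : A.subgroupOf (normalizer (E₁ : Set G)) ≤
      normalizer ((D₀.subgroupOf (normalizer (E₁ : Set G)) :
        Subgroup ↥(normalizer (E₁ : Set G))) : Set ↥(normalizer (E₁ : Set G))) := by
    intro a ha
    rw [Subgroup.mem_normalizer_iff]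
    intro d
    rw [Subgroup.mem_subgroupOf, Subgroup.mem_subgroupOf]
    have := Subgroup.mem_normalizer_iff.mp (hAD (Subgroup.mem_subgroupOf.mp ha)) (d : G)
    simpa using this
  have h3 : Nat.card (E₁.subgroupOf (normalizer (E₁ : Set G))) = p := by
    rw [natCard_subgroupOf_eq Subgroup.le_normalizer, hEcard]
  have h4 : Nat.card (D₀.subgroupOf (normalizer (E₁ : Set G))) = p ^ 3 := by
    rw [natCard_subgroupOf_eq hDE, hDcard]
  have h5 : ∀ d ∈ D₀.subgroupOf (normalizer (E₁ : Set G)), d ^ p = 1 := fun d hd =>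
    Subtype.ext (by simpa using hDp _ (Subgroup.mem_subgroupOf.mp hd))
  have h6 : ∀ x ∈ D₀.subgroupOf (normalizer (E₁ : Set G)),
      ∀ y ∈ D₀.subgroupOf (normalizer (E₁ : Set G)),
      ⁅x, y⁆ ∈ E₁.subgroupOf (normalizer (E₁ : Set G)) := by
    intro x hx y hy
    rw [Subgroup.mem_subgroupOf]
    have := hDc _ (Subgroup.mem_subgroupOf.mp hx) _ (Subgroup.mem_subgroupOf.mp hy)
    simpa [commutatorElement_def] using this
  have h7 : Odd (Nat.card (A.subgroupOf (normalizer (E₁ : Set G)))) := by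
    rw [natCard_subgroupOf_eq hAE]; exact hodd
  obtain ⟨ha, hb⟩ := quot_action p (E₁.subgroupOf (normalizer (E₁ : Set G)))
    (D₀.subgroupOf (normalizer (E₁ : Set G))) (A.subgroupOf (normalizer (E₁ : Set G)))
    h1 h2 h3 h4 h5 h6 h7
  refine ⟨?_, ?_⟩
  · intro g hg
    refine ⟨Subgroup.pow_mem _ (hAE (hAA hg)) p, fun d hd => ?_⟩
    have hg' : g ∈ (⁅A.subgroupOf (normalizer (E₁ : Set G)),
        A.subgroupOf (normalizer (E₁ : Set G))⁆).map (normalizer (E₁ : Set G)).subtype := by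
      rw [Subgroup.map_commutator, Subgroup.map_subgroupOf_eq_of_le hAE]
      exact hg
    obtain ⟨g', hg'', rfl⟩ := hg'
    have := ha g' hg'' ⟨d, hDE hd⟩ (Subgroup.mem_subgroupOf.mpr hd)
    rw [Subgroup.mem_subgroupOf] at this
    simpa [commutatorElement_def] using this
  · intro hp2 x hx q hq hpq hxq
    refine ⟨hAE hx, fun d hd => ?_⟩
    have := hb hp2 ⟨x, hAE hx⟩ (Subgroup.mem_subgroupOf.mpr hx) q hq hpq
      (Subtype.ext (by simpa using hxq)) ⟨d, hDE hd⟩ (Subgroup.mem_subgroupOf.mpr hd)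
    rw [Subgroup.mem_subgroupOf] at this
    simpa [commutatorElement_def] using this

/-- **Bender–Glauberman 4.17 (core).**  Let `p` be an odd prime, `R` a `p`-subgroup with no
elementary abelian subgroup of order `p ^ 3`, and `A` a subgroup of odd order normalizing `R`.
Then every `p'`-subgroup of `[A, A]` centralizes `R`, and every element of `A` of prime order
`q > p` centralizes `R`. -/
theorem rank2_core (p : ℕ) [Fact p.Prime] (hp : p ≠ 2) (R A : Subgroup G) (hR : IsPGroup p R)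
    (hr : PRankLE p 2 ↥R) (hA : A ≤ normalizer (R : Set G)) (hAodd : Odd (Nat.card A)) :
    (∀ X : Subgroup G, X ≤ ⁅A, A⁆ → (Nat.card X).Coprime p → X ≤ centralizer (R : Set G)) ∧
      (∀ x ∈ A, ∀ q : ℕ, q.Prime → p < q → x ^ q = 1 → x ∈ centralizer (R : Set G)) := by
  have hp' : p.Prime := Fact.out
  have hr' := fun B hBR hBc hBp => pRank_internal hr B hBR hBc hBp
  have hAA : ⁅A, A⁆ ≤ A := Subgroup.commutator_le_self A
  have hRΓ : R ≤ R ⊔ A := le_sup_left
  have hAΓ : A ≤ R ⊔ A := le_sup_right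
  have hΓR : R ⊔ A ≤ normalizer (R : Set G) := sup_le Subgroup.le_normalizer hA
  -- reduce the second statement to cyclic subgroups
  have hzcop : ∀ x : G, ∀ q : ℕ, q.Prime → p < q → x ^ q = 1 →
      (Nat.card (zpowers x)).Coprime p := by
    intro x q hq hpq hxq
    rw [Nat.card_zpowers]
    have h1 : orderOf x ∣ q := orderOf_dvd_of_pow_eq_one hxq
    have h2 : q.Coprime p := (Nat.coprime_primes hq hp').mpr (by omega)
    exact Nat.Coprime.coprime_dvd_left h1 h2
  -- power trick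
  have hpow : ∀ (S X : Subgroup G), (Nat.card X).Coprime p → ∀ g ∈ X, g ^ p ∈ S → g ∈ S := by
    intro S X hcop g hg hgp
    have h1 : p.Coprime (orderOf g) :=
      (Nat.Coprime.coprime_dvd_left (orderOf_dvd_natCard (⟨g, hg⟩ : X)) hcop).symm |>.symm |> fun h => by
        rw [Subgroup.orderOf_mk] at h
        exact h.symm
    obtain ⟨m, hm⟩ := exists_pow_eq_self_of_coprime h1
    rw [← hm]
    exact S.pow_mem hgp m
  by_cases hA2 : ∃ E : Subgroup G, E ≤ R ∧ R ⊔ A ≤ normalizer (E : Set G) ∧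
      (∀ x ∈ E, ∀ y ∈ E, x * y = y * x) ∧ (∀ e ∈ E, e ^ p = 1) ∧ Nat.card E = p ^ 2
  · -- Case A
    obtain ⟨E, hER, hΓE, hEc, hEp, hEcard⟩ := hA2
    have hAE : A ≤ normalizer (E : Set G) := hAΓ.trans hΓE
    have hEc' : IsMulCommutative E := ⟨⟨fun a b => Subtype.ext (hEc _ a.2 _ b.2)⟩⟩
    refine ⟨?_, ?_⟩
    · intro X hX hcop
      have hXE : X ≤ centralizer (E : Set G) := by
        intro g hg
        exact hpow _ X hcop g hg
          (pow_mem_centralizer_of_mem_commutator p E A hEc' hEp hEcard hAE hAodd g (hX hg))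
      exact le_centralizer_of_le_centralizer_rank2 p hp R E X hR hr' hER hEc hEp hEcard
        ((hX.trans hAA).trans hA) hcop hXE
    · intro x hx q hq hpq hxq
      have h1 := mem_centralizer_of_prime_order p hp E A hEc' hEp hEcard hAE x hx q hq hpq hxq
      have h2 : zpowers x ≤ centralizer (R : Set G) :=
        le_centralizer_of_le_centralizer_rank2 p hp R E (zpowers x) hR hr' hER hEc hEp hEcard
          ((Subgroup.zpowers_le.mpr hx).trans hA) (hzcop x q hq hpq hxq)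
          (Subgroup.zpowers_le.mpr h1)
      exact h2 (Subgroup.mem_zpowers x)
  · -- Case B
    have hB : ∀ E : Subgroup G, E ≤ R → R ⊔ A ≤ normalizer (E : Set G) →
        (∀ x ∈ E, ∀ y ∈ E, x * y = y * x) → (∀ e ∈ E, e ^ p = 1) → Nat.card E ≤ p := by
      intro E hER hΓE hEc hEp
      have h1 := hr' E hER hEc hEp
      obtain ⟨k, hk⟩ := IsPGroup.iff_card.mp (hR.to_le hER)
      have hk2 : k ≠ 2 := by
        rintro rfl
        exact hA2 ⟨E, hER, hΓE, hEc, hEp, hk⟩
      rw [hk] at h1 ⊢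
      have hk' : k ≤ 2 := (Nat.pow_le_pow_iff_right hp'.one_lt).mp h1
      have hk1 : k ≤ 1 := by omega
      calc p ^ k ≤ p ^ 1 := Nat.pow_le_pow_right hp'.pos hk1
        _ = p := pow_one p
    -- a maximal invariant abelian subgroup
    obtain ⟨N, -, hNmax'⟩ := Finite.exists_le_maximal
      (p := fun N : Subgroup G => N ≤ R ∧ R ⊔ A ≤ normalizer (N : Set G) ∧
        ∀ x ∈ N, ∀ y ∈ N, x * y = y * x) (a := ⊥)
      ⟨bot_le, by
        intro g _
        rw [Subgroup.mem_normalizer_iff]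
        intro h
        simp [Subgroup.mem_bot], by
        intro x hx y hy
        rw [Subgroup.mem_bot.mp hx, Subgroup.mem_bot.mp hy]⟩
    obtain ⟨⟨hNR, hΓN, hNc⟩, hNmax''⟩ := hNmax'
    have hNmax : ∀ N' : Subgroup G, N' ≤ R → R ⊔ A ≤ normalizer (N' : Set G) →
        (∀ x ∈ N', ∀ y ∈ N', x * y = y * x) → N ≤ N' → N' = N :=
      fun N' h1 h2 h3 h4 => le_antisymm (hNmax'' ⟨h1, h2, h3⟩ h4) h4
    have hAN : A ≤ normalizer (N : Set G) := hAΓ.trans hΓN
    have hΩ : Nat.card (powKer p N (comm_powKer_mul hNc)) ≤ p :=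
      hB _ ((powKer_le _).trans hNR) (hΓN.trans (normalizer_le_normalizer_powKer _))
        (fun x hx y hy => hNc x hx.1 y hy.1) (fun e he => he.2)
    have hNcyc : IsCyclic ↥N := isCyclic_of_card_powKer_le p hp N (hR.to_le hNR) hNc hΩ
    by_cases hCN : R ⊓ centralizer (N : Set G) ≤ N
    · -- Case B1
      refine ⟨?_, ?_⟩
      · intro X hX hcop
        exact le_centralizer_of_self_centralizing p R N X hR hNR hCN ((hX.trans hAA).trans hA)
          hcop (hX.trans (commutator_le_centralizer_of_isCyclic N A hNcyc hAN))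
      · intro x hx q hq hpq hxq
        have h1 := mem_centralizer_of_prime_order_cyclic p N A (hR.to_le hNR) hNcyc hAN x hx q hq
          hpq hxq
        have h2 : zpowers x ≤ centralizer (R : Set G) :=
          le_centralizer_of_self_centralizing p R N (zpowers x) hR hNR hCN
            ((Subgroup.zpowers_le.mpr hx).trans hA) (hzcop x q hq hpq hxq)
            (Subgroup.zpowers_le.mpr h1)
        exact h2 (Subgroup.mem_zpowers x)
    · -- Case B2
      obtain ⟨D₀, E₁, E₂, hE₁D₀, hE₂D₀, hD₀R, hΓD₀, hΓE₁, hE₁card, hD₀card, hD₀p, hD₀c,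
        hE₁central, hE₂c, hE₂p, hE₂card⟩ :=
        exists_extraspecial_of_not_self_centralizing p hp R (R ⊔ A) N hR hRΓ hΓR hr' hB hNR hΓN
          hNc hNmax hCN
      have hAD₀ : A ≤ normalizer (D₀ : Set G) := hAΓ.trans hΓD₀
      have hAE₁ : A ≤ normalizer (E₁ : Set G) := hAΓ.trans hΓE₁
      have hD₀E₁ : D₀ ≤ normalizer (E₁ : Set G) := (hD₀R.trans hRΓ).trans hΓE₁
      have hE₁cyc : IsCyclic ↥E₁ := isCyclic_of_prime_card hE₁card
      obtain ⟨hqa, hqb⟩ := quot_action_internal p D₀ E₁ A hE₁D₀ hAD₀ hAE₁ hD₀E₁ hE₁card hD₀card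
        hD₀p hD₀c hAodd
      -- the final step
      have hfin : ∀ X : Subgroup G, X ≤ A → (Nat.card X).Coprime p → X ≤ trivActSub D₀ E₁ →
          X ≤ centralizer (E₁ : Set G) → X ≤ centralizer (R : Set G) := by
        intro X hXA hcop hXS hXE
        have h1 : ⁅D₀, X⁆ ≤ centralizer (X : Set G) := by
          rw [Subgroup.commutator_le]
          intro d hd x hx
          have h2 : ⁅d, x⁆ ∈ E₁ := (hXS hx).2 d hd
          rw [Subgroup.mem_centralizer_iff]
          intro y hy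
          exact Subgroup.mem_centralizer_iff.mp (hXE hy) _ h2 |>.symm
        have h3 : D₀ ≤ centralizer (X : Set G) :=
          Cfsg.Agent.Helper24.le_centralizer_of_commutator_le_centralizer (hXA.trans hAD₀)
            (by rw [hD₀card]; exact hcop.pow_right 3) h1
        have h4 : X ≤ centralizer (E₂ : Set G) := by
          intro x hx
          rw [Subgroup.mem_centralizer_iff]
          intro e he
          exact (Subgroup.mem_centralizer_iff.mp (h3 (hE₂D₀ he)) x hx).symm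
        exact le_centralizer_of_le_centralizer_rank2 p hp R E₂ X hR hr' (hE₂D₀.trans hD₀R) hE₂c
          hE₂p hE₂card (hXA.trans hA) hcop h4
      refine ⟨?_, ?_⟩
      · intro X hX hcop
        refine hfin X (hX.trans hAA) hcop ?_
          (hX.trans (commutator_le_centralizer_of_isCyclic E₁ A hE₁cyc hAE₁))
        intro g hg
        exact hpow _ X hcop g hg (hqa g (hX hg))
      · intro x hx q hq hpq hxq
        have h1 := mem_centralizer_of_prime_order_cyclic p E₁ A (hR.to_le (hE₁D₀.trans hD₀R))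
          hE₁cyc hAE₁ x hx q hq hpq hxq
        have h2 : zpowers x ≤ centralizer (R : Set G) :=
          hfin (zpowers x) (Subgroup.zpowers_le.mpr hx) (hzcop x q hq hpq hxq)
            (Subgroup.zpowers_le.mpr (hqb hp x hx q hq hpq hxq)) (Subgroup.zpowers_le.mpr h1)
        exact h2 (Subgroup.mem_zpowers x)

end Cfsg.Agent.Helper23
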