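/-
helper23: solvable groups of odd order and `p`-rank at most two (Bender–Glauberman 4.18):
with `Ḡ = G / O_{p'}(G)`, the commutator subgroup of `Ḡ` lies in `O_p(Ḡ)` and `Ḡ` has no
element of prime order larger than `p`.
Everything lives in `Cfsg.Agent.Helper23`.
-/
import Cfsg.Agent.Helper23.Rank2
import Cfsg.Agent.Helper24.HallHigman
import Cfsg.Agent.Helper24.PLen
import Cfsg.Agent.Helper34.PCons1

set_option autoImplicit false

namespace Cfsg.Agent.Helper23

open Cfsg Subgroup
open scoped commutatorElement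

/-- The order of a Sylow `p`-subgroup of a group of order `m * p ^ n` with `m` prime to `p`. -/
theorem sylow_card_of_card_eq {G : Type*} [Group G] [Finite G] {p : ℕ} [Fact p.Prime]
    (P : Sylow p G) {m n : ℕ} (h : Nat.card G = m * p ^ n) (hm : m.Coprime p) :
    Nat.card (P : Subgroup G) = p ^ n := by
  have hp : p.Prime := Fact.out
  have hm0 : m ≠ 0 := by
    rintro rfl
    rw [zero_mul] at h
    exact (Nat.card_pos (α := G)).ne' h
  have hpm : ¬ p ∣ m := by
    intro hd
    have := Nat.Coprime.eq_one_of_dvd hm.symm hd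
    exact hp.one_lt.ne' this
  rw [Sylow.card_eq_multiplicity, h, Nat.factorization_mul hm0 (pow_pos hp.pos n).ne',
    Finsupp.add_apply, Nat.factorization_eq_zero_of_not_dvd hpm, hp.factorization_pow,
    Finsupp.single_eq_same, zero_add]

/-- The `p`-rank does not increase on passing to subgroups. -/
theorem pRankLE_subgroup {p k : ℕ} {G : Type*} [Group G] (hr : PRankLE p k G) (H : Subgroup G) :
    PRankLE p k ↥H := by
  intro B hBc hBp
  have h1 : IsMulCommutative (B.map H.subtype) := by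
    refine ⟨⟨fun a b => Subtype.ext ?_⟩⟩
    obtain ⟨x, hx, hxa⟩ := a.2
    obtain ⟨y, hy, hyb⟩ := b.2
    show (a : G) * b = b * a
    rw [← hxa, ← hyb, ← map_mul, ← map_mul]
    have := hBc.is_comm.comm (⟨x, hx⟩ : B) ⟨y, hy⟩
    exact congrArg (fun z : B => H.subtype (z : H)) this
  have h2 : ∀ a ∈ B.map H.subtype, a ^ p = 1 := by
    rintro _ ⟨x, hx, rfl⟩
    rw [← map_pow, hBp x hx, map_one]
  have := hr (B.map H.subtype) h1 h2
  rwa [Subgroup.card_map_of_injective H.subtype_injective] at this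

/-- The `p`-rank does not increase on passing to the quotient by a normal `p'`-subgroup. -/
theorem pRankLE_quotient (p k : ℕ) [Fact p.Prime] {G : Type*} [Group G] [Finite G]
    (K : Subgroup G) [K.Normal] (hK : (Nat.card K).Coprime p) (hr : PRankLE p k G) :
    PRankLE p k (G ⧸ K) := by
  have hp : p.Prime := Fact.out
  intro B hBc hBp
  have hsurj := QuotientGroup.mk'_surjective K
  have hKle : K ≤ B.comap (QuotientGroup.mk' K) := by
    intro x hx
    rw [Subgroup.mem_comap, QuotientGroup.mk'_apply, (QuotientGroup.eq_one_iff x).mpr hx]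
    exact B.one_mem
  have hcard := card_map_mk_mul_card K (B.comap (QuotientGroup.mk' K)) hKle
  rw [Subgroup.map_comap_eq_self_of_surjective hsurj] at hcard
  have hBpg : IsPGroup p B := fun b => ⟨1, by
    rw [pow_one]
    exact Subtype.ext (by simpa using hBp b b.2)⟩
  obtain ⟨n, hn⟩ := IsPGroup.iff_card.mp hBpg
  let S : Sylow p ↥(B.comap (QuotientGroup.mk' K)) := default
  have hScard : Nat.card (S : Subgroup ↥(B.comap (QuotientGroup.mk' K))) = p ^ n := by
    refine sylow_card_of_card_eq S (m := Nat.card K) ?_ hK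
    rw [← hcard, hn, mul_comm]
  set S' : Subgroup G := (S : Subgroup ↥(B.comap (QuotientGroup.mk' K))).map
    (B.comap (QuotientGroup.mk' K)).subtype with hS'
  have hS'card : Nat.card S' = p ^ n := by
    rw [hS', Subgroup.card_map_of_injective (Subgroup.subtype_injective _), hScard]
  have hS'p : IsPGroup p S' := IsPGroup.of_card hS'card
  have hS'B : ∀ s ∈ S', (QuotientGroup.mk' K) s ∈ B := by
    rintro _ ⟨x, -, rfl⟩
    exact x.2
  have hinf : S' ⊓ K = ⊥ := Cfsg.Agent.Helper24.inf_eq_bot_of_isPGroup_of_coprime hS'p hK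
  have h1 : IsMulCommutative S' := by
    refine ⟨⟨fun a b => Subtype.ext ?_⟩⟩
    have hab : (QuotientGroup.mk' K) ((a : G) * b) = (QuotientGroup.mk' K) ((b : G) * a) := by
      rw [map_mul, map_mul]
      have := hBc.is_comm.comm (⟨_, hS'B a a.2⟩ : B) ⟨_, hS'B b b.2⟩
      exact congrArg Subtype.val this
    have hK' : ((a : G) * b)⁻¹ * ((b : G) * a) ∈ K := QuotientGroup.eq.mp hab
    have hS'' : ((a : G) * b)⁻¹ * ((b : G) * a) ∈ S' :=
      S'.mul_mem (S'.inv_mem (S'.mul_mem a.2 b.2)) (S'.mul_mem b.2 a.2)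
    have h0 : ((a : G) * b)⁻¹ * ((b : G) * a) ∈ S' ⊓ K := Subgroup.mem_inf.mpr ⟨hS'', hK'⟩
    rw [hinf, Subgroup.mem_bot] at h0
    show (a : G) * b = b * a
    exact (inv_mul_eq_one.mp h0)
  have h2 : ∀ a ∈ S', a ^ p = 1 := by
    intro a ha
    have hK' : a ^ p ∈ K := by
      rw [← QuotientGroup.eq_one_iff (N := K), ← QuotientGroup.mk'_apply, map_pow]
      exact hBp _ (hS'B a ha)
    have h0 : a ^ p ∈ S' ⊓ K := Subgroup.mem_inf.mpr ⟨S'.pow_mem ha p, hK'⟩
    rw [hinf, Subgroup.mem_bot] at h0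
    exact h0
  have := hr S' h1 h2
  rw [hS'card] at this
  rw [hn]
  exact this

/-- **Bender–Glauberman 4.18 (core).**  Let `G` be a solvable group of odd order with no
elementary abelian subgroup of order `p ^ 3`, `p` odd.  In `Ḡ = G / O_{p'}(G)` the commutator
subgroup lies in `O_p(Ḡ)`, and an element of `Ḡ` of prime order `q > p` is trivial. -/
theorem rank2_solvable (p : ℕ) [Fact p.Prime] (hp : p ≠ 2) {G : Type*} [Group G] [Finite G]
    [Group.IsSolvable G] (hodd : Odd (Nat.card G)) (hr : PRankLE p 2 G) :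
    commutator (G ⧸ pPrimeCore p G) ≤ pCore p (G ⧸ pPrimeCore p G) ∧
      ∀ x : G ⧸ pPrimeCore p G, ∀ q : ℕ, q.Prime → p < q → x ^ q = 1 → x = 1 := by
  have hp' : p.Prime := Fact.out
  have hK : (Nat.card (pPrimeCore p G)).Coprime p := Cfsg.Agent.Helper24.coprime_card_pPrimeCore p
  have hrq : PRankLE p 2 (G ⧸ pPrimeCore p G) := pRankLE_quotient p 2 _ hK hr
  have hrR : PRankLE p 2 ↥(pCore p (G ⧸ pPrimeCore p G)) := pRankLE_subgroup hrq _
  have hbot := Cfsg.Agent.Helper34.pPrimeCore_quotient_eq_bot p G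
  have hcore : ∀ D : Subgroup (G ⧸ pPrimeCore p G), D.Normal → (Nat.card D).Coprime p → D = ⊥ := by
    intro D hD hDc
    have := Cfsg.Agent.Helper24.le_pPrimeCore hD hDc
    rw [hbot] at this
    exact le_bot_iff.mp this
  have hcent := Cfsg.Agent.Helper24.centralizer_pCore_le (G := G ⧸ pPrimeCore p G) p hcore
  have hRp : IsPGroup p (pCore p (G ⧸ pPrimeCore p G)) := Cfsg.Agent.Helper24.isPGroup_pCore p _
  have hAodd : Odd (Nat.card (⊤ : Subgroup (G ⧸ pPrimeCore p G))) := by
    rw [Subgroup.card_top]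
    exact hodd.of_dvd_nat (Subgroup.card_quotient_dvd_card _)
  have hAn : (⊤ : Subgroup (G ⧸ pPrimeCore p G)) ≤
      normalizer ((pCore p (G ⧸ pPrimeCore p G) : Subgroup (G ⧸ pPrimeCore p G)) :
        Set (G ⧸ pPrimeCore p G)) := by
    rw [Subgroup.normalizer_eq_top_iff.mpr inferInstance]
  obtain ⟨h1, h2⟩ := rank2_core p hp (pCore p (G ⧸ pPrimeCore p G)) ⊤ hRp hrR hAn hAodd
  refine ⟨?_, ?_⟩
  · -- the commutator subgroup is a normal `p`-subgroup
    have key : ∀ q : ℕ, q.Prime → q ∣ Nat.card ↥(commutator (G ⧸ pPrimeCore p G)) → q = p := by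
      intro q hq hdvd
      by_contra hne
      haveI : Fact q.Prime := ⟨hq⟩
      obtain ⟨g, hg⟩ := exists_prime_orderOf_dvd_card'
        (G := ↥(commutator (G ⧸ pPrimeCore p G))) q hdvd
      have hcop : (Nat.card (Subgroup.zpowers (g : G ⧸ pPrimeCore p G))).Coprime p := by
        rw [Nat.card_zpowers, Subgroup.orderOf_coe, hg]
        exact (Nat.coprime_primes hq hp').mpr hne
      have hle : Subgroup.zpowers (g : G ⧸ pPrimeCore p G) ≤
          ⁅(⊤ : Subgroup (G ⧸ pPrimeCore p G)), ⊤⁆ := by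
        rw [← commutator_def]
        exact Subgroup.zpowers_le.mpr g.2
      have h3 := h1 _ hle hcop
      have h4 : (g : G ⧸ pPrimeCore p G) ∈ pCore p (G ⧸ pPrimeCore p G) :=
        hcent (h3 (Subgroup.mem_zpowers _))
      obtain ⟨k, hk⟩ := hRp ⟨_, h4⟩
      have hk' : (g : G ⧸ pPrimeCore p G) ^ p ^ k = 1 := by
        have := congrArg Subtype.val hk
        simpa using this
      have h5 : orderOf (g : G ⧸ pPrimeCore p G) ∣ p ^ k := orderOf_dvd_of_pow_eq_one hk'
      rw [Subgroup.orderOf_coe, hg] at h5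
      exact hne ((Nat.prime_dvd_prime_iff_eq hq hp').mp (hq.dvd_of_dvd_pow h5))
    have hcard := Nat.eq_prime_pow_of_unique_prime_dvd
      (Nat.card_pos (α := ↥(commutator (G ⧸ pPrimeCore p G)))).ne'
      (fun {d} hd hdvd => key d hd hdvd)
    exact Cfsg.Agent.Helper24.le_pCore inferInstance (IsPGroup.of_card hcard)
  · intro x q hq hpq hxq
    have h3 := h2 x (Subgroup.mem_top x) q hq hpq hxq
    have h4 : x ∈ pCore p (G ⧸ pPrimeCore p G) := hcent h3
    obtain ⟨k, hk⟩ := hRp ⟨_, h4⟩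
    have hk' : x ^ p ^ k = 1 := by
      have := congrArg Subtype.val hk
      simpa using this
    have h5 : orderOf x ∣ p ^ k := orderOf_dvd_of_pow_eq_one hk'
    have h6 : orderOf x ∣ q := orderOf_dvd_of_pow_eq_one hxq
    rcases (Nat.dvd_prime hq).mp h6 with h7 | h7
    · exact orderOf_eq_one_iff.mp h7
    · exfalso
      rw [h7] at h5
      have := (Nat.prime_dvd_prime_iff_eq hq hp').mp (hq.dvd_of_dvd_pow h5)
      omega

end Cfsg.Agent.Helper23
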