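/-
helper23: the transitivity theorems of the local analysis of a minimal simple group of odd
order (invariant `q`-subgroups under the transitivity hypothesis).
Everything lives in `Cfsg.Agent.Helper23`.
-/
import Cfsg.Prelude.Def_OddOrderLocal
import Cfsg.Agent.Helper23.FittingHall
import Cfsg.Agent.Helper35.CoprimeSylow

set_option autoImplicit false

namespace Cfsg.Agent.Helper23

open Cfsg Subgroup Cfsg.Agent.Helper35
open scoped Pointwise commutatorElement

universe u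

section PiCore

variable {G : Type u} [Group G]

theorem card_lt_card_of_lt [Finite G] {H K : Subgroup G} (h : H < K) : Nat.card H < Nat.card K := by
  by_contra hcon
  exact h.ne (Subgroup.eq_of_le_of_card_ge h.le (not_lt.mp hcon))

theorem smul_eq_map_conj (k : G) (Q : Subgroup G) :
    MulAut.conj k • Q = Q.map (MulAut.conj k).toMonoidHom := rfl

theorem mem_of_dvd_card_piCore [Finite G] (π : Set ℕ) {p : ℕ} (hp : p.Prime)
    (h : p ∣ Nat.card (piCore π G)) : p ∈ π := by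
  obtain ⟨N, hN, hpN⟩ := exists_dvd_card_of_dvd_card_sSup hp _ (fun N hN => hN.1) h
  exact hN.2 p hp hpN

theorem piCoreOf_le (π : Set ℕ) (X : Subgroup G) : piCoreOf π X ≤ X :=
  Subgroup.map_subtype_le _

theorem mem_of_dvd_card_piCoreOf [Finite G] (π : Set ℕ) (X : Subgroup G) {p : ℕ} (hp : p.Prime)
    (h : p ∣ Nat.card (piCoreOf π X)) : p ∈ π := by
  apply mem_of_dvd_card_piCore (G := ↥X) π hp
  have h1 : Nat.card (piCoreOf π X) = Nat.card (piCore π ↥X) :=
    Subgroup.card_map_of_injective X.subtype_injective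
  rwa [h1] at h

theorem le_normalizer_piCoreOf (π : Set ℕ) (X : Subgroup G) :
    X ≤ normalizer (piCoreOf π X : Set G) := by
  rw [Subgroup.le_normalizer_iff]
  rintro x hx _ ⟨y, hy, rfl⟩
  exact ⟨⟨x, hx⟩ * y * ⟨x, hx⟩⁻¹, (piCore_normal π ↥X).conj_mem y hy ⟨x, hx⟩, rfl⟩

theorem le_piCoreOf {π : Set ℕ} {Y X : Subgroup G} (hYX : Y ≤ X)
    (hn : X ≤ normalizer (Y : Set G)) (h : ∀ p : ℕ, p.Prime → p ∣ Nat.card Y → p ∈ π) :
    Y ≤ piCoreOf π X := by
  have h1 : Y.subgroupOf X ≤ piCore π ↥X := by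
    apply le_sSup
    refine ⟨Subgroup.normal_subgroupOf_of_le_normalizer hn, ?_⟩
    rw [Nat.card_congr (Subgroup.subgroupOfEquivOfLe hYX).toEquiv]
    exact h
  intro y hy
  exact ⟨⟨y, hYX hy⟩, h1 (by rw [Subgroup.mem_subgroupOf]; exact hy), rfl⟩

theorem coprime_card_of_primesNotDvd [Finite G] {A Y : Subgroup G}
    (h : ∀ p : ℕ, p.Prime → p ∣ Nat.card Y → p ∈ primesNotDvd (Nat.card A)) :
    (Nat.card A).Coprime (Nat.card Y) := by
  apply Nat.coprime_of_dvd
  intro p hp h1 h2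
  exact (h p hp h2).2 h1

theorem isPGroup_of_primes [Finite G] {q : ℕ} {Y : Subgroup G}
    (h : ∀ p : ℕ, p.Prime → p ∣ Nat.card Y → p ∈ ({q} : Set ℕ)) : IsPGroup q Y := by
  apply IsPGroup.of_card (n := (Nat.card Y).primeFactorsList.length)
  exact Nat.eq_prime_pow_of_unique_prime_dvd Nat.card_pos.ne' (fun {d} hd hdY => h d hd hdY)

theorem primes_of_isPGroup [Finite G] {q : ℕ} (hq : q.Prime) {Y : Subgroup G} (h : IsPGroup q Y) :
    ∀ p : ℕ, p.Prime → p ∣ Nat.card Y → p ∈ ({q} : Set ℕ) := by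
  have := Fact.mk hq
  obtain ⟨n, hn⟩ := IsPGroup.iff_card.mp h
  intro p hp hpY
  rw [hn] at hpY
  exact (Nat.prime_dvd_prime_iff_eq hp hq).mp (hp.dvd_of_dvd_pow hpY)

theorem primes_of_le [Finite G] {π : Set ℕ} {Y Z : Subgroup G} (hYZ : Y ≤ Z)
    (h : ∀ p : ℕ, p.Prime → p ∣ Nat.card Z → p ∈ π) :
    ∀ p : ℕ, p.Prime → p ∣ Nat.card Y → p ∈ π :=
  fun p hp hpY => h p hp (hpY.trans (Subgroup.card_dvd_of_le hYZ))

/-- Normalizers grow in `q`-groups. -/
theorem exists_mem_normalizer_not_mem [Finite G] {q : ℕ} (hq : q.Prime) {D Q : Subgroup G}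
    (hQ : IsPGroup q Q) (hDQ : D < Q) : ∃ x ∈ Q, x ∈ normalizer (D : Set G) ∧ x ∉ D := by
  have := Fact.mk hq
  have : Group.IsNilpotent ↥Q := hQ.isNilpotent
  have h1 : D.subgroupOf Q < ⊤ := by
    rw [lt_top_iff_ne_top, Ne, Subgroup.subgroupOf_eq_top]
    exact not_le_of_gt hDQ
  have h2 := Group.normalizerCondition_of_isNilpotent (G := ↥Q) (D.subgroupOf Q) h1
  obtain ⟨y, hy, hyD⟩ := SetLike.exists_of_lt h2
  refine ⟨y, y.2, ?_, fun h => hyD (by rw [Subgroup.mem_subgroupOf]; exact h)⟩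
  rw [Subgroup.mem_normalizer_iff] at hy ⊢
  intro h
  constructor
  · intro hh
    have := (hy ⟨h, hDQ.le hh⟩).mp (by rw [Subgroup.mem_subgroupOf]; exact hh)
    rw [Subgroup.mem_subgroupOf] at this
    exact this
  · intro hh
    have hhQ : h ∈ Q := by
      have h3 := Q.mul_mem (Q.mul_mem (Q.inv_mem y.2) (hDQ.le hh)) y.2
      have h4 : (y : G)⁻¹ * ((y : G) * h * (y : G)⁻¹) * (y : G) = h := by group
      rwa [h4] at h3
    have := (hy ⟨h, hhQ⟩).mpr (by rw [Subgroup.mem_subgroupOf]; exact hh)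
    rw [Subgroup.mem_subgroupOf] at this
    exact this

end PiCore

section Inv

variable {G : Type u} [Group G] [Finite G]

/-- Every invariant `π`-subgroup lies in a maximal one. -/
theorem exists_maxInv_ge {A Y : Subgroup G} {π : Set ℕ} (hY : Y ∈ invSubgroups ⊤ A π) :
    ∃ Q ∈ maxInvSubgroups ⊤ A π, Y ≤ Q := by
  obtain ⟨Q, ⟨hQ, hYQ⟩, hmax⟩ := Set.exists_max_image
    {R : Subgroup G | R ∈ invSubgroups ⊤ A π ∧ Y ≤ R} (fun R => Nat.card R) (Set.toFinite _)
    ⟨Y, hY, le_rfl⟩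
  refine ⟨Q, ⟨hQ, fun R hR hQR => ?_⟩, hYQ⟩
  exact (Subgroup.eq_of_le_of_card_ge hQR (hmax R ⟨hR, hYQ.trans hQR⟩)).symm

omit [Finite G] in
/-- Conjugating by an element normalizing `A` preserves `A`-invariance. -/
theorem conj_mem_invSubgroups {A Y : Subgroup G} {π : Set ℕ} {x : G}
    (hx : x ∈ normalizer (A : Set G)) (hY : Y ∈ invSubgroups ⊤ A π) :
    MulAut.conj x • Y ∈ invSubgroups ⊤ A π := by
  refine ⟨le_top, ?_, ?_⟩
  · rw [card_conj_smul]
    exact hY.2.1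
  · intro a ha
    rw [mem_normalizer_iff_conj_smul_eq, conj_smul_conj_smul]
    have h1 : x⁻¹ * a * x ∈ A := by
      have := (Subgroup.mem_normalizer_iff.mp (inv_mem hx) a).mp ha
      simpa using this
    have h2 : a * x = x * (x⁻¹ * a * x) := by group
    rw [h2, ← conj_smul_conj_smul, mem_normalizer_iff_conj_smul_eq.mp (hY.2.2 h1)]

omit [Finite G] in
theorem conj_mem_maxInvSubgroups {A Q : Subgroup G} {π : Set ℕ} {x : G}
    (hx : x ∈ normalizer (A : Set G)) (hQ : Q ∈ maxInvSubgroups ⊤ A π) :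
    MulAut.conj x • Q ∈ maxInvSubgroups ⊤ A π := by
  refine ⟨conj_mem_invSubgroups hx hQ.1, fun R hR hle => ?_⟩
  have h1 := conj_mem_invSubgroups (inv_mem hx) hR
  have h2 : Q ≤ MulAut.conj x⁻¹ • R := by
    have := conj_smul_le_conj_smul (g := x⁻¹) hle
    rwa [conj_smul_conj_smul, inv_mul_cancel, map_one, one_smul] at this
  have h3 := hQ.2 _ h1 h2
  rw [← h3, conj_smul_conj_smul, mul_inv_cancel, map_one, one_smul]

omit [Finite G] in
theorem le_normalizer_of_le_centralizer {A C : Subgroup G} (h : C ≤ centralizer (A : Set G)) :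
    A ≤ normalizer (C : Set G) := by
  rw [Subgroup.le_normalizer_iff]
  intro a ha c hc
  have h1 : a * c = c * a := Subgroup.mem_centralizer_iff.mp (h hc) a ha
  rw [h1, mul_assoc, mul_inv_cancel, mul_one]
  exact hc

omit [Finite G] in
theorem normalizer_ne_top_of_simple [IsSimpleGroup G] {D : Subgroup G} (h1 : D ≠ ⊥) (h2 : D ≠ ⊤) :
    normalizer (D : Set G) ≠ ⊤ :=
  fun h => (normalizer_eq_top_iff.mp h).eq_bot_or_eq_top.elim h1 h2

omit [Finite G] in
theorem centralizer_singleton_ne_top (hG : IsMinimalSimple G) {b : G} (hb : b ≠ 1) :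
    centralizer ({b} : Set G) ≠ ⊤ := by
  intro h
  have := hG.1
  have hb' : b ∈ center G := by
    rw [Subgroup.mem_center_iff]
    intro g
    have hg : g ∈ centralizer ({b} : Set G) := by rw [h]; exact Subgroup.mem_top g
    exact (Subgroup.mem_centralizer_iff.mp hg b rfl).symm
  rcases (inferInstance : (center G).Normal).eq_bot_or_eq_top with h1 | h1
  · rw [h1, Subgroup.mem_bot] at hb'
    exact hb hb'
  · apply hG.2.1
    constructor
    constructor
    intro x y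
    have hx : x ∈ center G := by rw [h1]; exact Subgroup.mem_top x
    exact ((Subgroup.mem_center_iff.mp hx) y).symm

end Inv

section Trans

variable {G : Type u} [Group G] [Finite G]

/-- `O_{π'}(N_G(A))` lies in `K = O_{π'}(C_G(A))`, where `π` is the set of primes dividing `#A`. -/
theorem piCoreOf_normalizer_le (A : Subgroup G) :
    piCoreOf (primesNotDvd (Nat.card A)) (normalizer (A : Set G)) ≤
      piCoreOf (primesNotDvd (Nat.card A)) (centralizer (A : Set G)) := by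
  have hLn := le_normalizer_piCoreOf (primesNotDvd (Nat.card A)) (normalizer (A : Set G))
  have hLp : ∀ p : ℕ, p.Prime →
      p ∣ Nat.card (piCoreOf (primesNotDvd (Nat.card A)) (normalizer (A : Set G))) →
      p ∈ primesNotDvd (Nat.card A) := fun p hp h => mem_of_dvd_card_piCoreOf _ _ hp h
  have hcop := coprime_card_of_primesNotDvd hLp
  have hLc : piCoreOf (primesNotDvd (Nat.card A)) (normalizer (A : Set G)) ≤
      centralizer (A : Set G) := by
    intro l hl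
    exact mem_centralizer_of_mem_normalizer (le_normalizer.trans hLn)
      (Subgroup.disjoint_of_coprime_natCard hcop).eq_bot hl (piCoreOf_le _ _ hl)
  exact le_piCoreOf hLc ((centralizer_le_normalizer _).trans hLn) hLp

/-- Under the transitivity hypothesis, for a proper subgroup `X ≥ A` the fixed points of `A` in
`O_{π'}(X)` lie in `K = O_{π'}(C_G(A))`. -/
theorem piCoreOf_inf_centralizer_le (hG : IsMinSimpleOddOrder G) {A : Subgroup G}
    (hA : TransitivityHypothesis A) (X : Subgroup G) :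
    piCoreOf (primesNotDvd (Nat.card A)) X ⊓ centralizer (A : Set G) ≤
      piCoreOf (primesNotDvd (Nat.card A)) (centralizer (A : Set G)) := by
  have := hG.2.1
  have hN : normalizer (A : Set G) ≠ ⊤ := normalizer_ne_top_of_simple hA.1 hA.2.1
  refine le_trans ?_ (piCoreOf_normalizer_le A)
  rw [← hA.2.2 _ hN le_normalizer]
  apply le_sSup
  refine ⟨inf_le_right.trans (centralizer_le_normalizer _), ?_, ?_⟩
  · exact primes_of_le inf_le_left (fun p hp h => mem_of_dvd_card_piCoreOf _ _ hp h)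
  · exact le_normalizer_of_le_centralizer inf_le_right

/-- Two `A`-invariant `q`-subgroups of a proper subgroup `X ≥ A` lie in `K`-conjugate maximal
`A`-invariant `q`-subgroups. -/
theorem exists_maxInv_conj_of_inv (hG : IsMinSimpleOddOrder G) {A : Subgroup G}
    (hA : TransitivityHypothesis A) {q : ℕ} (hq : q.Prime) (hqA : ¬ q ∣ Nat.card A)
    {X : Subgroup G} (hX : X ≠ ⊤) (hAX : A ≤ X) {R R' : Subgroup G}
    (hR : R ∈ invSubgroups X A {q}) (hR' : R' ∈ invSubgroups X A {q}) :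
    ∃ Qs ∈ maxInvSubgroups ⊤ A {q},
      ∃ c ∈ piCoreOf (primesNotDvd (Nat.card A)) (centralizer (A : Set G)),
        R ≤ Qs ∧ R' ≤ MulAut.conj c • Qs := by
  have := Fact.mk hq
  have hqπ : ∀ {Y : Subgroup G}, (∀ p : ℕ, p.Prime → p ∣ Nat.card Y → p ∈ ({q} : Set ℕ)) →
      ∀ p : ℕ, p.Prime → p ∣ Nat.card Y → p ∈ primesNotDvd (Nat.card A) := by
    intro Y hY p hp hpY
    have : p = q := hY p hp hpY
    rw [this]
    exact ⟨hq, hqA⟩
  have hLe : ∀ {Y : Subgroup G}, Y ∈ invSubgroups X A {q} →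
      Y ≤ piCoreOf (primesNotDvd (Nat.card A)) X := by
    intro Y hY
    rw [← hA.2.2 X hX hAX]
    exact le_sSup ⟨hY.1, hqπ hY.2.1, hY.2.2⟩
  have hAL : A ≤ normalizer (piCoreOf (primesNotDvd (Nat.card A)) X : Set G) :=
    hAX.trans (le_normalizer_piCoreOf _ X)
  have hcop : (Nat.card A).Coprime (Nat.card (piCoreOf (primesNotDvd (Nat.card A)) X)) :=
    coprime_card_of_primesNotDvd (fun p hp h => mem_of_dvd_card_piCoreOf _ _ hp h)
  have hLtop : piCoreOf (primesNotDvd (Nat.card A)) X ≠ ⊤ :=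
    fun h => hX (top_le_iff.mp (h ▸ piCoreOf_le _ X))
  have hsolv : Group.IsSolvable ↥(piCoreOf (primesNotDvd (Nat.card A)) X) := hG.2.2.2 _ hLtop
  obtain ⟨S, hS, hRS, hSA⟩ := exists_invariant_sylow_ge hAL hcop (Or.inr hsolv) (hLe hR)
    (isPGroup_of_primes hR.2.1) hR.2.2
  obtain ⟨S', hS', hRS', hSA'⟩ := exists_invariant_sylow_ge hAL hcop (Or.inr hsolv) (hLe hR')
    (isPGroup_of_primes hR'.2.1) hR'.2.2
  obtain ⟨c, hc, hcS⟩ := exists_conj_invariant_sylow hAL hcop (Or.inr hsolv) hS hS' hSA hSA'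
  have hSinv : S ∈ invSubgroups ⊤ A {q} :=
    ⟨le_top, primes_of_isPGroup hq (isPGroup_of_mem_sylowSet hS), hSA⟩
  obtain ⟨Qs, hQs, hSQ⟩ := exists_maxInv_ge hSinv
  refine ⟨Qs, hQs, c, piCoreOf_inf_centralizer_le hG hA X hc, hRS.trans hSQ, ?_⟩
  rw [← hcS] at hRS'
  exact hRS'.trans (conj_smul_le_conj_smul hSQ)

/-- Two maximal `A`-invariant `q`-subgroups with nontrivial intersection are conjugate
under `K = O_{π'}(C_G(A))`. -/
theorem conj_of_inf_ne_bot (hG : IsMinSimpleOddOrder G) {A : Subgroup G}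
    (hA : TransitivityHypothesis A) {q : ℕ} (hq : q.Prime) (hqA : ¬ q ∣ Nat.card A) :
    ∀ (n : ℕ) (Q Q' : Subgroup G), Q ∈ maxInvSubgroups ⊤ A {q} → Q' ∈ maxInvSubgroups ⊤ A {q} →
      Q ⊓ Q' ≠ ⊥ → Nat.card G - Nat.card ↥(Q ⊓ Q') = n →
      ∃ k ∈ piCoreOf (primesNotDvd (Nat.card A)) (centralizer (A : Set G)),
        Q' = MulAut.conj k • Q := by
  have := hG.2.1
  intro n
  induction n using Nat.strong_induction_on with
  | _ n ih =>
  intro Q Q' hQ hQ' hne hn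
  by_cases h1 : Q ≤ Q'
  · exact ⟨1, one_mem _, by rw [map_one, one_smul]; exact hQ.2 Q' hQ'.1 h1⟩
  by_cases h2 : Q' ≤ Q
  · exact ⟨1, one_mem _, by rw [map_one, one_smul]; exact (hQ'.2 Q hQ.1 h2).symm⟩
  have hDQ : Q ⊓ Q' < Q := lt_of_le_of_ne inf_le_left (fun h => h1 (inf_eq_left.mp h))
  have hDQ' : Q ⊓ Q' < Q' := lt_of_le_of_ne inf_le_right (fun h => h2 (inf_eq_right.mp h))
  have hN : normalizer ((Q ⊓ Q' : Subgroup G) : Set G) ≠ ⊤ :=
    normalizer_ne_top_of_simple hne (ne_top_of_lt hDQ)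
  have hAN : A ≤ normalizer ((Q ⊓ Q' : Subgroup G) : Set G) :=
    (le_inf hQ.1.2.2 hQ'.1.2.2).trans Subgroup.inf_normalizer_le_normalizer_inf
  have hinv : ∀ {Q₀ : Subgroup G}, Q₀ ∈ maxInvSubgroups ⊤ A {q} →
      Q₀ ⊓ normalizer ((Q ⊓ Q' : Subgroup G) : Set G) ∈
        invSubgroups (normalizer ((Q ⊓ Q' : Subgroup G) : Set G)) A {q} := by
    intro Q₀ hQ₀
    exact ⟨inf_le_right, primes_of_le inf_le_left hQ₀.1.2.1,
      (le_inf hQ₀.1.2.2 (hAN.trans le_normalizer)).trans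
        Subgroup.inf_normalizer_le_normalizer_inf⟩
  obtain ⟨Qs, hQs, c, hc, hRQs, hR'Qs⟩ := exists_maxInv_conj_of_inv hG hA hq hqA hN hAN
    (hinv hQ) (hinv hQ')
  have hcN : c ∈ normalizer (A : Set G) :=
    centralizer_le_normalizer _ (piCoreOf_le _ _ hc)
  -- normalizers grow
  obtain ⟨x, hxQ, hxN, hxD⟩ := exists_mem_normalizer_not_mem hq (isPGroup_of_primes hQ.1.2.1) hDQ
  obtain ⟨x', hxQ', hxN', hxD'⟩ :=
    exists_mem_normalizer_not_mem hq (isPGroup_of_primes hQ'.1.2.1) hDQ'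
  have hlt1 : Q ⊓ Q' < Q ⊓ Qs := by
    refine lt_of_le_of_ne (le_inf inf_le_left ?_) ?_
    · exact (le_inf inf_le_left le_normalizer).trans hRQs
    · intro h
      apply hxD
      rw [h]
      exact ⟨hxQ, hRQs ⟨hxQ, hxN⟩⟩
  have hlt2 : Q ⊓ Q' < (MulAut.conj c • Qs) ⊓ Q' := by
    refine lt_of_le_of_ne (le_inf ?_ inf_le_right) ?_
    · exact (le_inf inf_le_right le_normalizer).trans hR'Qs
    · intro h
      apply hxD'
      rw [h]
      exact ⟨hR'Qs ⟨hxQ', hxN'⟩, hxQ'⟩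
  have hcard : ∀ {E : Subgroup G}, Q ⊓ Q' < E → Nat.card G - Nat.card ↥E < n := by
    intro E hE
    have h3 := card_lt_card_of_lt hE
    have h4 : Nat.card ↥E ≤ Nat.card G := Subgroup.card_le_card_group E
    omega
  obtain ⟨k₁, hk₁, hk₁Q⟩ := ih _ (hcard hlt1) Q Qs hQ hQs (ne_bot_of_gt hlt1) rfl
  obtain ⟨k₂, hk₂, hk₂Q⟩ := ih _ (hcard hlt2) (MulAut.conj c • Qs) Q'
    (conj_mem_maxInvSubgroups hcN hQs) hQ' (ne_bot_of_gt hlt2) rfl
  refine ⟨k₂ * c * k₁, mul_mem (mul_mem hk₂ hc) hk₁, ?_⟩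
  rw [hk₂Q, hk₁Q, conj_smul_conj_smul, conj_smul_conj_smul]

/-- Theorem 7.2: two maximal `A`-invariant `q`-subgroups meeting a common proper overgroup of
`A` nontrivially are conjugate under `K = O_{π'}(C_G(A))`. -/
theorem conj_of_common_overgroup (hG : IsMinSimpleOddOrder G) {A : Subgroup G}
    (hA : TransitivityHypothesis A) {q : ℕ} (hq : q.Prime) (hqA : ¬ q ∣ Nat.card A)
    {Q₁ Q₂ : Subgroup G} (h₁ : Q₁ ∈ maxInvSubgroups ⊤ A {q})
    (h₂ : Q₂ ∈ maxInvSubgroups ⊤ A {q}) {H : Subgroup G} (hH : H ≠ ⊤) (hAH : A ≤ H)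
    (hH₁ : H ⊓ Q₁ ≠ ⊥) (hH₂ : H ⊓ Q₂ ≠ ⊥) :
    ∃ k ∈ piCoreOf (primesNotDvd (Nat.card A)) (centralizer (A : Set G)),
      Q₂ = MulAut.conj k • Q₁ := by
  have hinv : ∀ {Q₀ : Subgroup G}, Q₀ ∈ maxInvSubgroups ⊤ A {q} →
      H ⊓ Q₀ ∈ invSubgroups H A {q} := by
    intro Q₀ hQ₀
    exact ⟨inf_le_left, primes_of_le inf_le_right hQ₀.1.2.1,
      (le_inf (hAH.trans le_normalizer) hQ₀.1.2.2).trans
        Subgroup.inf_normalizer_le_normalizer_inf⟩
  obtain ⟨Qs, hQs, c, hc, hRQs, hR'Qs⟩ := exists_maxInv_conj_of_inv hG hA hq hqA hH hAH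
    (hinv h₁) (hinv h₂)
  have hcN : c ∈ normalizer (A : Set G) :=
    centralizer_le_normalizer _ (piCoreOf_le _ _ hc)
  have hne1 : Q₁ ⊓ Qs ≠ ⊥ := fun h => hH₁ (le_bot_iff.mp (h ▸ le_inf inf_le_right hRQs))
  have hne2 : (MulAut.conj c • Qs) ⊓ Q₂ ≠ ⊥ :=
    fun h => hH₂ (le_bot_iff.mp (h ▸ le_inf hR'Qs inf_le_right))
  obtain ⟨k₁, hk₁, hk₁Q⟩ := conj_of_inf_ne_bot hG hA hq hqA _ Q₁ Qs h₁ hQs hne1 rfl
  obtain ⟨k₂, hk₂, hk₂Q⟩ := conj_of_inf_ne_bot hG hA hq hqA _ (MulAut.conj c • Qs) Q₂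
    (conj_mem_maxInvSubgroups hcN hQs) h₂ hne2 rfl
  refine ⟨k₂ * c * k₁, mul_mem (mul_mem hk₂ hc) hk₁, ?_⟩
  rw [hk₂Q, hk₁Q, conj_smul_conj_smul, conj_smul_conj_smul]

end Trans

section FixedPoints

/-- Two commuting automorphisms of exponent `p` of a finite abelian group of order prime to `p`,
such that `α` and all `α ^ k * β` are fixed-point-free, only exist on the trivial group. -/
theorem eq_zero_of_fixedPointFree_pair {M : Type*} [AddCommGroup M] [Finite M] {p : ℕ}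
    (hp : p.Prime) (hM : (Nat.card M).Coprime p) (α β : AddMonoid.End M) (hαβ : Commute α β)
    (hα : α ^ p = 1) (hβ : β ^ p = 1)
    (h1 : ∀ m, α m = m → m = 0)
    (h2 : ∀ k, k < p → ∀ m, (α ^ k * β) m = m → m = 0) : ∀ m : M, m = 0 := by
  have h1' : ∀ j, 0 < j → j < p → ∀ m, (α ^ j) m = m → m = 0 := by
    intro j hj0 hjp m hm
    apply h1
    have hcop : Nat.Coprime j p :=
      ((Nat.Prime.coprime_iff_not_dvd hp).mpr (Nat.not_dvd_of_pos_of_lt hj0 hjp)).symm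
    obtain ⟨t, -, ht⟩ := Nat.exists_mul_mod_eq_one_of_coprime hcop hp.one_lt
    have hpow : ∀ t : ℕ, ((α ^ j) ^ t) m = m := by
      intro t
      induction t with
      | zero => simp
      | succ n ih =>
        rw [pow_succ]
        show ((α ^ j) ^ n) ((α ^ j) m) = m
        rw [hm, ih]
    have h3 := hpow t
    rw [← pow_mul, ← Nat.div_add_mod (j * t) p, ht, pow_add, pow_mul, hα, one_pow, one_mul,
      pow_one] at h3
    exact h3
  have key : ∀ x : AddMonoid.End M, x ^ p = 1 → (∀ m, x m = m → m = 0) →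
      ∑ i ∈ Finset.range p, x ^ i = 0 := by
    intro x hx hfix
    have h := mul_geom_sum x p
    rw [hx, sub_self] at h
    ext m
    apply hfix
    have h' := congrArg (fun f : AddMonoid.End M => f m) h
    simp only [sub_mul, one_mul] at h'
    have h'' : x ((∑ i ∈ Finset.range p, x ^ i) m) - (∑ i ∈ Finset.range p, x ^ i) m = 0 := h'
    exact sub_eq_zero.mp h''
  have hpow : ∀ j k : ℕ, (α ^ k * β) ^ j = (α ^ j) ^ k * β ^ j := by
    intro j k
    rw [(hαβ.pow_left k).mul_pow, ← pow_mul, ← pow_mul, mul_comm]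
  have hsum : ∑ k ∈ Finset.range p, ∑ j ∈ Finset.range p, (α ^ k * β) ^ j =
      (p : AddMonoid.End M) := by
    rw [Finset.sum_comm]
    simp_rw [hpow, ← Finset.sum_mul]
    rw [Finset.sum_eq_single_of_mem 0 (by simp [hp.pos])]
    · simp
    · intro j hj hj0
      rw [key (α ^ j) (by rw [← pow_mul, mul_comm, pow_mul, hα, one_pow])
        (h1' j (Nat.pos_of_ne_zero hj0) (Finset.mem_range.mp hj)), zero_mul]
  have hzero : ∑ k ∈ Finset.range p, ∑ j ∈ Finset.range p, (α ^ k * β) ^ j = 0 := by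
    apply Finset.sum_eq_zero
    intro k hk
    apply key
    · rw [(hαβ.pow_left k).mul_pow, ← pow_mul, mul_comm k p, pow_mul, hα, one_pow, hβ, mul_one]
    · exact h2 k (Finset.mem_range.mp hk)
  have hp0 : (p : AddMonoid.End M) = 0 := by rw [← hsum, hzero]
  intro m
  have hm : p • m = 0 := by
    have := congrArg (fun f : AddMonoid.End M => f m) hp0
    simpa using this
  have h3 : addOrderOf m ∣ p := addOrderOf_dvd_of_nsmul_eq_zero hm
  have h4 : addOrderOf m ∣ Nat.card M := addOrderOf_dvd_natCard m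
  have h5 : addOrderOf m = 1 := Nat.eq_one_of_dvd_coprimes hM h4 h3
  exact AddMonoid.addOrderOf_eq_one_iff.mp h5

variable {G : Type u} [Group G]

/-- Conjugation by an element of the normalizer of `V`, as an endomorphism of `V`. -/
def conjHom (V : Subgroup G) (x : ↥(normalizer (V : Set G))) : ↥V →* ↥V where
  toFun v := ⟨(x : G) * v * (x : G)⁻¹, (Subgroup.mem_normalizer_iff.mp x.2 v).mp v.2⟩
  map_one' := by ext; simp
  map_mul' := by intro v w; ext; simp [mul_assoc]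

theorem conjHom_one (V : Subgroup G) : conjHom V 1 = MonoidHom.id ↥V := by
  ext v
  simp [conjHom]

theorem conjHom_mul (V : Subgroup G) (x y : ↥(normalizer (V : Set G))) :
    conjHom V (x * y) = (conjHom V x).comp (conjHom V y) := by
  ext v
  simp [conjHom, mul_assoc]

/-- Conjugation by the normalizer of `V` on `V`, written additively. -/
def conjEnd (V : Subgroup G) : ↥(normalizer (V : Set G)) →* AddMonoid.End (Additive ↥V) where
  toFun x := MonoidHom.toAdditive (conjHom V x)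
  map_one' := by
    rw [conjHom_one]
    rfl
  map_mul' := by
    intro x y
    rw [conjHom_mul]
    rfl

open scoped IsMulCommutative in
/-- Two commuting elements `a`, `b` of exponent `p` normalizing a nontrivial abelian subgroup
`V` of order prime to `p`: one of `a`, `a ^ k * b` centralizes a non-identity element of `V`. -/
theorem exists_fixed_of_noncyclic [Finite G] {p : ℕ} (hp : p.Prime) {V : Subgroup G}
    [IsMulCommutative ↥V] (hVp : (Nat.card V).Coprime p) (hV : V ≠ ⊥) {a b : G}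
    (ha : a ∈ normalizer (V : Set G)) (hb : b ∈ normalizer (V : Set G)) (hab : a * b = b * a)
    (hap : a ^ p = 1) (hbp : b ^ p = 1) :
    ∃ v ∈ V, v ≠ 1 ∧ (a * v = v * a ∨ ∃ k, k < p ∧ a ^ k * b * v = v * (a ^ k * b)) := by
  by_contra hcon
  push Not at hcon
  apply hV
  have hfix : ∀ (x : ↥(normalizer (V : Set G))) (m : Additive ↥V), conjEnd V x m = m →
      (x : G) * (m.toMul : G) = (m.toMul : G) * (x : G) := by
    intro x m hm
    have h1 := congrArg (fun m' : Additive ↥V => (m'.toMul : G)) hm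
    have h2 : (x : G) * (m.toMul : G) * (x : G)⁻¹ = (m.toMul : G) := h1
    exact mul_inv_eq_iff_eq_mul.mp h2
  have hcard : (Nat.card (Additive ↥V)).Coprime p := hVp
  have hne : ∀ m : Additive ↥V, m ≠ 0 → (m.toMul : G) ≠ 1 := by
    intro m hm0 h
    apply hm0
    have : m.toMul = 1 := Subtype.ext h
    exact this
  have key := eq_zero_of_fixedPointFree_pair hp hcard (conjEnd V ⟨a, ha⟩) (conjEnd V ⟨b, hb⟩)
    (by
      show conjEnd V ⟨a, ha⟩ * conjEnd V ⟨b, hb⟩ = conjEnd V ⟨b, hb⟩ * conjEnd V ⟨a, ha⟩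
      rw [← map_mul, ← map_mul]
      congr 1
      exact Subtype.ext hab)
    (by
      rw [← map_pow]
      have : (⟨a, ha⟩ : ↥(normalizer (V : Set G))) ^ p = 1 := Subtype.ext hap
      rw [this, map_one])
    (by
      rw [← map_pow]
      have : (⟨b, hb⟩ : ↥(normalizer (V : Set G))) ^ p = 1 := Subtype.ext hbp
      rw [this, map_one])
    (by
      intro m hm
      have h1 := hfix _ m hm
      by_contra hm0
      exact (hcon _ m.toMul.2 (hne m hm0)).1 h1)
    (by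
      intro k hk m hm
      rw [← map_pow, ← map_mul] at hm
      have h1 := hfix _ m hm
      by_contra hm0
      exact (hcon _ m.toMul.2 (hne m hm0)).2 k hk h1)
  rw [Subgroup.eq_bot_iff_forall]
  intro v hv
  have := key (Additive.ofMul ⟨v, hv⟩)
  have h2 : (⟨v, hv⟩ : ↥V) = 1 := this
  exact congrArg Subtype.val h2

theorem normalizer_le_normalizer_centralizer (Q : Subgroup G) :
    normalizer (Q : Set G) ≤ normalizer ((centralizer (Q : Set G) : Subgroup G) : Set G) := by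
  rw [Subgroup.le_normalizer_iff]
  intro x hx h hh
  rw [Subgroup.mem_centralizer_iff] at hh ⊢
  intro g hg
  have h1 : x⁻¹ * g * x ∈ Q := by
    have := (Subgroup.mem_normalizer_iff.mp (inv_mem hx) g).mp hg
    simpa using this
  have h2 := hh _ h1
  have h3 := congrArg (fun z => x * z * x⁻¹) h2
  simpa [mul_assoc] using h3

/-- A fixed point in a nontrivial `q`-group for one of `a`, `a ^ k * b`. -/
theorem exists_fixed_in_pgroup [Finite G] {p q : ℕ} (hp : p.Prime) (hq : q.Prime) (hpq : p ≠ q)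
    {Q : Subgroup G} (hQ : IsPGroup q Q) (hQne : Q ≠ ⊥) {a b : G}
    (ha : a ∈ normalizer (Q : Set G)) (hb : b ∈ normalizer (Q : Set G)) (hab : a * b = b * a)
    (hap : a ^ p = 1) (hbp : b ^ p = 1) :
    ∃ v ∈ Q, v ≠ 1 ∧ (a * v = v * a ∨ ∃ k, k < p ∧ a ^ k * b * v = v * (a ^ k * b)) := by
  have := Fact.mk hq
  have hVle : Q ⊓ centralizer (Q : Set G) ≤ Q := inf_le_left
  have hVcomm : IsMulCommutative ↥(Q ⊓ centralizer (Q : Set G)) := by
    refine ⟨⟨fun x y => Subtype.ext ?_⟩⟩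
    exact (Subgroup.mem_centralizer_iff.mp y.2.2 x x.2.1)
  have hVne : Q ⊓ centralizer (Q : Set G) ≠ ⊥ := by
    have : Nontrivial ↥Q := (Subgroup.nontrivial_iff_ne_bot Q).mpr hQne
    have hc := hQ.center_nontrivial
    obtain ⟨z, hz⟩ := exists_ne (1 : ↥(center ↥Q))
    intro h
    apply hz
    have hz' : ((z : ↥Q) : G) ∈ Q ⊓ centralizer (Q : Set G) := by
      refine Subgroup.mem_inf.mpr ⟨(z : ↥Q).2, ?_⟩
      rw [Subgroup.mem_centralizer_iff]
      intro g hg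
      have := Subgroup.mem_center_iff.mp z.2 ⟨g, hg⟩
      exact congrArg Subtype.val this
    rw [h, Subgroup.mem_bot] at hz'
    exact Subtype.ext (Subtype.ext hz')
  have hVp : (Nat.card ↥(Q ⊓ centralizer (Q : Set G))).Coprime p := by
    obtain ⟨n, hn⟩ := IsPGroup.iff_card.mp (hQ.to_le hVle)
    rw [hn]
    exact Nat.Coprime.pow_left n ((Nat.coprime_primes hq hp).mpr (Ne.symm hpq))
  have hN : ∀ {x : G}, x ∈ normalizer (Q : Set G) →
      x ∈ normalizer ((Q ⊓ centralizer (Q : Set G) : Subgroup G) : Set G) := fun hx =>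
    Subgroup.inf_normalizer_le_normalizer_inf ⟨hx, normalizer_le_normalizer_centralizer Q hx⟩
  obtain ⟨v, hv, hv1, h⟩ := exists_fixed_of_noncyclic hp hVp hVne (hN ha) (hN hb) hab hap hbp
  exact ⟨v, hVle hv, hv1, h⟩

end FixedPoints

section Rank

variable {G : Type u} [Group G] [Finite G]

omit [Finite G] in
theorem card_sup_dvd_card_mul_card (H K : Subgroup G) [K.Normal] :
    Nat.card ↥(H ⊔ K) ∣ Nat.card H * Nat.card K := by
  have h1 : Nat.card K * K.relIndex (H ⊔ K) = Nat.card ↥(H ⊔ K) := by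
    have := Subgroup.relIndex_mul_relIndex (⊥ : Subgroup G) K (H ⊔ K) bot_le le_sup_right
    simpa using this
  rw [← h1, Subgroup.relIndex_sup_right, mul_comm]
  exact mul_dvd_mul_right (Subgroup.relIndex_dvd_card K H) _

theorem exists_not_mem_of_card_lt {H E : Subgroup G} (h : Nat.card H < Nat.card E) :
    ∃ b ∈ E, b ∉ H := by
  by_contra hcon
  push Not at hcon
  exact absurd (Subgroup.card_le_of_le (show E ≤ H from hcon)) (not_le.mpr h)

omit [Finite G] in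
/-- An elementary abelian subgroup of large order, extracted from a failure of `RankLE`. -/
theorem exists_elemAb_of_not_rankLE {k : ℕ} {Z : Subgroup G} (h : ¬ RankLE k ↥Z) :
    ∃ p : ℕ, p.Prime ∧ ∃ E : Subgroup G, E ≤ Z ∧ IsMulCommutative ↥E ∧ (∀ x ∈ E, x ^ p = 1) ∧
      p ^ k < Nat.card E := by
  unfold RankLE PRankLE at h
  push Not at h
  obtain ⟨p, hp, B, hBc, hBp, hcard⟩ := h
  refine ⟨p, hp, B.map Z.subtype, Subgroup.map_subtype_le _, ?_, ?_, ?_⟩
  · refine ⟨⟨fun x y => Subtype.ext ?_⟩⟩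
    obtain ⟨x', hx', hx⟩ := x.2
    obtain ⟨y', hy', hy⟩ := y.2
    have h1 : (⟨x', hx'⟩ : ↥B) * ⟨y', hy'⟩ = ⟨y', hy'⟩ * ⟨x', hx'⟩ := mul_comm' _ _
    have h2 : x' * y' = y' * x' := congrArg Subtype.val h1
    show (x : G) * (y : G) = (y : G) * (x : G)
    rw [← hx, ← hy, ← map_mul, ← map_mul, h2]
  · rintro _ ⟨x', hx', rfl⟩
    rw [← map_pow, hBp x' hx', map_one]
  · rwa [Subgroup.card_map_of_injective Z.subtype_injective]

theorem exists_indep_pair {p : ℕ} (hp : p.Prime) {E : Subgroup G} (hEp : ∀ x ∈ E, x ^ p = 1)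
    (hcard : p < Nat.card E) : ∃ a ∈ E, a ≠ 1 ∧ ∃ b ∈ E, ∀ k : ℕ, a ^ k * b ≠ 1 := by
  have := Fact.mk hp
  have hE : E ≠ ⊥ := by
    intro h
    rw [h, Subgroup.card_bot] at hcard
    exact absurd hp.one_lt (not_lt.mpr hcard.le)
  obtain ⟨a, ha1⟩ := (Subgroup.ne_bot_iff_exists_ne_one.mp hE)
  have ha1' : (a : G) ≠ 1 := fun h => ha1 (Subtype.ext h)
  have hza : Nat.card (zpowers (a : G)) = p := by
    rw [Nat.card_zpowers]
    exact orderOf_eq_prime (hEp a a.2) ha1'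
  obtain ⟨b, hb, hbz⟩ := exists_not_mem_of_card_lt (H := zpowers (a : G)) (E := E)
    (by rw [hza]; exact hcard)
  refine ⟨a, a.2, ha1', b, hb, fun k hk => hbz ?_⟩
  have : b = ((a : G) ^ k)⁻¹ := eq_inv_of_mul_eq_one_right hk
  rw [this]
  exact inv_mem (pow_mem (mem_zpowers _) k)

/-- A non-identity element of a noncyclic elementary abelian `p`-group `E` acting on a
nontrivial `q`-group `Q` (`q ≠ p`) with a non-identity fixed point. -/
theorem exists_fixed_of_card_gt {p q : ℕ} (hp : p.Prime) (hq : q.Prime) (hpq : p ≠ q)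
    {E : Subgroup G} [IsMulCommutative ↥E] (hEp : ∀ x ∈ E, x ^ p = 1) (hcard : p < Nat.card E)
    {Q : Subgroup G} (hQ : IsPGroup q Q) (hQne : Q ≠ ⊥) (hEQ : E ≤ normalizer (Q : Set G)) :
    ∃ x ∈ E, x ≠ 1 ∧ ∃ v ∈ Q, v ≠ 1 ∧ x * v = v * x := by
  obtain ⟨a, ha, ha1, b, hb, hind⟩ := exists_indep_pair hp hEp hcard
  have hab : a * b = b * a := congrArg Subtype.val (mul_comm' (⟨a, ha⟩ : ↥E) ⟨b, hb⟩)
  obtain ⟨v, hv, hv1, h | ⟨k, -, h⟩⟩ := exists_fixed_in_pgroup hp hq hpq hQ hQne (hEQ ha) (hEQ hb)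
    hab (hEp a ha) (hEp b hb)
  · exact ⟨a, ha, ha1, v, hv, hv1, h⟩
  · exact ⟨a ^ k * b, mul_mem (pow_mem ha k) hb, hind k, v, hv, hv1, h⟩

/-- Two independent elements of an elementary abelian `p`-group `E` of order greater than
`p ^ 2` acting on a nontrivial `q`-group `Q` (`q ≠ p`), with a common non-identity fixed
point. -/
theorem exists_fixed_pair_of_card_gt {p q : ℕ} (hp : p.Prime) (hq : q.Prime) (hpq : p ≠ q)
    {E : Subgroup G} [hEc : IsMulCommutative ↥E] (hEp : ∀ x ∈ E, x ^ p = 1)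
    (hcard : p ^ 2 < Nat.card E)
    {Q : Subgroup G} (hQ : IsPGroup q Q) (hQne : Q ≠ ⊥) (hEQ : E ≤ normalizer (Q : Set G)) :
    ∃ a ∈ E, a ≠ 1 ∧ ∃ u ∈ E, (∀ k : ℕ, a ^ k * u ≠ 1) ∧
      ∃ v ∈ Q, v ≠ 1 ∧ a * v = v * a ∧ u * v = v * u := by
  have := Fact.mk hp
  have hcomm : ∀ x ∈ E, ∀ y ∈ E, x * y = y * x := fun x hx y hy =>
    congrArg Subtype.val (mul_comm' (⟨x, hx⟩ : ↥E) ⟨y, hy⟩)
  have hp1 : p < Nat.card E := lt_of_le_of_lt (by nlinarith [hp.one_lt]) hcard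
  obtain ⟨x₁, hx₁, hx₁1, v₀, hv₀, hv₀1, hxv₀⟩ := exists_fixed_of_card_gt hp hq hpq hEp hp1 hQ hQne hEQ
  -- the fixed points of `x₁` in `Q`
  have hQ'ne : Q ⊓ centralizer ({x₁} : Set G) ≠ ⊥ := by
    intro h
    have : v₀ ∈ Q ⊓ centralizer ({x₁} : Set G) := by
      refine Subgroup.mem_inf.mpr ⟨hv₀, ?_⟩
      rw [Subgroup.mem_centralizer_iff]
      rintro h (rfl : h = x₁)
      exact hxv₀
    rw [h, Subgroup.mem_bot] at this
    exact hv₀1 this
  have hEQ' : E ≤ normalizer ((Q ⊓ centralizer ({x₁} : Set G) : Subgroup G) : Set G) := by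
    refine (le_inf hEQ ?_).trans Subgroup.inf_normalizer_le_normalizer_inf
    refine le_trans ?_ le_normalizer
    intro e he
    rw [Subgroup.mem_centralizer_iff]
    rintro h (rfl : h = x₁)
    exact hcomm _ hx₁ e he
  -- choose `y`, `z` in the commutative group `E`
  have ho : ∀ x ∈ E, x ≠ 1 → ∀ hx : x ∈ E, Nat.card (zpowers (⟨x, hx⟩ : ↥E)) = p := by
    intro x _ hx1 hx
    rw [Nat.card_zpowers]
    exact orderOf_eq_prime (Subtype.ext (hEp x hx)) (fun h => hx1 (congrArg Subtype.val h))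
  have hcE : Nat.card (⊤ : Subgroup ↥E) = Nat.card E := Subgroup.card_top
  obtain ⟨y, -, hy⟩ := exists_not_mem_of_card_lt (H := zpowers (⟨x₁, hx₁⟩ : ↥E))
    (E := (⊤ : Subgroup ↥E)) (by rw [ho x₁ hx₁ hx₁1 hx₁, hcE]; exact hp1)
  have hy1 : (y : G) ≠ 1 := by
    intro h
    apply hy
    have : y = 1 := Subtype.ext h
    rw [this]
    exact one_mem _
  have : (zpowers y).Normal := Subgroup.normal_of_isMulCommutative _
  have hsup : Nat.card ↥(zpowers (⟨x₁, hx₁⟩ : ↥E) ⊔ zpowers y) ≤ p ^ 2 := by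
    have h1 := card_sup_dvd_card_mul_card (zpowers (⟨x₁, hx₁⟩ : ↥E)) (zpowers y)
    rw [ho x₁ hx₁ hx₁1 hx₁, ho (y : G) y.2 hy1 y.2, ← pow_two] at h1
    exact Nat.le_of_dvd (pow_pos hp.pos 2) h1
  obtain ⟨z, -, hz⟩ := exists_not_mem_of_card_lt
    (H := zpowers (⟨x₁, hx₁⟩ : ↥E) ⊔ zpowers y) (E := (⊤ : Subgroup ↥E))
    (by rw [hcE]; exact lt_of_le_of_lt hsup hcard)
  have hyz : (y : G) * (z : G) = (z : G) * (y : G) := hcomm _ y.2 _ z.2
  obtain ⟨v, hv, hv1, h | ⟨k, -, h⟩⟩ := exists_fixed_in_pgroup hp hq hpq (hQ.to_le inf_le_left)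
    hQ'ne (hEQ' y.2) (hEQ' z.2) hyz (hEp _ y.2) (hEp _ z.2)
  · refine ⟨x₁, hx₁, hx₁1, y, y.2, ?_, v, hv.1, hv1, ?_, h⟩
    · intro k hk
      apply hy
      have h1 : (⟨x₁, hx₁⟩ : ↥E) ^ k * y = 1 := Subtype.ext hk
      have h2 : y = ((⟨x₁, hx₁⟩ : ↥E) ^ k)⁻¹ := eq_inv_of_mul_eq_one_right h1
      rw [h2]
      exact inv_mem (pow_mem (mem_zpowers _) k)
    · exact Subgroup.mem_centralizer_iff.mp hv.2 x₁ rfl
  · refine ⟨x₁, hx₁, hx₁1, (y : G) ^ k * (z : G), mul_mem (pow_mem y.2 k) z.2, ?_, v, hv.1, hv1,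
      ?_, h⟩
    · intro k' hk'
      apply hz
      have h1 : (⟨x₁, hx₁⟩ : ↥E) ^ k' * (y ^ k * z) = 1 := Subtype.ext hk'
      have h2 : z = (y ^ k)⁻¹ * ((⟨x₁, hx₁⟩ : ↥E) ^ k')⁻¹ := by
        have h3 : y ^ k * z = ((⟨x₁, hx₁⟩ : ↥E) ^ k')⁻¹ := eq_inv_of_mul_eq_one_right h1
        rw [← h3]
        group
      rw [h2]
      exact mul_mem (Subgroup.mem_sup_right (inv_mem (pow_mem (mem_zpowers _) k)))
        (Subgroup.mem_sup_left (inv_mem (pow_mem (mem_zpowers _) k')))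
    · exact Subgroup.mem_centralizer_iff.mp hv.2 x₁ rfl

/-- If two independent commuting elements `a`, `b` of exponent `p` of `Z(A)` fix a
non-identity element of the maximal `A`-invariant `q`-subgroup `Qs`, then every maximal
`A`-invariant `q`-subgroup is conjugate to `Qs` under `K = O_{π'}(C_G(A))`. -/
theorem conj_of_fixed_pair (hG : IsMinSimpleOddOrder G) {A : Subgroup G}
    (hA : TransitivityHypothesis A) {q : ℕ} (hq : q.Prime) (hqA : ¬ q ∣ Nat.card A) {p : ℕ}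
    (hp : p.Prime) {a b : G} (haZ : a ∈ A ⊓ centralizer (A : Set G))
    (hbZ : b ∈ A ⊓ centralizer (A : Set G)) (hab : a * b = b * a) (hap : a ^ p = 1)
    (hbp : b ^ p = 1) (ha1 : a ≠ 1) (hind : ∀ k : ℕ, a ^ k * b ≠ 1) {Qs : Subgroup G}
    (hQs : Qs ∈ maxInvSubgroups ⊤ A {q}) {v₁ : G} (hv₁ : v₁ ∈ Qs) (hv₁1 : v₁ ≠ 1)
    (hav : a * v₁ = v₁ * a) (hbv : b * v₁ = v₁ * b) :
    ∀ Q ∈ maxInvSubgroups ⊤ A {q},
      ∃ k ∈ piCoreOf (primesNotDvd (Nat.card A)) (centralizer (A : Set G)),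
        Qs = MulAut.conj k • Q := by
  have := Fact.mk hp
  intro Q hQ
  have hQne : Q ≠ ⊥ := by
    intro h
    have h1 : Qs = Q := hQ.2 Qs hQs.1 (h ▸ bot_le)
    rw [h1, h, Subgroup.mem_bot] at hv₁
    exact hv₁1 hv₁
  have hpA : p ∣ Nat.card A := by
    have h1 : orderOf a = p := orderOf_eq_prime hap ha1
    have h2 : orderOf (⟨a, haZ.1⟩ : ↥A) = p := by
      rw [← h1]
      exact Subgroup.orderOf_mk a haZ.1
    rw [← h2]
    exact orderOf_dvd_natCard _
  have hpq : p ≠ q := fun h => hqA (h ▸ hpA)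
  obtain ⟨v, hv, hv1, hx⟩ := exists_fixed_in_pgroup hp hq hpq (isPGroup_of_primes hQ.1.2.1) hQne
    (hQ.1.2.2 haZ.1) (hQ.1.2.2 hbZ.1) hab hap hbp
  have main : ∀ x : G, x ∈ A ⊓ centralizer (A : Set G) → x ≠ 1 → x * v = v * x →
      x * v₁ = v₁ * x → ∃ k ∈ piCoreOf (primesNotDvd (Nat.card A)) (centralizer (A : Set G)),
        Qs = MulAut.conj k • Q := by
    intro x hxZ hx1 hxv hxv₁
    have hH : centralizer ({x} : Set G) ≠ ⊤ := centralizer_singleton_ne_top hG.2 hx1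
    have hAH : A ≤ centralizer ({x} : Set G) := by
      intro g hg
      rw [Subgroup.mem_centralizer_iff]
      rintro h (rfl : h = x)
      exact (Subgroup.mem_centralizer_iff.mp hxZ.2 g hg).symm
    have hmem : ∀ {w : G}, x * w = w * x → w ∈ centralizer ({x} : Set G) := by
      intro w hw
      rw [Subgroup.mem_centralizer_iff]
      rintro h (rfl : h = x)
      exact hw
    have h1 : centralizer ({x} : Set G) ⊓ Q ≠ ⊥ := by
      intro h
      have : v ∈ centralizer ({x} : Set G) ⊓ Q := Subgroup.mem_inf.mpr ⟨hmem hxv, hv⟩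
      rw [h, Subgroup.mem_bot] at this
      exact hv1 this
    have h2 : centralizer ({x} : Set G) ⊓ Qs ≠ ⊥ := by
      intro h
      have : v₁ ∈ centralizer ({x} : Set G) ⊓ Qs := Subgroup.mem_inf.mpr ⟨hmem hxv₁, hv₁⟩
      rw [h, Subgroup.mem_bot] at this
      exact hv₁1 this
    exact conj_of_common_overgroup hG hA hq hqA hQ hQs hH hAH h1 h2
  rcases hx with hx | ⟨k, -, hx⟩
  · exact main a haZ ha1 hx hav
  · exact main (a ^ k * b) (mul_mem (pow_mem haZ k) hbZ) (hind k) hx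
      (((show Commute a v₁ from hav).pow_left k).mul_left (show Commute b v₁ from hbv))

omit [Finite G] in
/-- If every maximal `A`-invariant `q`-subgroup is `K`-conjugate to `Qs`, then `K` is
transitive on them. -/
theorem trans_of_forall_conj {A : Subgroup G} {q : ℕ} {Qs : Subgroup G}
    (h : ∀ Q ∈ maxInvSubgroups ⊤ A {q},
      ∃ k ∈ piCoreOf (primesNotDvd (Nat.card A)) (centralizer (A : Set G)),
        Qs = MulAut.conj k • Q) :
    ∀ Q₁ ∈ maxInvSubgroups ⊤ A {q}, ∀ Q₂ ∈ maxInvSubgroups ⊤ A {q},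
      ∃ k ∈ piCoreOf (primesNotDvd (Nat.card A)) (centralizer (A : Set G)),
        Q₂ = MulAut.conj k • Q₁ := by
  intro Q₁ h₁ Q₂ h₂
  obtain ⟨k₁, hk₁, e₁⟩ := h Q₁ h₁
  obtain ⟨k₂, hk₂, e₂⟩ := h Q₂ h₂
  refine ⟨k₂⁻¹ * k₁, mul_mem (inv_mem hk₂) hk₁, ?_⟩
  rw [← conj_smul_conj_smul, ← e₁, e₂, conj_smul_conj_smul, inv_mul_cancel, map_one, one_smul]

/-- Theorem 7.4: transitivity when `Z(A)` has rank at least 2 and `q` divides `#C_G(A)`. -/
theorem trans_of_rank_two (hG : IsMinSimpleOddOrder G) {A : Subgroup G}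
    (hA : TransitivityHypothesis A) (hZ : ¬ RankLE 1 ↥(A ⊓ centralizer (A : Set G)))
    {q : ℕ} (hq : q.Prime) (hqA : ¬ q ∣ Nat.card A)
    (hqC : q ∣ Nat.card (centralizer (A : Set G))) :
    ∀ Q₁ ∈ maxInvSubgroups ⊤ A {q}, ∀ Q₂ ∈ maxInvSubgroups ⊤ A {q},
      ∃ k ∈ piCoreOf (primesNotDvd (Nat.card A)) (centralizer (A : Set G)),
        Q₂ = MulAut.conj k • Q₁ := by
  have := Fact.mk hq
  obtain ⟨p, hp, E, hEZ, hEc, hEp, hcard⟩ := exists_elemAb_of_not_rankLE hZ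
  rw [pow_one] at hcard
  obtain ⟨a, ha, ha1, b, hb, hind⟩ := exists_indep_pair hp hEp hcard
  have hab : a * b = b * a := congrArg Subtype.val (mul_comm' (⟨a, ha⟩ : ↥E) ⟨b, hb⟩)
  -- a Sylow `q`-subgroup of `C_G(A)`
  obtain ⟨P⟩ := (inferInstance : Nonempty (Sylow q ↥(centralizer (A : Set G))))
  have hPne : (P : Subgroup ↥(centralizer (A : Set G))) ≠ ⊥ := P.ne_bot_of_dvd_card hqC
  obtain ⟨w, hw1⟩ := Subgroup.ne_bot_iff_exists_ne_one.mp hPne
  have hQ₀le : (P : Subgroup ↥(centralizer (A : Set G))).map (centralizer (A : Set G)).subtype ≤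
      centralizer (A : Set G) := Subgroup.map_subtype_le _
  have hQ₀ : (P : Subgroup ↥(centralizer (A : Set G))).map (centralizer (A : Set G)).subtype ∈
      invSubgroups ⊤ A {q} :=
    ⟨le_top, primes_of_isPGroup hq (P.2.map _), le_normalizer_of_le_centralizer hQ₀le⟩
  obtain ⟨Qs, hQs, hQ₀Qs⟩ := exists_maxInv_ge hQ₀
  have hwmem : ((w : ↥(centralizer (A : Set G))) : G) ∈
      (P : Subgroup ↥(centralizer (A : Set G))).map (centralizer (A : Set G)).subtype :=
    ⟨w, w.2, rfl⟩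
  have hwc : ((w : ↥(centralizer (A : Set G))) : G) ∈ centralizer (A : Set G) := hQ₀le hwmem
  have hw1' : ((w : ↥(centralizer (A : Set G))) : G) ≠ 1 :=
    fun h => hw1 (Subtype.ext (Subtype.ext h))
  exact trans_of_forall_conj (conj_of_fixed_pair hG hA hq hqA hp (hEZ ha) (hEZ hb) hab
    (hEp a ha) (hEp b hb) ha1 hind hQs (hQ₀Qs hwmem) hw1'
    (Subgroup.mem_centralizer_iff.mp hwc a (hEZ ha).1)
    (Subgroup.mem_centralizer_iff.mp hwc b (hEZ hb).1))

/-- Theorem 7.3: transitivity when `Z(A)` has rank at least 3. -/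
theorem trans_of_rank_three (hG : IsMinSimpleOddOrder G) {A : Subgroup G}
    (hA : TransitivityHypothesis A) (hZ : ¬ RankLE 2 ↥(A ⊓ centralizer (A : Set G)))
    {q : ℕ} (hq : q.Prime) (hqA : ¬ q ∣ Nat.card A) :
    ∀ Q₁ ∈ maxInvSubgroups ⊤ A {q}, ∀ Q₂ ∈ maxInvSubgroups ⊤ A {q},
      ∃ k ∈ piCoreOf (primesNotDvd (Nat.card A)) (centralizer (A : Set G)),
        Q₂ = MulAut.conj k • Q₁ := by
  obtain ⟨p, hp, E, hEZ, hEc, hEp, hcard⟩ := exists_elemAb_of_not_rankLE hZ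
  have := Fact.mk hp
  have hp1 : p < Nat.card E := lt_of_le_of_lt (by nlinarith [hp.one_lt]) hcard
  have hpA : p ∣ Nat.card A := by
    obtain ⟨a, ha, ha1, -⟩ := exists_indep_pair hp hEp hp1
    have h1 : orderOf a = p := orderOf_eq_prime (hEp a ha) ha1
    have h2 : orderOf (⟨a, (hEZ ha).1⟩ : ↥A) = p := by
      rw [← h1]
      exact Subgroup.orderOf_mk a (hEZ ha).1
    rw [← h2]
    exact orderOf_dvd_natCard _
  have hpq : p ≠ q := fun h => hqA (h ▸ hpA)
  intro Q₁ h₁ Q₂ h₂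
  by_cases hQ₁ : Q₁ = ⊥
  · refine ⟨1, one_mem _, ?_⟩
    rw [map_one, one_smul]
    exact h₁.2 Q₂ h₂.1 (hQ₁ ▸ bot_le)
  obtain ⟨a, ha, ha1, u, hu, hind, v, hv, hv1, hav, huv⟩ := exists_fixed_pair_of_card_gt hp hq hpq
    hEp hcard (isPGroup_of_primes h₁.1.2.1) hQ₁ ((inf_le_left.trans' hEZ).trans h₁.1.2.2)
  have hau : a * u = u * a := congrArg Subtype.val (mul_comm' (⟨a, ha⟩ : ↥E) ⟨u, hu⟩)
  obtain ⟨k, hk, e⟩ := conj_of_fixed_pair hG hA hq hqA hp (hEZ ha) (hEZ hu) hau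
    (hEp a ha) (hEp u hu) ha1 hind h₁ hv hv1 hav huv Q₂ h₂
  refine ⟨k⁻¹, inv_mem hk, ?_⟩
  rw [e, conj_smul_conj_smul, inv_mul_cancel, map_one, one_smul]

end Rank

section Superset

variable {G : Type u} [Group G] [Finite G]

omit [Finite G] in
theorem primesNotDvd_card_eq {A P : Subgroup G} (hAP : A ≤ P)
    (hPπ : ∀ r : ℕ, r.Prime → r ∣ Nat.card P → r ∣ Nat.card A) :
    primesNotDvd (Nat.card P) = primesNotDvd (Nat.card A) := by
  ext r
  constructor
  · rintro ⟨hr, h⟩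
    exact ⟨hr, fun h' => h (h'.trans (Subgroup.card_dvd_of_le hAP))⟩
  · rintro ⟨hr, h⟩
    exact ⟨hr, fun h' => h (hPπ r hr h')⟩

/-- Under the transitivity hypothesis, `O_{π'}(C_G(A)) = O_{π'}(N_G(A))`. -/
theorem piCoreOf_centralizer_eq (hG : IsMinSimpleOddOrder G) {A : Subgroup G}
    (hA : TransitivityHypothesis A) :
    piCoreOf (primesNotDvd (Nat.card A)) (centralizer (A : Set G)) =
      piCoreOf (primesNotDvd (Nat.card A)) (normalizer (A : Set G)) := by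
  have := hG.2.1
  have hN : normalizer (A : Set G) ≠ ⊤ := normalizer_ne_top_of_simple hA.1 hA.2.1
  apply le_antisymm _ (piCoreOf_normalizer_le A)
  rw [← hA.2.2 _ hN le_normalizer]
  apply le_sSup
  exact ⟨(piCoreOf_le _ _).trans (centralizer_le_normalizer _),
    fun p hp h => mem_of_dvd_card_piCoreOf _ _ hp h,
    le_normalizer_of_le_centralizer (piCoreOf_le _ _)⟩

theorem normalizer_le_normalizer_piCoreOf_centralizer (hG : IsMinSimpleOddOrder G)
    {A : Subgroup G} (hA : TransitivityHypothesis A) :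
    normalizer (A : Set G) ≤ normalizer
      (piCoreOf (primesNotDvd (Nat.card A)) (centralizer (A : Set G)) : Set G) := by
  rw [piCoreOf_centralizer_eq hG hA]
  exact le_normalizer_piCoreOf _ _

/-- The transitivity hypothesis passes from `A` to a proper `π(A)`-subgroup containing it. -/
theorem transitivityHypothesis_of_le {A : Subgroup G} (hA : TransitivityHypothesis A)
    {P : Subgroup G} (hP : P ≠ ⊤) (hAP : A ≤ P)
    (hPπ : ∀ r : ℕ, r.Prime → r ∣ Nat.card P → r ∣ Nat.card A) : TransitivityHypothesis P := by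
  refine ⟨fun h => hA.1 (le_bot_iff.mp (h ▸ hAP)), hP, fun X hX hPX => ?_⟩
  rw [primesNotDvd_card_eq hAP hPπ]
  apply le_antisymm
  · rw [← hA.2.2 X hX (hAP.trans hPX)]
    apply sSup_le_sSup
    intro Y hY
    exact ⟨hY.1, hY.2.1, hAP.trans hY.2.2⟩
  · apply le_sSup
    exact ⟨piCoreOf_le _ X, fun p hp h => mem_of_dvd_card_piCoreOf _ _ hp h,
      hPX.trans (le_normalizer_piCoreOf _ X)⟩

theorem coprime_card_piCoreOf {A P : Subgroup G}
    (hPπ : ∀ r : ℕ, r.Prime → r ∣ Nat.card P → r ∣ Nat.card A) (X : Subgroup G) :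
    (Nat.card P).Coprime (Nat.card (piCoreOf (primesNotDvd (Nat.card A)) X)) := by
  apply Nat.coprime_of_dvd
  intro r hr h1 h2
  exact (mem_of_dvd_card_piCoreOf _ _ hr h2).2 (hPπ r hr h1)

/-- `C_K(P) = O_{π'}(C_G(P))` for `K = O_{π'}(C_G(A))` and `A ≤ P`. -/
theorem piCoreOf_centralizer_inf (hG : IsMinSimpleOddOrder G) {A : Subgroup G}
    (hA : TransitivityHypothesis A) {P : Subgroup G} (hAP : A ≤ P) :
    piCoreOf (primesNotDvd (Nat.card A)) (centralizer (A : Set G)) ⊓ centralizer (P : Set G) =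
      piCoreOf (primesNotDvd (Nat.card A)) (centralizer (P : Set G)) := by
  have := hG.2.1
  have hN : normalizer (A : Set G) ≠ ⊤ := normalizer_ne_top_of_simple hA.1 hA.2.1
  have hCle : centralizer (P : Set G) ≤ centralizer (A : Set G) :=
    Subgroup.centralizer_le (fun x hx => hAP hx)
  apply le_antisymm
  · apply le_piCoreOf inf_le_right
    · exact (le_inf (hCle.trans (le_normalizer_piCoreOf _ _)) le_normalizer).trans
        Subgroup.inf_normalizer_le_normalizer_inf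
    · exact primes_of_le inf_le_left (fun p hp h => mem_of_dvd_card_piCoreOf _ _ hp h)
  · refine le_inf ?_ (piCoreOf_le _ _)
    rw [piCoreOf_centralizer_eq hG hA, ← hA.2.2 _ hN le_normalizer]
    apply le_sSup
    exact ⟨((piCoreOf_le _ _).trans hCle).trans (centralizer_le_normalizer _),
      fun p hp h => mem_of_dvd_card_piCoreOf _ _ hp h,
      le_normalizer_of_le_centralizer ((piCoreOf_le _ _).trans hCle)⟩

omit [Finite G] in
/-- Under the transitivity hypothesis the `A`-invariant `q`-subgroups of a proper subgroup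
`X ≥ A` lie in `O_{π'}(X)`. -/
theorem inv_le_piCoreOf {A : Subgroup G} (hA : TransitivityHypothesis A) {q : ℕ} (hq : q.Prime)
    (hqA : ¬ q ∣ Nat.card A) {X : Subgroup G} (hX : X ≠ ⊤) (hAX : A ≤ X) {Y : Subgroup G}
    (hY : Y ∈ invSubgroups X A {q}) : Y ≤ piCoreOf (primesNotDvd (Nat.card A)) X := by
  rw [← hA.2.2 X hX hAX]
  refine le_sSup ⟨hY.1, fun p hp hpY => ?_, hY.2.2⟩
  have : p = q := hY.2.1 p hp hpY
  rw [this]
  exact ⟨hq, hqA⟩

/-- Theorem 7.5(c), normal case. -/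
theorem maxInv_subset_of_normal (hG : IsMinSimpleOddOrder G) {A : Subgroup G}
    (hA : TransitivityHypothesis A) {q : ℕ} (hq : q.Prime) (hqA : ¬ q ∣ Nat.card A)
    {P : Subgroup G} (hPπ : ∀ r : ℕ, r.Prime → r ∣ Nat.card P → r ∣ Nat.card A) (hAP : A ≤ P)
    (hPn : P ≤ normalizer (A : Set G))
    (htr : ∀ Q₁ ∈ maxInvSubgroups ⊤ A {q}, ∀ Q₂ ∈ maxInvSubgroups ⊤ A {q},
      ∃ k ∈ piCoreOf (primesNotDvd (Nat.card A)) (centralizer (A : Set G)),
        Q₂ = MulAut.conj k • Q₁) :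
    maxInvSubgroups ⊤ P {q} ⊆ maxInvSubgroups ⊤ A {q} := by
  have := hG.2.1
  have := Fact.mk hq
  intro Q hQ
  have hQA : Q ∈ invSubgroups ⊤ A {q} := ⟨le_top, hQ.1.2.1, hAP.trans hQ.1.2.2⟩
  refine ⟨hQA, fun R hR hQR => ?_⟩
  by_cases hQbot : Q = ⊥
  · subst hQbot
    by_contra hne
    obtain ⟨Qs, hQs, -⟩ := exists_maxInv_ge hR
    have hKn : P ≤ normalizer
        (piCoreOf (primesNotDvd (Nat.card A)) (centralizer (A : Set G)) : Set G) :=
      hPn.trans (normalizer_le_normalizer_piCoreOf_centralizer hG hA)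
    have hcop := coprime_card_piCoreOf hPπ (centralizer (A : Set G))
    have hN : normalizer (A : Set G) ≠ ⊤ := normalizer_ne_top_of_simple hA.1 hA.2.1
    have hKtop : piCoreOf (primesNotDvd (Nat.card A)) (centralizer (A : Set G)) ≠ ⊤ :=
      fun h => hN (top_le_iff.mp
        (h ▸ (piCoreOf_le _ _).trans (centralizer_le_normalizer _)))
    have hsolv := hG.2.2.2 _ hKtop
    obtain ⟨Q₁, hQ₁, hPQ₁⟩ := glauberman_subgroup hKn hcop (Or.inr hsolv)
      (S := maxInvSubgroups ⊤ A {q}) ⟨Qs, hQs⟩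
      (fun a ha Q' hQ' => conj_mem_maxInvSubgroups (hPn ha) hQ')
      (fun k hk Q' hQ' => conj_mem_maxInvSubgroups
        (centralizer_le_normalizer _ (piCoreOf_le _ _ hk)) hQ')
      (fun Q' hQ' Q'' hQ'' => by
        obtain ⟨k, hk, e⟩ := htr Q' hQ' Q'' hQ''
        exact ⟨k, hk, e.symm⟩)
    have h1 : Q₁ = ⊥ := hQ.2 Q₁ ⟨le_top, hQ₁.1.2.1, hPQ₁⟩ bot_le
    have h2 : R = Q₁ := hQ₁.2 R hR (h1 ▸ bot_le)
    exact hne (h2.trans h1)
  · by_cases hQtop : Q = ⊤
    · exact (top_le_iff.mp (hQtop ▸ hQR)).trans hQtop.symm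
    have hH : normalizer (Q : Set G) ≠ ⊤ := normalizer_ne_top_of_simple hQbot hQtop
    have hAH : A ≤ normalizer (Q : Set G) := hQA.2.2
    have hQL : Q ≤ piCoreOf (primesNotDvd (Nat.card A)) (normalizer (Q : Set G)) :=
      inv_le_piCoreOf hA hq hqA hH hAH ⟨le_normalizer, hQ.1.2.1, hAH⟩
    have hRL : R ⊓ normalizer (Q : Set G) ≤
        piCoreOf (primesNotDvd (Nat.card A)) (normalizer (Q : Set G)) :=
      inv_le_piCoreOf hA hq hqA hH hAH ⟨inf_le_right, primes_of_le inf_le_left hR.2.1,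
        (le_inf hR.2.2 (hAH.trans le_normalizer)).trans
          Subgroup.inf_normalizer_le_normalizer_inf⟩
    have hPL : P ≤ normalizer
        (piCoreOf (primesNotDvd (Nat.card A)) (normalizer (Q : Set G)) : Set G) :=
      hQ.1.2.2.trans (le_normalizer_piCoreOf _ _)
    have hcop := coprime_card_piCoreOf hPπ (normalizer (Q : Set G))
    have hLtop : piCoreOf (primesNotDvd (Nat.card A)) (normalizer (Q : Set G)) ≠ ⊤ :=
      fun h => hH (top_le_iff.mp (h ▸ piCoreOf_le _ _))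
    have hsolv := hG.2.2.2 _ hLtop
    obtain ⟨S, hS, hQS, hPS⟩ := exists_invariant_sylow_ge hPL hcop (Or.inr hsolv) hQL
      (isPGroup_of_primes hQ.1.2.1) hQ.1.2.2
    have hSQ : S = Q :=
      hQ.2 S ⟨le_top, primes_of_isPGroup hq (isPGroup_of_mem_sylowSet hS), hPS⟩ hQS
    rw [hSQ] at hS
    have h3 : R ⊓ normalizer (Q : Set G) = Q := eq_of_mem_sylowSet_of_le hS hRL
      ((isPGroup_of_primes hR.2.1).to_le inf_le_left) (le_inf hQR le_normalizer)
    by_contra hne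
    have hlt : Q < R := lt_of_le_of_ne hQR (fun h => hne h.symm)
    obtain ⟨x, hxR, hxN, hxQ⟩ :=
      exists_mem_normalizer_not_mem hq (isPGroup_of_primes hR.2.1) hlt
    exact hxQ (h3 ▸ Subgroup.mem_inf.mpr ⟨hxR, hxN⟩)

/-- Theorem 7.5(b), normal case. -/
theorem trans_of_normal (hG : IsMinSimpleOddOrder G) {A : Subgroup G}
    (hA : TransitivityHypothesis A) {q : ℕ} (hq : q.Prime) (hqA : ¬ q ∣ Nat.card A)
    {P : Subgroup G} (hPπ : ∀ r : ℕ, r.Prime → r ∣ Nat.card P → r ∣ Nat.card A) (hAP : A ≤ P)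
    (hPn : P ≤ normalizer (A : Set G))
    (htr : ∀ Q₁ ∈ maxInvSubgroups ⊤ A {q}, ∀ Q₂ ∈ maxInvSubgroups ⊤ A {q},
      ∃ k ∈ piCoreOf (primesNotDvd (Nat.card A)) (centralizer (A : Set G)),
        Q₂ = MulAut.conj k • Q₁) :
    ∀ Q₁ ∈ maxInvSubgroups ⊤ P {q}, ∀ Q₂ ∈ maxInvSubgroups ⊤ P {q},
      ∃ k ∈ piCoreOf (primesNotDvd (Nat.card A)) (centralizer (P : Set G)),
        Q₂ = MulAut.conj k • Q₁ := by
  have := hG.2.1
  intro Q₁ h₁ Q₂ h₂
  have hsub := maxInv_subset_of_normal hG hA hq hqA hPπ hAP hPn htr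
  obtain ⟨k, hk, e⟩ := htr Q₁ (hsub h₁) Q₂ (hsub h₂)
  have hKn : P ≤ normalizer
      (piCoreOf (primesNotDvd (Nat.card A)) (centralizer (A : Set G)) : Set G) :=
    hPn.trans (normalizer_le_normalizer_piCoreOf_centralizer hG hA)
  have hcop := coprime_card_piCoreOf hPπ (centralizer (A : Set G))
  have hN : normalizer (A : Set G) ≠ ⊤ := normalizer_ne_top_of_simple hA.1 hA.2.1
  have hKtop : piCoreOf (primesNotDvd (Nat.card A)) (centralizer (A : Set G)) ≠ ⊤ :=
    fun h => hN (top_le_iff.mp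
      (h ▸ (piCoreOf_le _ _).trans (centralizer_le_normalizer _)))
  have hsolv := hG.2.2.2 _ hKtop
  obtain ⟨c, hc, e'⟩ := glauberman_conj_subgroup hKn hcop (Or.inr hsolv) h₁.1.2.2 h₂.1.2.2 hk
    e.symm
  rw [piCoreOf_centralizer_inf hG hA hAP] at hc
  exact ⟨c, hc, e'.symm⟩

omit [Finite G] in
/-- `[KH, KH] ≤ K [H, H]` when `H` normalizes `K`. -/
theorem commutator_sup_le {K H : Subgroup G} (hHK : H ≤ normalizer (K : Set G)) :
    ⁅K ⊔ H, K ⊔ H⁆ ≤ K ⊔ ⁅H, H⁆ := by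
  rw [Subgroup.commutator_le]
  intro g₁ hg₁ g₂ hg₂
  obtain ⟨k₁, hk₁, n₁, hn₁, rfl⟩ := exists_mul_of_mem_sup_of_le_normalizer hHK hg₁
  obtain ⟨k₂, hk₂, n₂, hn₂, rfl⟩ := exists_mul_of_mem_sup_of_le_normalizer hHK hg₂
  have hc : ∀ {n : G}, n ∈ H → ∀ {k : G}, k ∈ K → n * k * n⁻¹ ∈ K :=
    fun hn k hk => (Subgroup.mem_normalizer_iff.mp (hHK hn) k).mp hk
  have e : ⁅k₁ * n₁, k₂ * n₂⁆ = k₁ * (n₁ * k₂ * n₁⁻¹) *
      ((n₁ * n₂ * n₁⁻¹) * k₁⁻¹ * (n₁ * n₂ * n₁⁻¹)⁻¹) *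
      ((n₁ * n₂ * n₁⁻¹ * n₂⁻¹) * k₂⁻¹ * (n₁ * n₂ * n₁⁻¹ * n₂⁻¹)⁻¹) * ⁅n₁, n₂⁆ := by
    rw [commutatorElement_def, commutatorElement_def]
    group
  rw [e]
  refine mul_mem (Subgroup.mem_sup_left ?_) (Subgroup.mem_sup_right (Subgroup.commutator_mem_commutator hn₁ hn₂))
  refine mul_mem (mul_mem (mul_mem hk₁ (hc hn₁ hk₂)) ?_) ?_
  · exact hc (mul_mem (mul_mem hn₁ hn₂) (inv_mem hn₁)) (inv_mem hk₁)
  · exact hc (mul_mem (mul_mem (mul_mem hn₁ hn₂) (inv_mem hn₁)) (inv_mem hn₂)) (inv_mem hk₂)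

omit [Finite G] in
/-- Theorem 7.5(d), the Frattini argument. -/
theorem normalizer_eq_sup_of_trans {P : Subgroup G} {π : Set ℕ} {q : ℕ} {Q : Subgroup G}
    (hQ : Q ∈ maxInvSubgroups ⊤ P {q})
    (htr : ∀ Q₁ ∈ maxInvSubgroups ⊤ P {q}, ∀ Q₂ ∈ maxInvSubgroups ⊤ P {q},
      ∃ k ∈ piCoreOf π (centralizer (P : Set G)), Q₂ = MulAut.conj k • Q₁) :
    normalizer (P : Set G) = piCoreOf π (centralizer (P : Set G)) ⊔
      (normalizer (P : Set G) ⊓ normalizer (Q : Set G)) := by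
  have hK : piCoreOf π (centralizer (P : Set G)) ≤ normalizer (P : Set G) :=
    (piCoreOf_le _ _).trans (centralizer_le_normalizer _)
  apply le_antisymm _ (sup_le hK inf_le_left)
  intro x hx
  obtain ⟨k, hk, e⟩ := htr Q hQ _ (conj_mem_maxInvSubgroups hx hQ)
  have h1 : k⁻¹ * x ∈ normalizer (Q : Set G) := by
    rw [mem_normalizer_iff_conj_smul_eq, ← conj_smul_conj_smul, e, conj_smul_conj_smul,
      inv_mul_cancel, map_one, one_smul]
  have h2 : x = k * (k⁻¹ * x) := by group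
  rw [h2]
  exact mul_mem (Subgroup.mem_sup_left hk)
    (Subgroup.mem_sup_right (Subgroup.mem_inf.mpr ⟨mul_mem (inv_mem (hK hk)) hx, h1⟩))

omit [Finite G] in
/-- Theorem 7.5(d), the commutator part. -/
theorem inf_commutator_normalizer_le {P K Q : Subgroup G}
    (hKn : normalizer (P : Set G) ≤ normalizer (K : Set G))
    (hcop : (Nat.card P).Coprime (Nat.card K)) (hPQ : P ≤ normalizer (Q : Set G))
    (heq : normalizer (P : Set G) = K ⊔ (normalizer (P : Set G) ⊓ normalizer (Q : Set G))) :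
    P ⊓ ⁅normalizer (P : Set G), normalizer (P : Set G)⁆ ≤
      ⁅normalizer (Q : Set G), normalizer (Q : Set G)⁆ := by
  intro x hx
  have hN₁K : normalizer (P : Set G) ⊓ normalizer (Q : Set G) ≤ normalizer (K : Set G) :=
    inf_le_left.trans hKn
  have h1 : x ∈ K ⊔ ⁅normalizer (P : Set G) ⊓ normalizer (Q : Set G),
      normalizer (P : Set G) ⊓ normalizer (Q : Set G)⁆ := by
    have h2 : ⁅normalizer (P : Set G), normalizer (P : Set G)⁆ ≤
        K ⊔ ⁅normalizer (P : Set G) ⊓ normalizer (Q : Set G),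
          normalizer (P : Set G) ⊓ normalizer (Q : Set G)⁆ := by
      have h3 := commutator_sup_le hN₁K
      rwa [← heq] at h3
    exact h2 hx.2
  have hcl := Subgroup.commutator_le_self (normalizer (P : Set G) ⊓ normalizer (Q : Set G))
  obtain ⟨k, hk, n, hn, rfl⟩ := exists_mul_of_mem_sup_of_le_normalizer (hcl.trans hN₁K) h1
  have hxN₁ : k * n ∈ normalizer (P : Set G) ⊓ normalizer (Q : Set G) :=
    Subgroup.mem_inf.mpr ⟨le_normalizer hx.1, hPQ hx.1⟩
  have hnN₁ : n ∈ normalizer (P : Set G) ⊓ normalizer (Q : Set G) := hcl hn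
  have hkN₁ : k ∈ normalizer (P : Set G) ⊓ normalizer (Q : Set G) := by
    have := mul_mem hxN₁ (inv_mem hnN₁)
    simpa using this
  have hker : ∀ y : ↥(normalizer (P : Set G) ⊓ normalizer (Q : Set G)),
      Abelianization.of y = 1 ↔ (y : G) ∈ ⁅normalizer (P : Set G) ⊓ normalizer (Q : Set G),
        normalizer (P : Set G) ⊓ normalizer (Q : Set G)⁆ := by
    intro y
    rw [← MonoidHom.mem_ker, Abelianization.ker_of, ← Subgroup.map_subtype_commutator]
    constructor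
    · intro h
      exact ⟨y, h, rfl⟩
    · rintro ⟨y', hy', hyy'⟩
      have : y' = y := Subtype.ext hyy'
      rwa [this] at hy'
  have e1 : Abelianization.of (⟨k * n, hxN₁⟩ :
      ↥(normalizer (P : Set G) ⊓ normalizer (Q : Set G))) = Abelianization.of ⟨k, hkN₁⟩ := by
    have h4 : (⟨k * n, hxN₁⟩ : ↥(normalizer (P : Set G) ⊓ normalizer (Q : Set G))) =
        ⟨k, hkN₁⟩ * ⟨n, hnN₁⟩ := rfl
    rw [h4, map_mul, (hker ⟨n, hnN₁⟩).mpr hn, mul_one]
  have o1 : orderOf (Abelianization.of (⟨k * n, hxN₁⟩ :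
      ↥(normalizer (P : Set G) ⊓ normalizer (Q : Set G)))) ∣ Nat.card P := by
    refine (orderOf_map_dvd _ _).trans ?_
    rw [Subgroup.orderOf_mk, ← Subgroup.orderOf_mk (k * n) hx.1]
    exact orderOf_dvd_natCard _
  have o2 : orderOf (Abelianization.of (⟨k, hkN₁⟩ :
      ↥(normalizer (P : Set G) ⊓ normalizer (Q : Set G)))) ∣ Nat.card K := by
    refine (orderOf_map_dvd _ _).trans ?_
    rw [Subgroup.orderOf_mk, ← Subgroup.orderOf_mk k hk]
    exact orderOf_dvd_natCard _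
  rw [← e1] at o2
  have h5 := Nat.eq_one_of_dvd_coprimes hcop o1 o2
  rw [orderOf_eq_one_iff] at h5
  exact Subgroup.commutator_mono inf_le_right inf_le_right ((hker _).mp h5)

/-- Theorem 7.5 (a)-(c), by induction along a subnormal series from `A` to `P`. -/
theorem superset_of_subnormal (hG : IsMinSimpleOddOrder G) {q : ℕ} (hq : q.Prime)
    {P : Subgroup G} (hP : P ≠ ⊤) :
    ∀ B : Subgroup ↥P, B.IsSubnormal → ∀ A : Subgroup G, A ≤ P → A.subgroupOf P = B →
      TransitivityHypothesis A → ¬ q ∣ Nat.card A →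
      (∀ r : ℕ, r.Prime → r ∣ Nat.card P → r ∣ Nat.card A) →
      (∀ Q₁ ∈ maxInvSubgroups ⊤ A {q}, ∀ Q₂ ∈ maxInvSubgroups ⊤ A {q},
        ∃ k ∈ piCoreOf (primesNotDvd (Nat.card P)) (centralizer (A : Set G)),
          Q₂ = MulAut.conj k • Q₁) →
      piCoreOf (primesNotDvd (Nat.card P)) (centralizer (A : Set G)) ⊓ centralizer (P : Set G) =
          piCoreOf (primesNotDvd (Nat.card P)) (centralizer (P : Set G)) ∧
        (∀ Q₁ ∈ maxInvSubgroups ⊤ P {q}, ∀ Q₂ ∈ maxInvSubgroups ⊤ P {q},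
          ∃ k ∈ piCoreOf (primesNotDvd (Nat.card P)) (centralizer (P : Set G)),
            Q₂ = MulAut.conj k • Q₁) ∧
        maxInvSubgroups ⊤ P {q} ⊆ maxInvSubgroups ⊤ A {q} := by
  intro B hB
  induction hB with
  | top =>
    intro A hAP hAB hA hqA hPπ htr
    have hPA : P ≤ A := Subgroup.subgroupOf_eq_top.mp hAB
    have hAeq : A = P := le_antisymm hAP hPA
    rw [hAeq] at htr ⊢
    exact ⟨inf_eq_left.mpr (piCoreOf_le _ _), htr, subset_rfl⟩
  | step H K hHK hK hHn ih =>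
    intro A hAP hAB hA hqA hPπ htr
    have hA'P : K.map P.subtype ≤ P := Subgroup.map_subtype_le _
    have hA'K : (K.map P.subtype).subgroupOf P = K :=
      Subgroup.comap_map_eq_self_of_injective P.subtype_injective K
    have hAH : ∀ {a : G} (ha : a ∈ A), (⟨a, hAP ha⟩ : ↥P) ∈ H := by
      intro a ha
      rw [← hAB, Subgroup.mem_subgroupOf]
      exact ha
    have hAA' : A ≤ K.map P.subtype := fun a ha => ⟨⟨a, hAP ha⟩, hHK (hAH ha), rfl⟩
    have hA'n : K.map P.subtype ≤ normalizer (A : Set G) := by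
      rw [Subgroup.le_normalizer_iff]
      rintro _ ⟨k, hk, rfl⟩ a ha
      have h2 := hHn.conj_mem ⟨⟨a, hAP ha⟩, hHK (hAH ha)⟩
        (Subgroup.mem_subgroupOf.mpr (hAH ha)) ⟨k, hk⟩
      have h3 : k * ⟨a, hAP ha⟩ * k⁻¹ ∈ H := Subgroup.mem_subgroupOf.mp h2
      rw [← hAB, Subgroup.mem_subgroupOf] at h3
      exact h3
    have hA'top : K.map P.subtype ≠ ⊤ := fun h => hP (top_le_iff.mp (h ▸ hA'P))
    have hA'π : ∀ r : ℕ, r.Prime → r ∣ Nat.card (K.map P.subtype) → r ∣ Nat.card A :=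
      fun r hr h => hPπ r hr (h.trans (Subgroup.card_dvd_of_le hA'P))
    have hPπ' : ∀ r : ℕ, r.Prime → r ∣ Nat.card P → r ∣ Nat.card (K.map P.subtype) :=
      fun r hr h => (hPπ r hr h).trans (Subgroup.card_dvd_of_le hAA')
    have eA : primesNotDvd (Nat.card P) = primesNotDvd (Nat.card A) :=
      primesNotDvd_card_eq hAP hPπ
    rw [eA] at htr ⊢
    have hA'T : TransitivityHypothesis (K.map P.subtype) :=
      transitivityHypothesis_of_le hA hA'top hAA' hA'π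
    have htr' := trans_of_normal hG hA hq hqA hA'π hAA' hA'n htr
    have hsub' := maxInv_subset_of_normal hG hA hq hqA hA'π hAA' hA'n htr
    have hinf' := piCoreOf_centralizer_inf hG hA hAA'
    have hqA' : ¬ q ∣ Nat.card (K.map P.subtype) := fun h => hqA (hA'π q hq h)
    obtain ⟨i1, i2, i3⟩ := ih (K.map P.subtype) hA'P hA'K hA'T hqA' hPπ'
      (by rw [eA]; exact htr')
    rw [eA] at i1 i2
    refine ⟨?_, i2, i3.trans hsub'⟩
    rw [← i1, ← hinf', inf_assoc,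
      inf_eq_right.mpr (Subgroup.centralizer_le (fun x hx => hA'P hx))]

/-- Theorem 7.5. -/
theorem superset_of_trans (hG : IsMinSimpleOddOrder G) {A : Subgroup G}
    (hA : TransitivityHypothesis A) {q : ℕ} (hq : q.Prime) (hqA : ¬ q ∣ Nat.card A)
    {P : Subgroup G} (hP : P ≠ ⊤) (hPπ : ∀ r : ℕ, r.Prime → r ∣ Nat.card P → r ∣ Nat.card A)
    (hAP : A ≤ P) (hsn : (A.subgroupOf P).IsSubnormal)
    (htr : ∀ Q₁ ∈ maxInvSubgroups ⊤ A {q}, ∀ Q₂ ∈ maxInvSubgroups ⊤ A {q},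
      ∃ k ∈ piCoreOf (primesNotDvd (Nat.card A)) (centralizer (A : Set G)),
        Q₂ = MulAut.conj k • Q₁) :
    piCoreOf (primesNotDvd (Nat.card A)) (centralizer (A : Set G)) ⊓ centralizer (P : Set G) =
        piCoreOf (primesNotDvd (Nat.card A)) (centralizer (P : Set G)) ∧
      (∀ Q₁ ∈ maxInvSubgroups ⊤ P {q}, ∀ Q₂ ∈ maxInvSubgroups ⊤ P {q},
        ∃ k ∈ piCoreOf (primesNotDvd (Nat.card A)) (centralizer (P : Set G)),
          Q₂ = MulAut.conj k • Q₁) ∧
      maxInvSubgroups ⊤ P {q} ⊆ maxInvSubgroups ⊤ A {q} ∧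
      ∀ Q ∈ maxInvSubgroups ⊤ P {q},
        P ⊓ ⁅normalizer (P : Set G), normalizer (P : Set G)⁆ ≤
            ⁅normalizer (Q : Set G), normalizer (Q : Set G)⁆ ∧
          normalizer (P : Set G) = piCoreOf (primesNotDvd (Nat.card A)) (centralizer (P : Set G)) ⊔
            (normalizer (P : Set G) ⊓ normalizer (Q : Set G)) := by
  have eA : primesNotDvd (Nat.card P) = primesNotDvd (Nat.card A) :=
    primesNotDvd_card_eq hAP hPπ
  obtain ⟨i1, i2, i3⟩ := superset_of_subnormal hG hq hP _ hsn A hAP rfl hA hqA hPπ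
    (by rw [eA]; exact htr)
  rw [eA] at i1 i2
  refine ⟨i1, i2, i3, fun Q hQ => ?_⟩
  have hPT : TransitivityHypothesis P := transitivityHypothesis_of_le hA hP hAP hPπ
  have heq := normalizer_eq_sup_of_trans hQ i2
  have hKn : normalizer (P : Set G) ≤ normalizer
      (piCoreOf (primesNotDvd (Nat.card A)) (centralizer (P : Set G)) : Set G) := by
    have := normalizer_le_normalizer_piCoreOf_centralizer hG hPT
    rwa [eA] at this
  exact ⟨inf_commutator_normalizer_le hKn (coprime_card_piCoreOf hPπ _) hQ.1.2.2 heq, heq⟩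

end Superset

end Cfsg.Agent.Helper23
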